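import Mathlib
import Cfsg.Agent.Grp.AutCard

/-!
# Elements of order three with a two-dimensional commutator on a space over `F₃`: basics
-/

set_option autoImplicit false

namespace Cfsg.Agent.H41.Cub

open Subgroup Module

variable {S : Type*} [Group S] {E : Type*} [AddCommGroup E] [Module (ZMod 3) E]

theorem app_mul (ρ : Representation (ZMod 3) S E) (g h : S) (v : E) :
    ρ (g * h) v = ρ g (ρ h v) := by rw [map_mul]; rfl

theorem app_one (ρ : Representation (ZMod 3) S E) (v : E) : ρ 1 v = v := by rw [map_one]; rfl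

theorem app_inv (ρ : Representation (ZMod 3) S E) (g : S) (v : E) : ρ g⁻¹ (ρ g v) = v := by
  rw [← app_mul, inv_mul_cancel, app_one]

theorem app_inv' (ρ : Representation (ZMod 3) S E) (g : S) (v : E) : ρ g (ρ g⁻¹ v) = v := by
  rw [← app_mul, mul_inv_cancel, app_one]

theorem app_inj (ρ : Representation (ZMod 3) S E) (g : S) : Function.Injective (ρ g) :=
  Function.LeftInverse.injective (app_inv ρ g)

theorem app_ne (ρ : Representation (ZMod 3) S E) (g : S) {v : E} (h : v ≠ 0) : ρ g v ≠ 0 :=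
  fun h' => h (app_inj ρ g (by rw [h', map_zero]))

theorem three (v : E) : v + v + v = 0 := by
  have : (3 : ZMod 3) • v = 0 := by rw [show (3 : ZMod 3) = 0 from rfl, zero_smul]
  rw [← this, show (3 : ZMod 3) = 1 + 1 + 1 by norm_num, add_smul, add_smul, one_smul]

theorem eq_zero_of_neg {v : E} (h : v = -v) : v = 0 := by
  have := three v
  nth_rewrite 1 [h] at this
  simpa using this

theorem z3 (a : ZMod 3) : a = 0 ∨ a = 1 ∨ a = -1 := by revert a; decide

/-- The commutator space. -/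
def rg (ρ : Representation (ZMod 3) S E) (g : S) : Submodule (ZMod 3) E :=
  LinearMap.range (ρ g - 1)

/-- The fixed space. -/
def fx (ρ : Representation (ZMod 3) S E) (g : S) : Submodule (ZMod 3) E :=
  LinearMap.ker (ρ g - 1)

theorem mem_fx {ρ : Representation (ZMod 3) S E} {g : S} {v : E} : v ∈ fx ρ g ↔ ρ g v = v := by
  simp [fx, sub_eq_zero]

theorem sub_mem_rg (ρ : Representation (ZMod 3) S E) (g : S) (v : E) : ρ g v - v ∈ rg ρ g :=
  ⟨v, rfl⟩

theorem rg_le {ρ : Representation (ZMod 3) S E} {g : S} {W : Submodule (ZMod 3) E}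
    (h : ∀ v, ρ g v - v ∈ W) : rg ρ g ≤ W := by
  rintro _ ⟨v, rfl⟩
  exact h v

/-- The dimension of the commutator space. -/
noncomputable def dm (ρ : Representation (ZMod 3) S E) (g : S) : ℕ := finrank (ZMod 3) (rg ρ g)

theorem rg_conj (ρ : Representation (ZMod 3) S E) (g h : S) :
    rg ρ (g * h * g⁻¹) ≤ (rg ρ h).map (ρ g) := by
  refine rg_le fun v => ⟨ρ h (ρ g⁻¹ v) - ρ g⁻¹ v, sub_mem_rg _ _ _, ?_⟩
  rw [map_sub, app_inv', app_mul, app_mul]

theorem rg_mul (ρ : Representation (ZMod 3) S E) (g h : S) : rg ρ (g * h) ≤ rg ρ g ⊔ rg ρ h := by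
  refine rg_le fun v => ?_
  rw [app_mul, show ρ g (ρ h v) - v = (ρ g (ρ h v) - ρ h v) + (ρ h v - v) by abel]
  exact Submodule.add_mem_sup (sub_mem_rg _ _ _) (sub_mem_rg _ _ _)

theorem rg_inv (ρ : Representation (ZMod 3) S E) (g : S) : rg ρ g⁻¹ ≤ rg ρ g := by
  refine rg_le fun v => ?_
  have := neg_mem (sub_mem_rg ρ g (ρ g⁻¹ v))
  rwa [app_inv', neg_sub] at this

theorem pow_unip (ρ : Representation (ZMod 3) S E) {g : S} {v : E}
    (h : ρ g (ρ g v - v) = ρ g v - v) (n : ℕ) : ρ (g ^ n) v = v + n • (ρ g v - v) := by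
  induction n with
  | zero => simp
  | succ n ih => rw [pow_succ', app_mul, ih, map_add, map_nsmul, h, succ_nsmul]; abel

theorem fix_of_unip (ρ : Representation (ZMod 3) S E) {g : S} {n : ℕ} (hn : ¬ 3 ∣ n)
    (hg : g ^ n = 1) {v : E} (h : ρ g (ρ g v - v) = ρ g v - v) : ρ g v = v := by
  have h1 := pow_unip ρ h n
  rw [hg, app_one, left_eq_add, ← Nat.cast_smul_eq_nsmul (ZMod 3), smul_eq_zero,
    ZMod.natCast_eq_zero_iff] at h1
  exact sub_eq_zero.1 (h1.resolve_left hn)

theorem eq_one_of_fix {ρ : Representation (ZMod 3) S E} (hρ : Function.Injective ρ) {g : S}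
    (h : ∀ v, ρ g v = v) : g = 1 :=
  hρ (by rw [map_one]; exact LinearMap.ext h)

section fin

variable [Finite E]

theorem dm_conj (ρ : Representation (ZMod 3) S E) (g h : S) : dm ρ (g * h * g⁻¹) ≤ dm ρ h :=
  (Submodule.finrank_mono (rg_conj ρ g h)).trans (Submodule.finrank_map_le _ _)

theorem dm_mul (ρ : Representation (ZMod 3) S E) (g h : S) : dm ρ (g * h) ≤ dm ρ g + dm ρ h :=
  (Submodule.finrank_mono (rg_mul ρ g h)).trans (Submodule.finrank_add_le_finrank_add_finrank _ _)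

theorem dm_inv (ρ : Representation (ZMod 3) S E) (g : S) : dm ρ g⁻¹ ≤ dm ρ g :=
  Submodule.finrank_mono (rg_inv ρ g)

theorem dm_add (ρ : Representation (ZMod 3) S E) (g : S) :
    dm ρ g + finrank (ZMod 3) (fx ρ g) = finrank (ZMod 3) E :=
  LinearMap.finrank_range_add_finrank_ker _

theorem dm_pos {ρ : Representation (ZMod 3) S E} (hρ : Function.Injective ρ) {g : S} (hg : g ≠ 1) :
    0 < dm ρ g := by
  by_contra h
  have h0 : rg ρ g = ⊥ := Submodule.finrank_eq_zero.1 (by unfold dm at h; omega)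
  refine hg (eq_one_of_fix hρ fun v => ?_)
  have := sub_mem_rg ρ g v
  rwa [h0, Submodule.mem_bot, sub_eq_zero] at this

theorem card_sub (W : Submodule (ZMod 3) E) : Nat.card W = 3 ^ finrank (ZMod 3) W := by
  have : Fact (Nat.Prime 3) := ⟨Nat.prime_three⟩
  rw [Module.natCard_eq_pow_finrank (K := ZMod 3), Nat.card_zmod]

theorem card_E : Nat.card E = 3 ^ finrank (ZMod 3) E := by
  have : Fact (Nat.Prime 3) := ⟨Nat.prime_three⟩
  rw [Module.natCard_eq_pow_finrank (K := ZMod 3), Nat.card_zmod]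

theorem dvd_dm (ρ : Representation (ZMod 3) S E) {r : ℕ} (hr : r.Prime) (hr3 : r ≠ 3) {g : S}
    {k : ℕ} (hg : g ^ r ^ k = 1) : r ∣ 3 ^ dm ρ g - 1 := by
  have : Fact r.Prime := ⟨hr⟩
  letI : MulAction S E := MulAction.compHom E ρ
  have hp : IsPGroup r (zpowers g) := by
    rintro ⟨_, j, rfl⟩
    refine ⟨k, Subtype.ext ?_⟩
    simp only [SubgroupClass.coe_pow, OneMemClass.coe_one]
    rw [← zpow_natCast, ← zpow_mul, mul_comm, zpow_mul, zpow_natCast, hg, one_zpow]
  have h1 := hp.card_modEq_card_fixedPoints E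
  have h2 : MulAction.fixedPoints (zpowers g) E = (fx ρ g : Set E) := by
    ext v
    rw [SetLike.mem_coe, mem_fx]
    constructor
    · intro h
      exact h ⟨g, mem_zpowers g⟩
    · intro h x
      have : zpowers g ≤ MulAction.stabilizer S v := by
        rw [zpowers_le]; exact h
      exact this x.2
  rw [h2, SetLike.coe_sort_coe, card_sub, card_E, ← dm_add ρ g, pow_add] at h1
  have h3 : 3 ^ dm ρ g ≡ 1 [MOD r] := by
    refine Nat.ModEq.cancel_right_of_coprime (c := 3 ^ finrank (ZMod 3) (fx ρ g)) ?_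
      (by rwa [one_mul])
    exact ((Nat.coprime_primes hr Nat.prime_three).2 hr3).pow_right _
  exact (Nat.modEq_iff_dvd' (Nat.one_le_pow _ _ (by norm_num))).1 h3.symm

end fin

/-- `t` generates with its conjugates under `b` a four-group permuted cyclically by `b`. -/
structure Four (b t : S) : Prop where
  ne : t ≠ 1
  sq : t * t = 1
  comm : t * (b * t * b⁻¹) = b * t * b⁻¹ * t
  rot : b * (b * t * b⁻¹) * b⁻¹ = t * (b * t * b⁻¹)

/-- The geometry of the four-group. -/
structure Geo (ρ : Representation (ZMod 3) S E) (b t : S) (u : E) : Prop where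
  ne : u ≠ 0
  t0 : ρ t u = u
  t1 : ρ (b * t * b⁻¹) u = -u
  line : ∀ v, ρ t v = v → ρ (b * t * b⁻¹) v = -v → ∃ a : ZMod 3, v = a • u
  fix : ∀ v, ρ t v = v → ρ (b * t * b⁻¹) v = v → ρ b v = v

section geo

variable {ρ : Representation (ZMod 3) S E} {b t : S}

theorem Four.sq1 (h : Four b t) : b * t * b⁻¹ * (b * t * b⁻¹) = 1 := by
  rw [show b * t * b⁻¹ * (b * t * b⁻¹) = b * (t * t) * b⁻¹ by group, h.sq]; group

theorem Four.bt0 (_ : Four b t) (ρ : Representation (ZMod 3) S E) (v : E) :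
    ρ (b * t * b⁻¹) (ρ b v) = ρ b (ρ t v) := by
  rw [← app_mul, ← app_mul]; congr 2; group

theorem Four.bt1 (h : Four b t) (ρ : Representation (ZMod 3) S E) (v : E) :
    ρ t (ρ (b * t * b⁻¹) (ρ b v)) = ρ b (ρ (b * t * b⁻¹) v) := by
  rw [← app_mul, ← h.rot, ← app_mul, ← app_mul]; congr 2; group

theorem Four.tt (h : Four b t) (ρ : Representation (ZMod 3) S E) (v : E) : ρ t (ρ t v) = v := by
  rw [← app_mul, h.sq, app_one]

theorem Four.tt1 (h : Four b t) (ρ : Representation (ZMod 3) S E) (v : E) :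
    ρ (b * t * b⁻¹) (ρ (b * t * b⁻¹) v) = v := by
  rw [← app_mul, h.sq1, app_one]

theorem Four.cm (h : Four b t) (ρ : Representation (ZMod 3) S E) (v : E) :
    ρ (b * t * b⁻¹) (ρ t v) = ρ t (ρ (b * t * b⁻¹) v) := by
  rw [← app_mul, ← h.comm, app_mul]

/-- The weights are rotated by `b`. -/
theorem Four.wt (h : Four b t) {v : E} {a c : ZMod 3} (ha : a * a = 1) (h0 : ρ t v = a • v)
    (h1 : ρ (b * t * b⁻¹) v = c • v) :
    ρ t (ρ b v) = (a * c) • ρ b v ∧ ρ (b * t * b⁻¹) (ρ b v) = a • ρ b v := by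
  have e1 : ρ (b * t * b⁻¹) (ρ b v) = a • ρ b v := by rw [h.bt0, h0, map_smul]
  refine ⟨?_, e1⟩
  have e2 := h.bt1 ρ v
  rw [e1, h1, map_smul, map_smul] at e2
  rw [mul_smul, ← e2, smul_smul, ha, one_smul]

/-- The projection onto a weight space. -/
def pr (ρ : Representation (ZMod 3) S E) (b t : S) (a c : ZMod 3) : E →ₗ[ZMod 3] E :=
  (1 + a • ρ t) * (1 + c • ρ (b * t * b⁻¹))

theorem pr_apply (a c : ZMod 3) (v : E) : pr ρ b t a c v =
    v + c • ρ (b * t * b⁻¹) v + a • ρ t v + (a * c) • ρ t (ρ (b * t * b⁻¹) v) := by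
  simp [pr, mul_smul]; abel

theorem pr_wt (a c : ZMod 3) {v : E} {a' c' : ZMod 3} (h0 : ρ t v = a' • v)
    (h1 : ρ (b * t * b⁻¹) v = c' • v) : pr ρ b t a c v = ((1 + a * a') * (1 + c * c')) • v := by
  rw [pr_apply, h1, map_smul, h0]
  module

theorem Four.pr0 (h : Four b t) {a : ZMod 3} (ha : a * a = 1) (c : ZMod 3) (v : E) :
    ρ t (pr ρ b t a c v) = a • pr ρ b t a c v := by
  rw [pr_apply]
  simp only [map_add, map_smul, h.tt, smul_add, smul_smul, ← mul_assoc, ha, one_mul, one_smul]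
  abel

theorem Four.pr1 (h : Four b t) (a : ZMod 3) {c : ZMod 3} (hc : c * c = 1) (v : E) :
    ρ (b * t * b⁻¹) (pr ρ b t a c v) = c • pr ρ b t a c v := by
  rw [pr_apply]
  simp only [map_add, map_smul, h.tt1, h.cm, smul_add, smul_smul, hc, one_smul,
    show c * (a * c) = a by rw [mul_comm a, ← mul_assoc, hc, one_mul], mul_comm c a]
  abel

theorem pr_sum (v : E) : v = pr ρ b t 1 (-1) v + pr ρ b t (-1) 1 v + pr ρ b t (-1) (-1) v +
    pr ρ b t 1 1 v := by
  simp only [pr_apply, neg_smul, one_smul, mul_neg, neg_mul, one_mul, neg_neg]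
  have := three v
  linear_combination (norm := abel) -this

theorem three_le_dm [Finite E] {x y w : E} (hx : x ∈ rg ρ b) (hy : y ∈ rg ρ b) (hw : w ∈ rg ρ b)
    (h : ∀ a c d : ZMod 3, a • x + c • y + d • w = 0 → a = 0 ∧ c = 0 ∧ d = 0) : 3 ≤ dm ρ b := by
  have : LinearIndependent (ZMod 3) (![⟨x, hx⟩, ⟨y, hy⟩, ⟨w, hw⟩] : Fin 3 → rg ρ b) := by
    rw [Fintype.linearIndependent_iff]
    intro g hg
    have h1 := congrArg Subtype.val hg
    simp [Fin.sum_univ_three] at h1
    obtain ⟨a, c, d⟩ := h _ _ _ h1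
    intro i
    fin_cases i <;> assumption
  simpa [dm] using this.fintype_card_le_finrank

theorem Four.exists_geo [Finite E] (h : Four b t) (hρ : Function.Injective ρ)
    (hd : dm ρ b ≤ 2) : ∃ u, Geo ρ b t u := by
  have o1 : (1 : ZMod 3) * 1 = 1 := one_mul 1
  have o2 : (-1 : ZMod 3) * (-1) = 1 := by norm_num
  -- a nonzero vector of weight (+,-)
  obtain ⟨u, hu, h0, h1⟩ : ∃ u : E, u ≠ 0 ∧ ρ t u = (1 : ZMod 3) • u ∧
      ρ (b * t * b⁻¹) u = (-1 : ZMod 3) • u := by
    by_contra hno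
    push Not at hno
    have hA : ∀ v, pr ρ b t (-1) (-1) v = 0 := by
      intro v
      by_contra hv
      obtain ⟨e0, e1⟩ := h.wt o2 (h.pr0 (ρ := ρ) o2 (-1) v) (h.pr1 (-1) o2 v)
      rw [o2] at e0
      exact hno _ (app_ne ρ b hv) e0 e1
    have hB : ∀ v, pr ρ b t (-1) 1 v = 0 := by
      intro v
      by_contra hv
      obtain ⟨e0, e1⟩ := h.wt o2 (h.pr0 (ρ := ρ) o2 1 v) (h.pr1 (-1) o1 v)
      rw [mul_one] at e0
      obtain ⟨e2, e3⟩ := h.wt o2 e0 e1
      rw [o2] at e2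
      exact hno _ (app_ne ρ b (app_ne ρ b hv)) e2 e3
    refine h.ne (eq_one_of_fix hρ fun v => ?_)
    rw [pr_sum (ρ := ρ) (b := b) (t := t) v, hA, hB, map_add, map_add, map_add, h.pr0 o1, h.pr0 o1]
    simp
  obtain ⟨a0, a1⟩ := h.wt o1 h0 h1
  rw [one_mul] at a0
  obtain ⟨c0, c1⟩ := h.wt o2 a0 a1
  rw [mul_one] at c0
  have n1 := app_ne ρ b hu
  have n2 := app_ne ρ b n1
  refine ⟨u, hu, by simpa using h0, by simpa using h1, ?_, ?_⟩
  · intro v e0 e1
    by_contra hno
    push Not at hno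
    rw [← one_smul (ZMod 3) v] at e0 e1
    rw [map_smul, one_smul] at e0
    rw [map_smul, one_smul, ← neg_smul] at e1
    obtain ⟨f0, f1⟩ := h.wt o1 e0 e1
    rw [one_mul] at f0
    have := three_le_dm (sub_mem_rg ρ b u) (sub_mem_rg ρ b v) (sub_mem_rg ρ b (ρ b u)) (by
      intro a c d hs
      have k2 := congrArg (pr ρ b t (-1) (-1)) hs
      have k0 := congrArg (pr ρ b t 1 (-1)) hs
      simp only [map_add, map_smul, map_sub, map_zero, pr_wt _ _ h0 h1, pr_wt _ _ a0 a1,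
        pr_wt _ _ c0 c1, pr_wt _ _ e0 e1, pr_wt _ _ f0 f1] at k2 k0
      norm_num at k2 k0
      have h4 : (4 : ZMod 3) = 1 := rfl
      rw [h4] at k2 k0
      have hd0 : d = 0 := by simpa [n2] using k2
      rw [one_smul, one_smul, ← neg_add, neg_eq_zero] at k0
      have hc0 : c = 0 := by
        by_contra hc
        apply hno (-(c⁻¹ * a))
        have : Fact (Nat.Prime 3) := ⟨Nat.prime_three⟩
        rw [neg_smul, mul_smul, ← smul_neg, neg_eq_of_add_eq_zero_right k0, smul_smul,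
          inv_mul_cancel₀ hc, one_smul]
      rw [hc0, zero_smul, add_zero] at k0
      exact ⟨(smul_eq_zero.1 k0).resolve_right hu, hc0, hd0⟩)
    omega
  · intro v e0 e1
    by_contra hno
    rw [← one_smul (ZMod 3) v] at e0 e1
    rw [map_smul, one_smul] at e0 e1
    obtain ⟨f0, f1⟩ := h.wt o1 e0 e1
    rw [one_mul] at f0
    have := three_le_dm (sub_mem_rg ρ b u) (sub_mem_rg ρ b v) (sub_mem_rg ρ b (ρ b u)) (by
      intro a c d hs
      have k2 := congrArg (pr ρ b t (-1) (-1)) hs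
      have k0 := congrArg (pr ρ b t 1 (-1)) hs
      have k3 := congrArg (pr ρ b t 1 1) hs
      simp only [map_add, map_smul, map_sub, map_zero, pr_wt _ _ h0 h1, pr_wt _ _ a0 a1,
        pr_wt _ _ c0 c1, pr_wt _ _ e0 e1, pr_wt _ _ f0 f1] at k2 k0 k3
      norm_num at k2 k0 k3
      have h4 : (4 : ZMod 3) = 1 := rfl
      rw [h4] at k2 k0 k3
      refine ⟨by simpa [hu] using k0, k3.resolve_right ?_, by simpa [n2] using k2⟩
      rw [one_smul, one_smul, sub_eq_zero]
      exact hno)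
    omega

end geo

end Cfsg.Agent.H41.Cub
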