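import Mathlib
import Cfsg.Agent.H41.Cub1

/-!
# Groups generated by three-cycles modulo a normal `3'`-subgroup; signed permutation data
-/

set_option autoImplicit false

namespace Cfsg.Agent.H41.Cub

open Subgroup Module

variable {S : Type*} [Group S]

section perm

variable {Ω : Type*} [MulAction S Ω]

/-- `b` acts as a three-cycle on the orbit of `x` under `G`. -/
structure Tri (G R : Subgroup S) (b : S) (x : Ω) : Prop where
  mem : b ∈ G
  b3 : b ^ 3 = 1
  comm : ∀ g ∈ G, g * b * g⁻¹ * b⁻¹ ∈ R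
  conj : ∀ g ∈ G, ∀ r ∈ R, g * r * g⁻¹ ∈ R
  cube : ∀ w ∈ R, ∀ p : Ω, w • w • w • p = p → w • p = p
  mv : b • x ≠ x
  fix : ∀ g ∈ G, g • x = x ∨ g • x = b • x ∨ g • x = b • b • x ∨ b • g • x = g • x

variable {G R : Subgroup S} {b : S} {x : Ω}

theorem Tri.bbb (h : Tri G R b x) (p : Ω) : b • b • b • p = p := by
  rw [smul_smul, smul_smul, ← pow_three', h.b3, one_smul]

theorem Tri.inv (h : Tri G R b x) (p : Ω) : b⁻¹ • p = b • b • p := by
  rw [inv_smul_eq_iff, h.bbb]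

theorem Tri.tri (h : Tri G R b x) {p q : Ω} (hp : ∃ g ∈ G, p = g • x) (hq : ∃ g ∈ G, q = g • x)
    (hm : b • p ≠ p) : q = p ∨ q = b • p ∨ q = b • b • p ∨ b • q = q := by
  obtain ⟨g, hg, rfl⟩ := hp
  obtain ⟨k, hk, rfl⟩ := hq
  rcases h.fix g hg with e | e | e | e
  · rw [e]; exact h.fix k hk
  · rw [e, h.bbb]; have := h.fix k hk; tauto
  · rw [e, h.bbb]; have := h.fix k hk; tauto
  · exact absurd e hm

theorem orb_smul {k : S} (hk : k ∈ G) {p : Ω} (hp : ∃ g ∈ G, p = g • x) :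
    ∃ g ∈ G, k • p = g • x := by
  obtain ⟨g, hg, rfl⟩ := hp
  exact ⟨k * g, mul_mem hk hg, (mul_smul _ _ _).symm⟩

theorem Tri.c1 (h : Tri G R b x) {g : S} (hg : g ∈ G) {p : Ω} (hp : ∃ g ∈ G, p = g • x)
    (hm : b • p ≠ p) (h1 : (g * b * g⁻¹) • b • p = b • p)
    (h2 : (g * b * g⁻¹) • b • b • p = b • b • p) : False := by
  set β := g * b * g⁻¹ with hβ
  have hβG : β ∈ G := mul_mem (mul_mem hg h.mem) (inv_mem hg)
  have hβ3 : ∀ q : Ω, β • β • β • q = q := by
    intro q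
    rw [smul_smul, smul_smul, ← pow_three', hβ, conj_pow, h.b3]; simp
  have hm2 : b • b • p ≠ p := by
    intro e
    apply hm
    have := h.bbb p
    rwa [e] at this
  have hc : β * b⁻¹ ∈ R := h.comm g hg
  by_cases h0 : β • p = p
  · have := h.cube _ hc p (by
      simp only [mul_smul β, h.inv, h.bbb, h0, h1, h2])
    rw [mul_smul β, h.inv, h2] at this
    exact hm2 this
  · have hw : β * b * β⁻¹ * b⁻¹ ∈ R := by
      have e : β * b * β⁻¹ * b⁻¹ = (β * b⁻¹) * (b * (β * b⁻¹)⁻¹ * b⁻¹) := by group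
      rw [e]
      exact mul_mem (h.comm g hg) (h.conj b h.mem _ (inv_mem (h.comm g hg)))
    have hy1 : b • β • p = β • p := by
      rcases h.tri hp (orb_smul hβG hp) hm with e | e | e | e
      · exact absurd e h0
      · rw [← h1, smul_left_cancel_iff] at e
        exact absurd e.symm hm
      · rw [← h2, smul_left_cancel_iff] at e
        exact absurd e.symm hm2
      · exact e
    have hy2 : b • β • β • p = β • β • p := by
      rcases h.tri hp (orb_smul hβG (orb_smul hβG hp)) hm with e | e | e | e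
      · have := hβ3 p
        rw [e] at this
        exact absurd this h0
      · have := hβ3 p
        rw [e, h1] at this
        exact absurd this hm
      · have := hβ3 p
        rw [e, h2] at this
        exact absurd this hm2
      · exact e
    have i2 : β⁻¹ • b • b • p = b • b • p := by rw [inv_smul_eq_iff, h2]
    have ip : β⁻¹ • p = β • β • p := by rw [inv_smul_eq_iff, hβ3]
    have j1 : b⁻¹ • β • p = β • p := by rw [inv_smul_eq_iff, hy1]
    have w1 : (β * b * β⁻¹ * b⁻¹) • p = β • p := by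
      simp only [mul_smul]
      rw [h.inv, i2, h.bbb]
    have w2 : (β * b * β⁻¹ * b⁻¹) • β • p = b • p := by
      simp only [mul_smul]
      rw [j1, inv_smul_smul, h1]
    have w3 : (β * b * β⁻¹ * b⁻¹) • b • p = p := by
      simp only [mul_smul]
      rw [inv_smul_smul, ip, hy2, hβ3]
    have := h.cube _ hw p (by rw [w1, w2, w3])
    rw [w1] at this
    exact h0 this

theorem Tri.c2 (h : Tri G R b x) {g : S} (hg : g ∈ G) {p q : Ω} (hp : ∃ g ∈ G, p = g • x)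
    (hq : ∃ g ∈ G, q = g • x) (hpq : q ≠ p) (mp : b • p ≠ p) (mq : b • q ≠ q)
    (h1 : (g * b * g⁻¹) • p = p) (h2 : (g * b * g⁻¹) • q = q) : False := by
  rcases h.tri hp hq mp with e | e | e | e
  · exact hpq e
  · subst e
    refine h.c1 hg (orb_smul h.mem hq) ?_ (by rwa [h.bbb]) (by rwa [h.bbb])
    rwa [Ne, smul_left_cancel_iff]
  · subst e
    exact h.c1 hg (orb_smul h.mem hp) (by rwa [Ne, smul_left_cancel_iff]) h2 (by rwa [h.bbb])
  · exact mq e

theorem conj_fix (g b : S) (p : Ω) : (g * b * g⁻¹) • p = p ↔ b • g⁻¹ • p = g⁻¹ • p := by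
  rw [mul_smul, mul_smul, smul_eq_iff_eq_inv_smul]

theorem Tri.c3 (h : Tri G R b x) {g k : S} (hg : g ∈ G) (hk : k ∈ G) {p q : Ω}
    (hp : ∃ g ∈ G, p = g • x) (hq : ∃ g ∈ G, q = g • x) (hpq : q ≠ p)
    (mp : (g * b * g⁻¹) • p ≠ p) (mq : (g * b * g⁻¹) • q ≠ q)
    (h1 : (k * b * k⁻¹) • p = p) (h2 : (k * b * k⁻¹) • q = q) : False := by
  rw [Ne, conj_fix] at mp mq
  refine h.c2 (mul_mem (inv_mem hg) hk) (orb_smul (inv_mem hg) hp) (orb_smul (inv_mem hg) hq)
    (by rwa [Ne, smul_left_cancel_iff]) mp mq ?_ ?_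
  · rw [conj_fix] at h1 ⊢
    simpa [mul_smul] using h1
  · rw [conj_fix] at h2 ⊢
    simpa [mul_smul] using h2

theorem Tri.m4 (h : Tri G R b x) {g : S} (hg : g ∈ G) {p q r s : Ω}
    (hp : ∃ g ∈ G, p = g • x) (hq : ∃ g ∈ G, q = g • x) (hr : ∃ g ∈ G, r = g • x)
    (hs : ∃ g ∈ G, s = g • x) (mp : (g * b * g⁻¹) • p ≠ p) (mq : (g * b * g⁻¹) • q ≠ q)
    (mr : (g * b * g⁻¹) • r ≠ r) (ms : (g * b * g⁻¹) • s ≠ s) :
    q = p ∨ r = p ∨ s = p ∨ q = r ∨ q = s ∨ r = s := by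
  rw [Ne, conj_fix] at mp mq mr ms
  have hp' := orb_smul (inv_mem hg) hp
  have e1 := h.tri hp' (orb_smul (inv_mem hg) hq) mp
  have e2 := h.tri hp' (orb_smul (inv_mem hg) hr) mp
  have e3 := h.tri hp' (orb_smul (inv_mem hg) hs) mp
  simp only [← smul_left_cancel_iff g⁻¹ (x := q), ← smul_left_cancel_iff g⁻¹ (x := r),
    ← smul_left_cancel_iff g⁻¹ (x := s)]
  rcases e1 with e1 | e1 | e1 | e1 <;> rcases e2 with e2 | e2 | e2 | e2 <;>
    rcases e3 with e3 | e3 | e3 | e3 <;> simp_all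

theorem Tri.atmost (h : Tri G R b x) {g k : S} (hg : g ∈ G) (hk : k ∈ G)
    (fg : b • g • x = g • x) (fk : b • k • x = k • x) : g • x = k • x := by
  by_contra hne
  have o0 : ∃ g ∈ G, x = g • x := ⟨1, one_mem _, (one_smul _ _).symm⟩
  have o1 := orb_smul h.mem o0
  have o2 := orb_smul h.mem o1
  have og : ∃ g' ∈ G, g • x = g' • x := ⟨g, hg, rfl⟩
  have ok : ∃ g' ∈ G, k • x = g' • x := ⟨k, hk, rfl⟩
  have m0 := h.mv
  have m1 : b • b • x ≠ b • x := by rwa [Ne, smul_left_cancel_iff]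
  have m2 : b • b • b • x ≠ b • b • x := by rwa [Ne, smul_left_cancel_iff]
  have m2' : b • b • x ≠ x := by rw [h.bbb] at m2; exact m2.symm
  have mv : ∀ g : S, (g * b * g⁻¹) • g • x ≠ g • x := by
    intro g
    rw [Ne, conj_fix, inv_smul_smul]
    exact m0
  have nf : ∀ p q : Ω, b • p = p → b • q ≠ q → p ≠ q := by
    rintro p q e1 e2 rfl
    exact e2 e1
  -- a conjugate moving `g • x` and a prescribed point of the triple
  have key : ∀ p : Ω, p = x ∨ p = b • x ∨ p = b • b • x →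
      ∃ g' ∈ G, (g' * b * g'⁻¹) • p ≠ p ∧ (g' * b * g'⁻¹) • g • x ≠ g • x := by
    have step : ∀ p : Ω, (∃ g' ∈ G, (g' * b * g'⁻¹) • p ≠ p ∧ (g' * b * g'⁻¹) • g • x ≠ g • x) →
        ∃ g' ∈ G, (g' * b * g'⁻¹) • b • p ≠ b • p ∧ (g' * b * g'⁻¹) • g • x ≠ g • x := by
      rintro p ⟨g', hg', a1, a2⟩
      refine ⟨b * g', mul_mem h.mem hg', ?_, ?_⟩
      · rw [Ne, conj_fix] at a1 ⊢
        simpa [mul_smul] using a1
      · rw [Ne, conj_fix] at a2 ⊢
        rw [← fg]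
        simpa [mul_smul] using a2
    have base : ∃ g' ∈ G, (g' * b * g'⁻¹) • x ≠ x ∧ (g' * b * g'⁻¹) • g • x ≠ g • x := by
      by_cases a0 : (g * b * g⁻¹) • x = x
      · have a1 : (g * b * g⁻¹) • b • x ≠ b • x := fun a1 => h.c2 hg o0 o1 m0 m0 m1 a0 a1
        have := step _ (step _ ⟨g, hg, a1, mv g⟩)
        rwa [h.bbb] at this
      · exact ⟨g, hg, a0, mv g⟩
    rintro p (rfl | rfl | rfl)
    · exact base
    · exact step _ base
    · exact step _ (step _ base)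
  have fin : ∀ p q r : Ω, (p = x ∨ p = b • x ∨ p = b • b • x) → (∃ g ∈ G, p = g • x) →
      (∃ g ∈ G, q = g • x) → (∃ g ∈ G, r = g • x) → b • p ≠ p → b • q ≠ q → b • r ≠ r →
      q ≠ p → r ≠ p → q ≠ r → (k * b * k⁻¹) • p = p → False := by
    intro p q r hp op oq or' mp mq mr n1 n2 n3 a0
    have a1 : (k * b * k⁻¹) • q ≠ q := fun a1 => h.c2 hk op oq n1 mp mq a0 a1
    have a2 : (k * b * k⁻¹) • r ≠ r := fun a2 => h.c2 hk op or' n2 mp mr a0 a2
    have a3 : (k * b * k⁻¹) • g • x = g • x := by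
      by_contra a3
      rcases h.m4 hk oq ok og or' a1 (mv k) a3 a2 with e | e | e | e | e | e
      exacts [nf _ _ fk mq e, nf _ _ fg mq e, n3 e.symm, hne e.symm, nf _ _ fk mr e, nf _ _ fg mr e]
    obtain ⟨g', hg', b1, b2⟩ := key p hp
    exact h.c3 hg' hk op og (nf _ _ fg mp) b1 b2 a0 a3
  by_cases a0 : (k * b * k⁻¹) • x = x
  · exact fin _ _ _ (Or.inl rfl) o0 o1 o2 m0 m1 m2 m0 m2' m1.symm a0
  by_cases a1 : (k * b * k⁻¹) • b • x = b • x
  · exact fin _ _ _ (Or.inr (Or.inl rfl)) o1 o0 o2 m1 m0 m2 m0.symm m1 m2'.symm a1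
  by_cases a2 : (k * b * k⁻¹) • b • b • x = b • b • x
  · exact fin _ _ _ (Or.inr (Or.inr rfl)) o2 o0 o1 m2 m0 m1 m2'.symm m1.symm m0.symm a2
  rcases h.m4 hk o0 o1 o2 ok a0 a1 a2 (mv k) with e | e | e | e | e | e
  exacts [m0 e, m2' e, nf _ _ fk m0 e, m1 e.symm, nf _ _ fk m1 e.symm, nf _ _ fk m2 e.symm]

end perm

/-- Signed permutations. -/
@[ext] structure SP (n : ℕ) where
  s : Equiv.Perm (Fin n)
  e : Fin n → ℤˣ
deriving Fintype

namespace SP

variable {n : ℕ}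

instance : DecidableEq (SP n) := fun x y =>
  decidable_of_iff (∀ i, x.s i = y.s i ∧ x.e i = y.e i)
    ⟨fun h => SP.ext (Equiv.ext fun i => (h i).1) (funext fun i => (h i).2),
      fun h _ => h ▸ ⟨rfl, rfl⟩⟩

instance : Mul (SP n) := ⟨fun x y => ⟨x.s * y.s, fun i => y.e i * x.e (y.s i)⟩⟩
instance : One (SP n) := ⟨⟨1, fun _ => 1⟩⟩
instance : Inv (SP n) := ⟨fun x => ⟨x.s⁻¹, fun i => x.e (x.s⁻¹ i)⟩⟩

@[simp] theorem mul_s (x y : SP n) : (x * y).s = x.s * y.s := rfl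
@[simp] theorem mul_e (x y : SP n) (i : Fin n) : (x * y).e i = y.e i * x.e (y.s i) := rfl
@[simp] theorem one_s : (1 : SP n).s = 1 := rfl
@[simp] theorem one_e (i : Fin n) : (1 : SP n).e i = 1 := rfl
@[simp] theorem inv_s (x : SP n) : (x⁻¹).s = x.s⁻¹ := rfl
@[simp] theorem inv_e (x : SP n) (i : Fin n) : (x⁻¹).e i = x.e (x.s⁻¹ i) := rfl

instance : Group (SP n) := Group.ofLeftAxioms
  (fun x y z => by ext i <;> simp [mul_assoc])
  (fun x => by ext i <;> simp)
  (fun x => by ext i <;> simp)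

/-- The two signs of a signed permutation. -/
def sg : SP n →* ℤˣ × ℤˣ where
  toFun x := (Equiv.Perm.sign x.s, ∏ i, x.e i)
  map_one' := by simp
  map_mul' x y := by
    simp only [mul_s, Equiv.Perm.sign_mul, mul_e, Finset.prod_mul_distrib, Prod.mk_mul_mk,
      Equiv.prod_comp y.s x.e, mul_comm (∏ i, y.e i)]

/-- The underlying permutation. -/
def pm : SP n →* Equiv.Perm (Fin n) where
  toFun x := x.s
  map_one' := rfl
  map_mul' _ _ := rfl

end SP

end Cfsg.Agent.H41.Cub
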