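import Mathlib
import Cfsg.Agent.H41.Cub2
import Cfsg.Agent.TT.XS

/-!
# The monomial action of `R B` on the span of the orbit of a weight vector
-/

set_option autoImplicit false

namespace Cfsg.Agent.H41.Cub

open Subgroup Module

variable {S : Type*} [Group S] {E : Type*} [AddCommGroup E] [Module (ZMod 3) E]

/-- The standing configuration. -/
structure Cfg (ρ : Representation (ZMod 3) S E) (R : Subgroup S) (b : S) : Prop where
  inj : Function.Injective ρ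
  b3 : b ^ 3 = 1
  dm : dm ρ b ≤ 2
  norm : ∀ r ∈ R, b * r * b⁻¹ ∈ R
  two : IsPGroup 2 R
  gen : ∀ K : Subgroup S, (∀ r ∈ R, r * b * r⁻¹ ∈ K) → R ≤ K

/-- The span of the orbit of a vector. -/
def F0 (ρ : Representation (ZMod 3) S E) (G : Subgroup S) (u : E) : Submodule (ZMod 3) E :=
  Submodule.span (ZMod 3) {w | ∃ g ∈ G, w = ρ g u}

variable {ρ : Representation (ZMod 3) S E} {R : Subgroup S} {b t : S} {u : E}

theorem mem_F0 {G : Subgroup S} {g : S} (hg : g ∈ G) : ρ g u ∈ F0 ρ G u :=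
  Submodule.subset_span ⟨g, hg, rfl⟩

theorem F0_inv {G : Subgroup S} {g : S} (hg : g ∈ G) {v : E} (hv : v ∈ F0 ρ G u) :
    ρ g v ∈ F0 ρ G u := by
  have : (F0 ρ G u).map (ρ g) ≤ F0 ρ G u := by
    rw [F0, Submodule.map_span, Submodule.span_le]
    rintro _ ⟨_, ⟨k, hk, rfl⟩, rfl⟩
    rw [← app_mul]
    exact mem_F0 (mul_mem hg hk)
  exact this ⟨v, hv, rfl⟩

theorem fix_F0 {G : Subgroup S} {r : S} (h : ∀ g ∈ G, ρ r (ρ g u) = ρ g u) {v : E}
    (hv : v ∈ F0 ρ G u) : ρ r v = v := by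
  have : F0 ρ G u ≤ fx ρ r := by
    rw [F0, Submodule.span_le]
    rintro _ ⟨k, hk, rfl⟩
    exact mem_fx.2 (h k hk)
  exact mem_fx.1 (this hv)

theorem bbb (h3 : b ^ 3 = 1) (v : E) : ρ b (ρ b (ρ b v)) = v := by
  rw [← app_mul, ← app_mul, ← pow_three', h3, app_one]

theorem Geo.line1 (g : Geo ρ b t u) (f : Four b t) (h3 : b ^ 3 = 1) {v : E}
    (h0 : ρ t v = (-1 : ZMod 3) • v) (h1 : ρ (b * t * b⁻¹) v = (1 : ZMod 3) • v) :
    ∃ a : ZMod 3, v = a • ρ b u := by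
  have o2 : (-1 : ZMod 3) * (-1) = 1 := by norm_num
  obtain ⟨e0, e1⟩ := f.wt o2 h0 h1
  rw [mul_one] at e0
  obtain ⟨e2, e3⟩ := f.wt o2 e0 e1
  rw [o2] at e2
  obtain ⟨a, ha⟩ := g.line _ (by simpa using e2) (by simpa using e3)
  exact ⟨a, by rw [← map_smul, ← ha, bbb h3]⟩

theorem Geo.line2 (g : Geo ρ b t u) (f : Four b t) (h3 : b ^ 3 = 1) {v : E}
    (h0 : ρ t v = (-1 : ZMod 3) • v) (h1 : ρ (b * t * b⁻¹) v = (-1 : ZMod 3) • v) :
    ∃ a : ZMod 3, v = a • ρ b (ρ b u) := by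
  have o2 : (-1 : ZMod 3) * (-1) = 1 := by norm_num
  obtain ⟨e0, e1⟩ := f.wt o2 h0 h1
  rw [o2] at e0
  obtain ⟨a, ha⟩ := g.line _ (by simpa using e0) (by simpa using e1)
  exact ⟨a, by rw [← map_smul, ← map_smul, ← ha, bbb h3]⟩

theorem Geo.w1 (g : Geo ρ b t u) (f : Four b t) :
    ρ t (ρ b u) = -ρ b u ∧ ρ (b * t * b⁻¹) (ρ b u) = ρ b u := by
  have := f.wt (ρ := ρ) (v := u) (a := 1) (c := -1) (one_mul 1) (by simpa using g.t0)
    (by simpa using g.t1)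
  simpa using this

theorem Geo.w2 (g : Geo ρ b t u) (f : Four b t) :
    ρ t (ρ b (ρ b u)) = -ρ b (ρ b u) ∧ ρ (b * t * b⁻¹) (ρ b (ρ b u)) = -ρ b (ρ b u) := by
  have := f.wt (ρ := ρ) (v := ρ b u) (a := -1) (c := 1) (by norm_num) (by simpa using (g.w1 f).1)
    (by simpa using (g.w1 f).2)
  simpa using this

theorem Geo.decomp (g : Geo ρ b t u) (f : Four b t) (h3 : b ^ 3 = 1) (v : E) :
    ∃ (a0 a1 a2 : ZMod 3) (c : E), v = a0 • u + a1 • ρ b u + a2 • ρ b (ρ b u) + c ∧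
      ρ t c = c ∧ ρ (b * t * b⁻¹) c = c := by
  have o1 : (1 : ZMod 3) * 1 = 1 := one_mul 1
  have o2 : (-1 : ZMod 3) * (-1) = 1 := by norm_num
  obtain ⟨a0, h0⟩ := g.line (pr ρ b t 1 (-1) v) (by simpa using f.pr0 (ρ := ρ) o1 (-1) v)
    (by simpa using f.pr1 (ρ := ρ) 1 o2 v)
  obtain ⟨a1, h1⟩ := g.line1 f h3 (f.pr0 (ρ := ρ) o2 1 v) (f.pr1 (-1) o1 v)
  obtain ⟨a2, h2⟩ := g.line2 f h3 (f.pr0 (ρ := ρ) o2 (-1) v) (f.pr1 (-1) o2 v)
  refine ⟨a0, a1, a2, pr ρ b t 1 1 v, ?_, by simpa using f.pr0 (ρ := ρ) o1 1 v,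
    by simpa using f.pr1 (ρ := ρ) 1 o1 v⟩
  rw [← h0, ← h1, ← h2]
  exact pr_sum v

theorem Geo.dm_t [Finite E] (g : Geo ρ b t u) (f : Four b t) (h3 : b ^ 3 = 1) : dm ρ t ≤ 2 := by
  have : rg ρ t ≤ Submodule.span (ZMod 3) (Set.range ![ρ b u, ρ b (ρ b u)]) := by
    refine rg_le fun v => ?_
    obtain ⟨a0, a1, a2, c, rfl, h0, -⟩ := g.decomp f h3 v
    rw [Submodule.mem_span_range_iff_exists_fun]
    refine ⟨![-(2 * a1), -(2 * a2)], ?_⟩
    simp only [map_add, map_smul, g.t0, (g.w1 f).1, (g.w2 f).1, h0, Fin.sum_univ_two,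
      Matrix.cons_val_zero, Matrix.cons_val_one]
    module
  exact (Submodule.finrank_mono this).trans ((finrank_range_le_card _).trans (by simp))

section fin

variable [Finite S]

theorem Cfg.bn (h : Cfg ρ R b) : zpowers b ≤ normalizer (R : Set S) := by
  rw [zpowers_le]
  exact mem_normalizer_fintype h.norm

theorem Cfg.conj (h : Cfg ρ R b) {g : S} (hg : g ∈ R ⊔ zpowers b) {r : S} (hr : r ∈ R) :
    g * r * g⁻¹ ∈ R :=
  (mem_normalizer_iff.1 (sup_le le_normalizer h.bn hg) r).1 hr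

theorem Cfg.decomp (h : Cfg ρ R b) {g : S} (hg : g ∈ R ⊔ zpowers b) :
    ∃ r ∈ R, ∃ i : ℕ, i < 3 ∧ g = r * b ^ i := by
  rw [← SetLike.mem_coe, coe_mul_of_right_le_normalizer_left _ _ h.bn] at hg
  obtain ⟨r, hr, c, hc, rfl⟩ := hg
  rw [SetLike.mem_coe, ← mem_powers_iff_mem_zpowers] at hc
  obtain ⟨i, rfl⟩ := hc
  refine ⟨r, hr, i % 3, Nat.mod_lt _ (by norm_num), ?_⟩
  simp only
  rw [← pow_eq_pow_mod i h.b3]

theorem Cfg.comm (h : Cfg ρ R b) {g : S} (hg : g ∈ R ⊔ zpowers b) : g * b * g⁻¹ * b⁻¹ ∈ R := by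
  obtain ⟨r, hr, i, -, rfl⟩ := h.decomp hg
  rw [show r * b ^ i * b * (r * b ^ i)⁻¹ * b⁻¹ = r * (b * r⁻¹ * b⁻¹) by group]
  exact mul_mem hr (h.norm _ (inv_mem hr))

omit [Finite S] in
theorem Cfg.gen' (h : Cfg ρ R b) (K : Subgroup S) (hK : ∀ r ∈ R, r * b * r⁻¹ ∈ K) :
    R ⊔ zpowers b ≤ K :=
  sup_le (h.gen K hK) (by rw [zpowers_le]; simpa using hK 1 (one_mem _))

omit [Finite S] in
theorem Cfg.sub_mem (h : Cfg ρ R b) (f : Four b t) (g : Geo ρ b t u) {k : S}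
    (hk : k ∈ R ⊔ zpowers b) (v : E) : ρ k v - v ∈ F0 ρ (R ⊔ zpowers b) u := by
  have hb : b ∈ R ⊔ zpowers b := mem_sup_right (mem_zpowers b)
  let K : Subgroup S :=
    { carrier := {k | rg ρ k ≤ F0 ρ (R ⊔ zpowers b) u}
      mul_mem' := fun ha hb => (rg_mul ρ _ _).trans (sup_le ha hb)
      one_mem' := rg_le fun v => by simp
      inv_mem' := fun ha => (rg_inv ρ _).trans ha }
  have hbK : rg ρ b ≤ F0 ρ (R ⊔ zpowers b) u := by
    refine rg_le fun v => ?_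
    obtain ⟨a0, a1, a2, c, rfl, h0, h1⟩ := g.decomp f h.b3 v
    have m0 : u ∈ F0 ρ (R ⊔ zpowers b) u := by simpa using mem_F0 (ρ := ρ) (u := u) (one_mem _)
    have m : a0 • u + a1 • ρ b u + a2 • ρ b (ρ b u) ∈ F0 ρ (R ⊔ zpowers b) u :=
      add_mem (add_mem (Submodule.smul_mem _ _ m0) (Submodule.smul_mem _ _ (F0_inv hb m0)))
        (Submodule.smul_mem _ _ (F0_inv hb (F0_inv hb m0)))
    rw [map_add, g.fix c h0 h1, add_sub_add_right_eq_sub]
    exact _root_.sub_mem (F0_inv hb m) m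
  have : R ⊔ zpowers b ≤ K := h.gen' K fun r hr => (rg_conj ρ r b).trans (by
    rintro _ ⟨w, hw, rfl⟩
    exact F0_inv (mem_sup_left hr) (hbK hw))
  exact this hk (sub_mem_rg ρ k v)

omit [Finite S] in
theorem Cfg.faith (h : Cfg ρ R b) (f : Four b t) (g : Geo ρ b t u) {r : S} (hr : r ∈ R)
    (hf : ∀ v ∈ F0 ρ (R ⊔ zpowers b) u, ρ r v = v) : r = 1 := by
  obtain ⟨k, hk⟩ := h.two ⟨r, hr⟩
  refine eq_one_of_fix h.inj fun v => fix_of_unip ρ (n := 2 ^ k) ?_ (congrArg Subtype.val hk)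
    (hf _ (h.sub_mem f g (mem_sup_left hr) v))
  intro h3
  have := Nat.Prime.dvd_of_dvd_pow Nat.prime_three h3
  omega

omit [Finite S] in
theorem Geo.sign (g : Geo ρ b t u) {a : S} (h0 : a * t = t * a)
    (h1 : a * (b * t * b⁻¹) = b * t * b⁻¹ * a) : ρ a u = u ∨ ρ a u = -u := by
  obtain ⟨x, hx⟩ := g.line (ρ a u) (by rw [← app_mul, ← h0, app_mul, g.t0])
    (by rw [← app_mul, ← h1, app_mul, g.t1, map_neg])
  rcases z3 x with rfl | rfl | rfl
  · exact absurd (by simpa using hx) (app_ne ρ a g.ne)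
  · left; simpa using hx
  · right; simpa using hx

/-- The stabiliser of a line. -/
def Ln (ρ : Representation (ZMod 3) S E) (u : E) : Subgroup S where
  carrier := {g | ρ g u = u ∨ ρ g u = -u}
  mul_mem' := by
    rintro a b (ha | ha) (hb | hb) <;> simp [app_mul, ha, hb]
  one_mem' := Or.inl (app_one _ _)
  inv_mem' := by
    rintro a (ha | ha)
    · left; nth_rewrite 1 [← ha]; exact app_inv _ _ _
    · right; rw [← app_inv ρ a (-u), map_neg, ha, neg_neg]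

omit [Finite S] in
theorem ln_eq (g k : S) : (g : S ⧸ Ln ρ u) = k ↔ ρ g u = ρ k u ∨ ρ g u = -ρ k u := by
  rw [eq_comm, QuotientGroup.eq]
  change ρ (k⁻¹ * g) u = u ∨ ρ (k⁻¹ * g) u = -u ↔ _
  rw [app_mul, ← (app_inj ρ k).eq_iff, ← (app_inj ρ k).eq_iff (b := -u), app_inv', map_neg]

/-- An abelian subgroup normalised by `R` and `b` containing the four-group. -/
structure Ab (R : Subgroup S) (b t : S) (A : Subgroup S) : Prop where
  le : A ≤ R
  mem : t ∈ A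
  comm : ∀ a ∈ A, ∀ c ∈ A, a * c = c * a
  nR : ∀ r ∈ R, ∀ a ∈ A, r * a * r⁻¹ ∈ A
  nb : ∀ a ∈ A, b * a * b⁻¹ ∈ A

theorem Ab.conj {A : Subgroup S} (hA : Ab R b t A) {g : S} (hg : g ∈ R ⊔ zpowers b) {a : S}
    (ha : a ∈ A) : g * a * g⁻¹ ∈ A := by
  have : R ⊔ zpowers b ≤ normalizer (A : Set S) :=
    sup_le (fun r hr => mem_normalizer_fintype (hA.nR r hr))
      (by rw [zpowers_le]; exact mem_normalizer_fintype hA.nb)
  exact (mem_normalizer_iff.1 (this hg) a).1 ha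

theorem Ab.eig {A : Subgroup S} (hA : Ab R b t A) (g : Geo ρ b t u) {k : S}
    (hk : k ∈ R ⊔ zpowers b) {a : S} (ha : a ∈ A) :
    ρ a (ρ k u) = (1 : ZMod 3) • ρ k u ∨ ρ a (ρ k u) = (-1 : ZMod 3) • ρ k u := by
  have h1 := hA.conj (inv_mem hk) ha
  have := g.sign (hA.comm _ h1 _ hA.mem) (hA.comm _ h1 _ (hA.nb _ hA.mem))
  rw [inv_inv, app_mul, app_mul, ← (app_inj ρ k).eq_iff, ← (app_inj ρ k).eq_iff (b := -u),
    app_inv', map_neg] at this
  simpa using this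

theorem Ab.cases {A : Subgroup S} (hA : Ab R b t A) (f : Four b t) (g : Geo ρ b t u)
    (h3 : b ^ 3 = 1) {k : S} (hk : k ∈ R ⊔ zpowers b) :
    (ρ k u = u ∨ ρ k u = -u) ∨ (ρ k u = ρ b u ∨ ρ k u = -ρ b u) ∨
      (ρ k u = ρ b (ρ b u) ∨ ρ k u = -ρ b (ρ b u)) ∨
      (ρ t (ρ k u) = ρ k u ∧ ρ (b * t * b⁻¹) (ρ k u) = ρ k u) := by
  have key : ∀ w : E, (∃ a : ZMod 3, ρ k u = a • w) → ρ k u = w ∨ ρ k u = -w := by
    rintro w ⟨a, ha⟩
    rcases z3 a with rfl | rfl | rfl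
    · exact absurd (by simpa using ha) (app_ne ρ k g.ne)
    · left; simpa using ha
    · right; simpa using ha
  rcases hA.eig g hk hA.mem with e0 | e0 <;> rcases hA.eig g hk (hA.nb _ hA.mem) with e1 | e1
  · exact Or.inr (Or.inr (Or.inr ⟨by simpa using e0, by simpa using e1⟩))
  · exact Or.inl (key _ (g.line _ (by simpa using e0) (by simpa using e1)))
  · exact Or.inr (Or.inl (key _ (g.line1 f h3 e0 e1)))
  · exact Or.inr (Or.inr (Or.inl (key _ (g.line2 f h3 e0 e1))))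

theorem Cfg.tri (h : Cfg ρ R b) {A : Subgroup S} (hA : Ab R b t A) (f : Four b t)
    (g : Geo ρ b t u) : Tri (R ⊔ zpowers b) R b ((1 : S) : S ⧸ Ln ρ u) where
  mem := mem_sup_right (mem_zpowers b)
  b3 := h.b3
  comm := fun _ hk => h.comm hk
  conj := fun _ hk _ hr => h.conj hk hr
  cube := by
    intro w hw p hp
    obtain ⟨k, hk⟩ := h.two ⟨w, hw⟩
    have hk' : w ^ 2 ^ k = 1 := congrArg Subtype.val hk
    have h3 : w ^ 3 ∈ MulAction.stabilizer S p := by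
      rw [MulAction.mem_stabilizer_iff, pow_three', mul_smul, mul_smul, hp]
    have hc : (orderOf w).Coprime 3 :=
      Nat.Coprime.coprime_dvd_left (orderOf_dvd_of_pow_eq_one hk') (Nat.Coprime.pow_left _ (by norm_num))
    obtain ⟨m, hm⟩ := exists_pow_eq_self_of_coprime hc.symm
    rw [← MulAction.mem_stabilizer_iff, ← hm]
    exact pow_mem h3 m
  mv := by
    rw [MulAction.Quotient.smul_coe, Ne, ln_eq, smul_eq_mul, mul_one, app_one]
    have h1 := (g.w1 f).1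
    rintro (e | e)
    · rw [e, g.t0] at h1
      exact g.ne (eq_zero_of_neg h1)
    · rw [e, map_neg, g.t0, neg_neg] at h1
      exact g.ne (eq_zero_of_neg h1.symm)
  fix := by
    intro k hk
    simp only [MulAction.Quotient.smul_coe, ln_eq, smul_eq_mul, mul_one, app_one, app_mul]
    rcases hA.cases f g h.b3 hk with e | e | e | e
    · exact Or.inl e
    · exact Or.inr (Or.inl e)
    · exact Or.inr (Or.inr (Or.inl e))
    · exact Or.inr (Or.inr (Or.inr (Or.inl (g.fix _ e.1 e.2))))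

end fin

end Cfsg.Agent.H41.Cub
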