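import Mathlib
import Cfsg.Agent.H41.Cub3
import Cfsg.Prelude.Def_Transfer

/-!
# Identification of `R` from the monomial action
-/

set_option autoImplicit false

namespace Cfsg.Agent.H41.Cub

open Subgroup Module

variable {S : Type*} [Group S] {E : Type*} [AddCommGroup E] [Module (ZMod 3) E]
variable {ρ : Representation (ZMod 3) S E} {R : Subgroup S} {b t : S} {u : E}

/-- The conclusion about the module. -/
def ModC (ρ : Representation (ZMod 3) S E) (R B : Subgroup S) : Prop :=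
  ∃ F₀ F₁ : Submodule (ZMod 3) E, F₀ ⊓ F₁ = ⊥ ∧ F₀ ⊔ F₁ = ⊤ ∧
    (∀ r ∈ R, ∀ v ∈ F₁, ρ r v = v) ∧ (∀ r ∈ R ⊔ B, ∀ v ∈ F₀, ρ r v ∈ F₀) ∧
    (∀ r ∈ R ⊔ B, (∀ v ∈ F₀, ρ r v = v) → r = 1) ∧
    (∀ N : Submodule (ZMod 3) E, N ≤ F₀ → (∀ r ∈ R ⊔ B, ∀ v ∈ N, ρ r v ∈ N) → N = ⊥ ∨ N = F₀)

/-- The conclusion about the group. -/
def GrpC (R : Subgroup S) : Prop :=
  (Cfsg.IsElementaryAbelian 2 R ∧ Nat.card R = 4) ∨
    (Cfsg.IsExtraspecial 2 R ∧ Nat.card R = 32 ∧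
      ∃ A : Subgroup S, A ≤ R ∧ Cfsg.IsElementaryAbelian 2 A ∧ Nat.card A = 8)

/-- A monomial basis of the span of the orbit of `u`. -/
structure Mono {n : ℕ} (ρ : Representation (ZMod 3) S E) (G : Subgroup S) (b t : S) (u : E)
    (v : Fin n → E) (p q : Fin n → ℤˣ) : Prop where
  orb : ∀ i, ∃ g ∈ G, v i = ρ g u
  clo : ∀ g ∈ G, ∃ (j : Fin n) (a : ℤˣ), ρ g u = a • v j
  w0 : ∀ i, ρ t (v i) = p i • v i
  w1 : ∀ i, ρ (b * t * b⁻¹) (v i) = q i • v i
  inj : ∀ i j, p i = p j → q i = q j → i = j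

/-- `g` acts on the vectors `v` through the signed permutation `d`. -/
def Rep {n : ℕ} (ρ : Representation (ZMod 3) S E) (v : Fin n → E) (g : S) (d : SP n) : Prop :=
  ∀ i, ρ g (v i) = d.e i • v (d.s i)

theorem map_usmul (f : E →ₗ[ZMod 3] E) (a : ℤˣ) (v : E) : f (a • v) = a • f v := by
  rw [Units.smul_def, Units.smul_def, map_zsmul]

theorem usmul_cancel {a c : ℤˣ} {v : E} (hv : v ≠ 0) (h : a • v = c • v) : a = c := by
  rcases Int.units_eq_one_or a with rfl | rfl <;> rcases Int.units_eq_one_or c with rfl | rfl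
  · rfl
  · exact absurd (eq_zero_of_neg (by simpa using h)) hv
  · exact absurd (eq_zero_of_neg (by simpa using h.symm)) hv
  · rfl

theorem Rep.mul {n : ℕ} {v : Fin n → E} {g k : S} {d d' : SP n} (h : Rep ρ v g d)
    (h' : Rep ρ v k d') : Rep ρ v (g * k) (d * d') := by
  intro i
  rw [app_mul, h', map_usmul, h, smul_smul]
  rfl

section mono

variable {n : ℕ} {G : Subgroup S} {v : Fin n → E} {p q : Fin n → ℤˣ}

theorem Mono.ne (m : Mono ρ G b t u v p q) (hu : u ≠ 0) (i : Fin n) : v i ≠ 0 := by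
  obtain ⟨g, -, e⟩ := m.orb i
  rw [e]; exact app_ne ρ g hu

theorem Mono.ind (m : Mono ρ G b t u v p q) (hu : u ≠ 0) {i j : Fin n} {a c : ℤˣ}
    (h : a • v i = c • v j) : i = j ∧ a = c := by
  have hn : a • v i ≠ 0 := by
    rw [Ne, smul_eq_zero_iff_eq]; exact m.ne hu i
  have e : i = j := by
    refine m.inj i j (usmul_cancel hn ?_) (usmul_cancel hn ?_)
    · rw [smul_comm, ← m.w0, ← map_usmul, h, map_usmul, m.w0, smul_comm]
    · rw [smul_comm, ← m.w1, ← map_usmul, h, map_usmul, m.w1, smul_comm]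
  subst e
  exact ⟨rfl, usmul_cancel (m.ne hu i) h⟩

theorem Mono.uniq (m : Mono ρ G b t u v p q) (hu : u ≠ 0) {g : S} {d d' : SP n}
    (h : Rep ρ v g d) (h' : Rep ρ v g d') : d = d' :=
  SP.ext (Equiv.ext fun i => (m.ind hu ((h i).symm.trans (h' i))).1)
    (funext fun i => (m.ind hu ((h i).symm.trans (h' i))).2)

theorem Mono.exists_rep (m : Mono ρ G b t u v p q) (hu : u ≠ 0) {g : S} (hg : g ∈ G) :
    ∃ d, Rep ρ v g d := by
  have : ∀ i, ∃ (j : Fin n) (a : ℤˣ), ρ g (v i) = a • v j := by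
    intro i
    obtain ⟨k, hk, e⟩ := m.orb i
    rw [e, ← app_mul]
    exact m.clo _ (mul_mem hg hk)
  choose s e he using this
  have hs : Function.Injective s := by
    intro i j hij
    refine (m.ind hu (a := e j) (c := e i) (app_inj ρ g ?_)).1
    rw [map_usmul, map_usmul, he, he, hij, smul_comm]
  exact ⟨⟨Equiv.ofBijective s (Finite.injective_iff_bijective.1 hs), e⟩, he⟩

theorem Mono.exists_hom (m : Mono ρ G b t u v p q) (hu : u ≠ 0) :
    ∃ φ : G →* SP n, ∀ g : G, Rep ρ v g (φ g) := by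
  choose f hf using fun g : G => m.exists_rep hu g.2
  exact ⟨MonoidHom.mk' f fun g k => m.uniq hu (hf (g * k)) ((hf g).mul (hf k)), hf⟩

theorem Mono.span (m : Mono ρ G b t u v p q) :
    F0 ρ G u = Submodule.span (ZMod 3) (Set.range v) := by
  apply le_antisymm
  · rw [F0, Submodule.span_le]
    rintro _ ⟨g, hg, rfl⟩
    obtain ⟨j, a, e⟩ := m.clo g hg
    rw [e, Units.smul_def]
    exact zsmul_mem (Submodule.subset_span (Set.mem_range_self j)) _
  · rw [Submodule.span_le]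
    rintro _ ⟨i, rfl⟩
    obtain ⟨g, hg, e⟩ := m.orb i
    rw [e]
    exact mem_F0 hg

theorem Mono.irr (m : Mono ρ G b t u v p q) (ht : t ∈ G) (hb : b ∈ G)
    (N : Submodule (ZMod 3) E) (hN : N ≤ F0 ρ G u) (hi : ∀ r ∈ G, ∀ w ∈ N, ρ r w ∈ N) :
    N = ⊥ ∨ N = F0 ρ G u := by
  by_cases h0 : N = ⊥
  · exact Or.inl h0
  right
  obtain ⟨w, hw, hw0⟩ := (Submodule.ne_bot_iff N).1 h0
  have h1 := hN hw
  rw [m.span, Submodule.mem_span_range_iff_exists_fun] at h1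
  obtain ⟨c, rfl⟩ := h1
  obtain ⟨i, hi0⟩ : ∃ i, c i ≠ 0 := by
    by_contra h
    push Not at h
    simp [h] at hw0
  have ht1 : b * t * b⁻¹ ∈ G := mul_mem (mul_mem hb ht) (inv_mem hb)
  have hp : pr ρ b t ((p i : ℤ) : ZMod 3) ((q i : ℤ) : ZMod 3) (∑ j, c j • v j) ∈ N := by
    rw [pr_apply]
    exact add_mem (add_mem (add_mem hw (N.smul_mem _ (hi _ ht1 _ hw))) (N.smul_mem _ (hi _ ht _ hw)))
      (N.smul_mem _ (hi _ ht _ (hi _ ht1 _ hw)))
  have hz : ∀ (a : ℤˣ) (x : E), a • x = ((a : ℤ) : ZMod 3) • x := by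
    intro a x
    rw [Units.smul_def, Int.cast_smul_eq_zsmul]
  have hd : ∀ a a' e e' : ℤˣ, (1 + ((a : ℤ) : ZMod 3) * ((a' : ℤ) : ZMod 3)) *
      (1 + ((e : ℤ) : ZMod 3) * ((e' : ℤ) : ZMod 3)) = if a = a' ∧ e = e' then 1 else 0 := by
    decide
  rw [map_sum, Finset.sum_eq_single i] at hp
  · rw [map_smul, pr_wt _ _ ((m.w0 i).trans (hz _ _)) ((m.w1 i).trans (hz _ _)), hd,
      if_pos ⟨rfl, rfl⟩, one_smul] at hp
    have : Fact (Nat.Prime 3) := ⟨Nat.prime_three⟩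
    rw [N.smul_mem_iff hi0] at hp
    obtain ⟨g, hg, e⟩ := m.orb i
    have hu := hi _ (inv_mem hg) _ hp
    rw [e, app_inv] at hu
    refine le_antisymm hN ?_
    rw [F0, Submodule.span_le]
    rintro _ ⟨k, hk, rfl⟩
    exact hi _ hk _ hu
  · intro j _ hj
    rw [map_smul, pr_wt _ _ ((m.w0 j).trans (hz _ _)) ((m.w1 j).trans (hz _ _)), hd,
      if_neg fun h => hj (m.inj _ _ h.1 h.2).symm, zero_smul, smul_zero]
  · simp

end mono

variable [Finite S]

theorem Cfg.modC (h : Cfg ρ R b) (f : Four b t) (g : Geo ρ b t u) (ht : t ∈ R) {n : ℕ}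
    {v : Fin n → E} {p q : Fin n → ℤˣ} (m : Mono ρ (R ⊔ zpowers b) b t u v p q) :
    ModC ρ R (zpowers b) := by
  classical
  have hb : b ∈ R ⊔ zpowers b := mem_sup_right (mem_zpowers b)
  have hirr := m.irr (mem_sup_left ht) hb
  let F1 : Submodule (ZMod 3) E := ⨅ r : R, fx ρ r
  have hF1 : ∀ w, w ∈ F1 ↔ ∀ r ∈ R, ρ r w = w := by
    intro w
    simp [F1, Submodule.mem_iInf, mem_fx]
  have m0 : u ∈ F0 ρ (R ⊔ zpowers b) u := by simpa using mem_F0 (ρ := ρ) (u := u) (one_mem _)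
  refine ⟨F0 ρ (R ⊔ zpowers b) u, F1, ?_, ?_, fun r hr w hw => (hF1 w).1 hw r hr,
    fun r hr w hw => F0_inv hr hw, ?_, hirr⟩
  · refine (hirr _ inf_le_left ?_).resolve_right ?_
    · intro k hk w hw
      refine ⟨F0_inv hk hw.1, (hF1 _).2 fun r hr => ?_⟩
      have := (hF1 w).1 hw.2 _ (h.conj (inv_mem hk) hr)
      rw [inv_inv, app_mul, app_mul, ← (app_inj ρ k).eq_iff, app_inv'] at this
      exact this
    · intro e
      have h1 : u ∈ F0 ρ (R ⊔ zpowers b) u ⊓ F1 := by rw [e]; exact m0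
      have h2 := (hF1 u).1 h1.2 _ (h.norm t ht)
      rw [g.t1] at h2
      exact g.ne (eq_zero_of_neg h2.symm)
  · have := Fintype.ofFinite R
    have : Fact (Nat.Prime 3) := ⟨Nat.prime_three⟩
    rw [eq_top_iff]
    intro w _
    have hc : ((Fintype.card R : ℕ) : ZMod 3) ≠ 0 := by
      rw [Ne, ZMod.natCast_eq_zero_iff, ← Nat.card_eq_fintype_card]
      obtain ⟨k, hk⟩ := IsPGroup.iff_card.1 h.two
      rw [hk]
      intro h3
      have := Nat.Prime.dvd_of_dvd_pow Nat.prime_three h3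
      omega
    rw [← Submodule.smul_mem_iff _ hc]
    have e : ((Fintype.card R : ℕ) : ZMod 3) • w = -(∑ r : R, (ρ r w - w)) + ∑ r : R, ρ r w := by
      rw [Finset.sum_sub_distrib, Finset.sum_const, Finset.card_univ, Nat.cast_smul_eq_nsmul]
      abel
    rw [e]
    refine Submodule.add_mem_sup (neg_mem (Submodule.sum_mem _ fun r _ =>
      h.sub_mem f g (mem_sup_left r.2) w)) ((hF1 _).2 fun r hr => ?_)
    rw [map_sum]
    simp only [← app_mul]
    exact Fintype.sum_equiv (Equiv.mulLeft (⟨r, hr⟩ : R)) _ _ fun x => rfl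
  · intro k hk hf
    obtain ⟨r, hr, i, hi, rfl⟩ := h.decomp hk
    have hc : b ^ i ∈ R ⊔ zpowers b := pow_mem hb i
    have h3 : r ^ 3 = 1 := by
      refine h.faith f g (pow_mem hr 3) fun w hw => ?_
      have e : ρ (b ^ i) (ρ (b ^ i) (ρ (b ^ i) w)) = w :=
        bbb (by rw [← pow_mul, mul_comm, pow_mul, h.b3, one_pow]) w
      nth_rewrite 1 [← e]
      rw [pow_three', app_mul, app_mul, ← app_mul ρ r (b ^ i), hf _ (F0_inv hc (F0_inv hc hw)),
        ← app_mul ρ r (b ^ i), hf _ (F0_inv hc hw), ← app_mul ρ r (b ^ i), hf _ hw]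
    obtain ⟨k, hk⟩ := h.two ⟨r, hr⟩
    have hk' : r ^ 2 ^ k = 1 := congrArg Subtype.val hk
    have hr1 : r = 1 := by
      rw [← orderOf_eq_one_iff]
      exact Nat.eq_one_of_dvd_coprimes (Nat.Coprime.pow_right k (by norm_num : Nat.Coprime 3 2))
        (orderOf_dvd_of_pow_eq_one h3) (orderOf_dvd_of_pow_eq_one hk')
    have h1 := hf u m0
    rw [hr1, one_mul] at h1 ⊢
    interval_cases i
    · exact pow_zero b
    · have h2 := (g.w1 f).1
      rw [pow_one] at h1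
      rw [h1, g.t0] at h2
      exact absurd (eq_zero_of_neg h2) g.ne
    · have h2 := (g.w2 f).1
      rw [pow_two, app_mul] at h1
      rw [h1, g.t0] at h2
      exact absurd (eq_zero_of_neg h2) g.ne

/-- The facts about the monomial homomorphism used in both cases. -/
theorem Cfg.hom (h : Cfg ρ R b) (f : Four b t) (g : Geo ρ b t u) {n : ℕ}
    {v : Fin n → E} {p q : Fin n → ℤˣ} (m : Mono ρ (R ⊔ zpowers b) b t u v p q) {β : SP n}
    (hβ : Rep ρ v b β) (hs : SP.sg β = 1) :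
    ∃ φ : S → SP n, (∀ x ∈ R ⊔ zpowers b, Rep ρ v x (φ x)) ∧
      (∀ x ∈ R ⊔ zpowers b, ∀ y ∈ R ⊔ zpowers b, φ (x * y) = φ x * φ y) ∧
      (∀ x ∈ R ⊔ zpowers b, φ x⁻¹ = (φ x)⁻¹) ∧ φ 1 = 1 ∧ φ b = β ∧
      (∀ x ∈ R, ∀ y ∈ R, φ x = φ y → x = y) ∧
      ∀ x ∈ R, SP.sg (φ x) = 1 ∧ ((φ x).s ^ 3 = 1 → (φ x).s = 1) := by
  classical
  obtain ⟨ψ, hψ⟩ := m.exists_hom g.ne
  have hb : b ∈ R ⊔ zpowers b := mem_sup_right (mem_zpowers b)
  have eb : ψ ⟨b, hb⟩ = β := m.uniq g.ne (hψ ⟨b, hb⟩) hβ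
  refine ⟨fun x => if hx : x ∈ R ⊔ zpowers b then ψ ⟨x, hx⟩ else 1, ?_, ?_, ?_, ?_, ?_, ?_, ?_⟩
  · intro x hx
    simp only [dif_pos hx]
    exact hψ ⟨x, hx⟩
  · intro x hx y hy
    simp only [dif_pos hx, dif_pos hy, dif_pos (mul_mem hx hy)]
    exact map_mul ψ ⟨x, hx⟩ ⟨y, hy⟩
  · intro x hx
    simp only [dif_pos hx, dif_pos (inv_mem hx)]
    exact map_inv ψ ⟨x, hx⟩
  · simp only [dif_pos (one_mem (R ⊔ zpowers b))]
    exact map_one ψ
  · simp only [dif_pos hb, eb]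
  · intro x hx y hy e
    have hx' : x ∈ R ⊔ zpowers b := mem_sup_left hx
    have hy' : y ∈ R ⊔ zpowers b := mem_sup_left hy
    simp only [dif_pos hx', dif_pos hy'] at e
    rw [← inv_mul_eq_one]
    refine h.faith f g (mul_mem (inv_mem hx) hy) fun w hw => ?_
    have : F0 ρ (R ⊔ zpowers b) u ≤ fx ρ (x⁻¹ * y) := by
      rw [m.span, Submodule.span_le]
      rintro _ ⟨i, rfl⟩
      rw [SetLike.mem_coe, mem_fx, app_mul, hψ ⟨y, hy'⟩ i, ← e, ← hψ ⟨x, hx'⟩ i, app_inv]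
    exact mem_fx.1 (this hw)
  · intro x hx
    have hx' : x ∈ R ⊔ zpowers b := mem_sup_left hx
    simp only [dif_pos hx']
    constructor
    · have := h.gen ((SP.sg.comp ψ).ker.map (R ⊔ zpowers b).subtype) (fun r hr =>
        ⟨⟨r, mem_sup_left hr⟩ * ⟨b, hb⟩ * ⟨r, mem_sup_left hr⟩⁻¹, by
          rw [SetLike.mem_coe, MonoidHom.mem_ker, map_mul, map_mul, map_inv, mul_inv_cancel_comm,
            MonoidHom.comp_apply, eb, hs], rfl⟩) hx
      obtain ⟨y, hy, rfl⟩ := this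
      exact hy
    · intro h3
      obtain ⟨k, hk⟩ := h.two ⟨x, hx⟩
      have hk' : (⟨x, hx'⟩ : (R ⊔ zpowers b : Subgroup S)) ^ 2 ^ k = 1 :=
        Subtype.ext (congrArg Subtype.val hk :)
      have h2 : (ψ ⟨x, hx'⟩).s ^ 2 ^ k = 1 := by
        have := congrArg (SP.pm.comp ψ) hk'
        rwa [map_pow, map_one] at this
      rw [← orderOf_eq_one_iff]
      exact Nat.eq_one_of_dvd_coprimes (Nat.Coprime.pow_right k (by norm_num : Nat.Coprime 3 2))
        (orderOf_dvd_of_pow_eq_one h3) (orderOf_dvd_of_pow_eq_one h2)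

/-- Concrete signed permutations in dimension three. -/
def be3 : SP 3 := ⟨Equiv.swap 0 2 * Equiv.swap 0 1, fun _ => 1⟩
/-- The first involution. -/
def ta3 : SP 3 := ⟨1, ![1, -1, -1]⟩
/-- The second involution. -/
def tb3 : SP 3 := ⟨1, ![-1, 1, -1]⟩

theorem d31 : ∀ x : SP 3, SP.sg x = 1 → x.s ^ 3 = 1 := by decide +kernel

theorem d32 : ∀ x : SP 3, SP.sg x = 1 → x.s = 1 → x = 1 ∨ x = ta3 ∨ x = tb3 ∨ x = ta3 * tb3 := by
  decide +kernel

theorem Cfg.case3 (h : Cfg ρ R b) (f : Four b t) (g : Geo ρ b t u) (ht : t ∈ R)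
    (m : Mono ρ (R ⊔ zpowers b) b t u ![u, ρ b u, ρ b (ρ b u)] ta3.e tb3.e) : GrpC R := by
  obtain ⟨φ, h1, h2, -, h4, -, h6, h7⟩ := h.hom f g m (β := be3) (by
    intro i
    fin_cases i
    · simp [be3]; rfl
    · simp [be3]
    · simp [be3, bbb h.b3]; rfl) (by decide +kernel)
  have ht1 := h.norm t ht
  have e0 : φ t = ta3 := m.uniq g.ne (h1 t (mem_sup_left ht)) m.w0
  have e1 : φ (b * t * b⁻¹) = tb3 := m.uniq g.ne (h1 _ (mem_sup_left ht1)) m.w1
  have e2 : φ (t * (b * t * b⁻¹)) = ta3 * tb3 := by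
    rw [h2 _ (mem_sup_left ht) _ (mem_sup_left ht1), e0, e1]
  have hR : ∀ x ∈ R, x = 1 ∨ x = t ∨ x = b * t * b⁻¹ ∨ x = t * (b * t * b⁻¹) := by
    intro x hx
    rcases d32 _ (h7 x hx).1 ((h7 x hx).2 (d31 _ (h7 x hx).1)) with e | e | e | e
    · exact Or.inl (h6 _ hx _ (one_mem _) (by rw [e, h4]))
    · exact Or.inr (Or.inl (h6 _ hx _ ht (by rw [e, e0])))
    · exact Or.inr (Or.inr (Or.inl (h6 _ hx _ ht1 (by rw [e, e1]))))
    · exact Or.inr (Or.inr (Or.inr (h6 _ hx _ (mul_mem ht ht1) (by rw [e, e2]))))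
  have hW : ∀ x ∈ R, SP.sg (φ x) = 1 ∧ (φ x).s = 1 := fun x hx =>
    ⟨(h7 x hx).1, (h7 x hx).2 (d31 _ (h7 x hx).1)⟩
  have d1 : ∀ x : SP 3, SP.sg x = 1 ∧ x.s = 1 → x * x = 1 ∧
      ∀ y : SP 3, SP.sg y = 1 ∧ y.s = 1 → x * y = y * x := by decide +kernel
  refine Or.inl ⟨⟨⟨⟨fun x y => Subtype.ext (h6 _ (mul_mem x.2 y.2) _ (mul_mem y.2 x.2) ?_)⟩⟩,
    fun x hx => h6 _ (pow_mem hx 2) _ (one_mem _) ?_⟩, ?_⟩
  · rw [Subgroup.coe_mul, h2 _ (mem_sup_left x.2) _ (mem_sup_left y.2),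
      h2 _ (mem_sup_left y.2) _ (mem_sup_left x.2)]
    exact (d1 _ (hW _ x.2)).2 _ (hW _ y.2)
  · rw [pow_two, h2 _ (mem_sup_left hx) _ (mem_sup_left hx), h4]
    exact (d1 _ (hW _ hx)).1
  · rw [Nat.card_eq_of_bijective (fun x : R => (⟨φ x, hW _ x.2⟩ : {d : SP 3 // SP.sg d = 1 ∧ d.s = 1}))
      ⟨fun x y e => Subtype.ext (h6 _ x.2 _ y.2 (congrArg Subtype.val e)), ?_⟩,
      Nat.card_eq_fintype_card]
    · decide +kernel
    · rintro ⟨d, hd⟩
      rcases d32 d hd.1 hd.2 with rfl | rfl | rfl | rfl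
      exacts [⟨1, Subtype.ext h4⟩, ⟨⟨_, ht⟩, Subtype.ext e0⟩, ⟨⟨_, ht1⟩, Subtype.ext e1⟩,
        ⟨⟨_, mul_mem ht ht1⟩, Subtype.ext e2⟩]

/-- Concrete signed permutations in dimension four. -/
def be4 : SP 4 := ⟨Equiv.swap 0 2 * Equiv.swap 0 1, fun _ => 1⟩
/-- The first involution. -/
def ta4 : SP 4 := ⟨1, ![1, -1, -1, 1]⟩
/-- The second involution. -/
def tb4 : SP 4 := ⟨1, ![-1, 1, -1, 1]⟩
/-- The central involution. -/
def ze4 : SP 4 := ⟨1, fun _ => -1⟩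
/-- The extraspecial group of order 32. -/
def W4 (d : SP 4) : Prop := d.s * d.s = 1 ∧ SP.sg d = 1

instance : DecidablePred W4 := fun d => by unfold W4; infer_instance

theorem d40 : ∀ x : SP 4, SP.sg x = 1 → x.s * x.s = 1 ∨ x.s ^ 3 = 1 := by decide +kernel

theorem d41 : ∀ x : SP 4, W4 x → x * ze4 = ze4 * x ∧
    ∀ y : SP 4, W4 y → x * y = y * x ∨ x * y = y * x * ze4 := by decide +kernel

theorem d42 : Fintype.card {d : SP 4 // W4 d} = 32 := by decide +kernel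

theorem d43 : ∀ x : SP 4, W4 x → x.s ≠ 1 → ∀ y : SP 4, W4 y →
    ∃ c ∈ [1, x, be4 * x * be4⁻¹, be4 * (be4 * x * be4⁻¹) * be4⁻¹],
      ∃ d ∈ [1, ta4, tb4, ta4 * tb4], y = d * c ∨ y = d * c * ze4 := by decide +kernel

theorem d44 : ∀ x : SP 4, W4 x → x.s ≠ 1 →
    ze4 = ta4 * (x * ta4 * x⁻¹) ∨ ze4 = tb4 * (x * tb4 * x⁻¹) := by decide +kernel

theorem d45 : ∀ x : SP 4, W4 x → (∀ y : SP 4, W4 y → x * y = y * x) → x = 1 ∨ x = ze4 := by
  decide +kernel

theorem d46 : ∀ x : SP 4, W4 x ∧ x.s = 1 → x * x = 1 ∧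
    ∀ y : SP 4, W4 y ∧ y.s = 1 → x * y = y * x := by decide +kernel

theorem d47 : Fintype.card {d : SP 4 // W4 d ∧ d.s = 1} = 8 := by decide +kernel

theorem Cfg.case4 (h : Cfg ρ R b) (f : Four b t) (g : Geo ρ b t u) (ht : t ∈ R) {w : E}
    (hw : ρ b w = w)
    (m : Mono ρ (R ⊔ zpowers b) b t u ![u, ρ b u, ρ b (ρ b u), w] ta4.e tb4.e) : GrpC R := by
  have hb : b ∈ R ⊔ zpowers b := mem_sup_right (mem_zpowers b)
  obtain ⟨φ, h1, h2, h3, h4, h5, h6, h7⟩ := h.hom f g m (β := be4) (by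
    intro i
    fin_cases i
    · simp [be4]; rfl
    · simp [be4]
    · simp [be4, bbb h.b3]; rfl
    · simp [be4, hw]; rfl) (by decide +kernel)
  have ht1 := h.norm t ht
  have h2' : ∀ x ∈ R, ∀ y ∈ R, φ (x * y) = φ x * φ y := fun x hx y hy =>
    h2 _ (mem_sup_left hx) _ (mem_sup_left hy)
  have hcj : ∀ x ∈ R ⊔ zpowers b, ∀ y ∈ R, φ (x * y * x⁻¹) = φ x * φ y * (φ x)⁻¹ := by
    intro x hx y hy
    rw [h2 _ (mul_mem hx (mem_sup_left hy)) _ (inv_mem hx), h2 _ hx _ (mem_sup_left hy), h3 _ hx]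
  have e0 : φ t = ta4 := m.uniq g.ne (h1 t (mem_sup_left ht)) m.w0
  have e1 : φ (b * t * b⁻¹) = tb4 := m.uniq g.ne (h1 _ (mem_sup_left ht1)) m.w1
  have hW : ∀ x ∈ R, W4 (φ x) := by
    intro x hx
    refine ⟨?_, (h7 x hx).1⟩
    rcases d40 _ (h7 x hx).1 with e | e
    · exact e
    · rw [(h7 x hx).2 e, one_mul]
  obtain ⟨r, hr, hrs⟩ : ∃ r ∈ R, (φ r).s ≠ 1 := by
    by_contra hno
    push Not at hno
    obtain ⟨k, hk, e⟩ := m.orb 3
    obtain ⟨r, hr, i, hi, hki⟩ := h.decomp (inv_mem hk)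
    have a1 := h1 r (mem_sup_left hr) 3
    have a2 : ρ (b ^ i) w = w := by
      clear hki hi
      induction i with
      | zero => simp
      | succ i ih => rw [pow_succ, app_mul, hw, ih]
    have a3 : ρ k⁻¹ w = u := by
      have : w = ρ k u := e
      rw [this, app_inv]
    rw [hki, app_mul, a2] at a3
    rw [hno r hr] at a1
    have a4 : (1 : ℤˣ) • ![u, ρ b u, ρ b (ρ b u), w] 0 =
        (φ r).e 3 • ![u, ρ b u, ρ b (ρ b u), w] 3 := by
      rw [one_smul]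
      exact a3.symm.trans a1
    exact absurd (m.ind g.ne a4).1 (by decide)
  obtain ⟨z, hz, ez⟩ : ∃ z ∈ R, φ z = ze4 := by
    rcases d44 _ (hW r hr) hrs with e | e
    · exact ⟨_, mul_mem ht (mul_mem (mul_mem hr ht) (inv_mem hr)), by
        rw [h2' _ ht _ (mul_mem (mul_mem hr ht) (inv_mem hr)), hcj _ (mem_sup_left hr) _ ht, e0, e]⟩
    · exact ⟨_, mul_mem ht1 (mul_mem (mul_mem hr ht1) (inv_mem hr)), by
        rw [h2' _ ht1 _ (mul_mem (mul_mem hr ht1) (inv_mem hr)), hcj _ (mem_sup_left hr) _ ht1,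
          e1, e]⟩
  have hsurj : ∀ y, W4 y → ∃ x ∈ R, φ x = y := by
    intro y hy
    obtain ⟨c, hc, d, hd, e⟩ := d43 _ (hW r hr) hrs y hy
    obtain ⟨c', hc', rfl⟩ : ∃ c' ∈ R, φ c' = c := by
      simp only [List.mem_cons, List.not_mem_nil, or_false] at hc
      rcases hc with rfl | rfl | rfl | rfl
      · exact ⟨1, one_mem _, h4⟩
      · exact ⟨r, hr, rfl⟩
      · exact ⟨_, h.norm r hr, by rw [hcj _ hb _ hr, h5]⟩
      · exact ⟨_, h.norm _ (h.norm r hr), by rw [hcj _ hb _ (h.norm r hr), hcj _ hb _ hr, h5]⟩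
    obtain ⟨d', hd', rfl⟩ : ∃ d' ∈ R, φ d' = d := by
      simp only [List.mem_cons, List.not_mem_nil, or_false] at hd
      rcases hd with rfl | rfl | rfl | rfl
      · exact ⟨1, one_mem _, h4⟩
      · exact ⟨t, ht, e0⟩
      · exact ⟨_, ht1, e1⟩
      · exact ⟨_, mul_mem ht ht1, by rw [h2' _ ht _ ht1, e0, e1]⟩
    rcases e with rfl | rfl
    · exact ⟨_, mul_mem hd' hc', h2' _ hd' _ hc'⟩
    · exact ⟨_, mul_mem (mul_mem hd' hc') hz, by rw [h2' _ (mul_mem hd' hc') _ hz, h2' _ hd' _ hc', ez]⟩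
  have hXS : TT.XS R z :=
    { z_mem := hz
      z_ne := by
        rintro rfl
        rw [h4] at ez
        exact absurd ez (by decide +kernel)
      z_sq := h6 _ (mul_mem hz hz) _ (one_mem _) (by rw [h2' _ hz _ hz, ez, h4]; decide +kernel)
      z_comm := fun x hx => h6 _ (mul_mem hx hz) _ (mul_mem hz hx) (by
        rw [h2' _ hx _ hz, h2' _ hz _ hx, ez]; exact (d41 _ (hW x hx)).1)
      comm := fun x hx y hy => by
        rcases (d41 _ (hW x hx)).2 _ (hW y hy) with e | e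
        · exact Or.inl (h6 _ (mul_mem hx hy) _ (mul_mem hy hx) (by
            rw [h2' _ hx _ hy, h2' _ hy _ hx, e]))
        · exact Or.inr (h6 _ (mul_mem hx hy) _ (mul_mem (mul_mem hy hx) hz) (by
            rw [h2' _ hx _ hy, h2' _ (mul_mem hy hx) _ hz, h2' _ hy _ hx, e, ez]))
      cent := fun x hx hc => by
        rcases d45 _ (hW x hx) (fun y hy => by
          obtain ⟨y', hy', rfl⟩ := hsurj y hy
          rw [← h2' _ hx _ hy', hc y' hy', h2' _ hy' _ hx]) with e | e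
        · exact Or.inl (h6 _ hx _ (one_mem _) (by rw [e, h4]))
        · exact Or.inr (h6 _ hx _ hz (by rw [e, ez]))
      nonab := ⟨t, ht, f.ne, by
        rintro rfl
        rw [e0] at ez
        exact absurd ez (by decide +kernel)⟩ }
  let A : Subgroup S :=
    { carrier := {x | x ∈ R ∧ (φ x).s = 1}
      mul_mem' := fun {x y} hx hy => ⟨mul_mem hx.1 hy.1, by
        rw [h2' _ hx.1 _ hy.1, SP.mul_s, hx.2, hy.2, one_mul]⟩
      one_mem' := ⟨one_mem _, by rw [h4]; rfl⟩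
      inv_mem' := fun {x} hx => ⟨inv_mem hx.1, by
        rw [h3 _ (mem_sup_left hx.1), SP.inv_s, hx.2, inv_one]⟩ }
  refine Or.inr ⟨hXS.isExtraspecial, ?_, A, fun x hx => hx.1,
    ⟨⟨⟨fun x y => Subtype.ext (h6 _ (mul_mem x.2.1 y.2.1) _ (mul_mem y.2.1 x.2.1) ?_)⟩⟩,
    fun x hx => h6 _ (pow_mem hx.1 2) _ (one_mem _) ?_⟩, ?_⟩
  · rw [Nat.card_eq_of_bijective (fun x : R => (⟨φ x, hW _ x.2⟩ : {d : SP 4 // W4 d}))
      ⟨fun x y e => Subtype.ext (h6 _ x.2 _ y.2 (congrArg Subtype.val e)), ?_⟩,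
      Nat.card_eq_fintype_card, d42]
    rintro ⟨d, hd⟩
    obtain ⟨x, hx, rfl⟩ := hsurj d hd
    exact ⟨⟨x, hx⟩, rfl⟩
  · rw [Subgroup.coe_mul, h2' _ x.2.1 _ y.2.1, h2' _ y.2.1 _ x.2.1]
    exact (d46 _ ⟨hW _ x.2.1, x.2.2⟩).2 _ ⟨hW _ y.2.1, y.2.2⟩
  · rw [pow_two, h2' _ hx.1 _ hx.1, h4]
    exact (d46 _ ⟨hW _ hx.1, hx.2⟩).1
  · rw [Nat.card_eq_of_bijective
      (fun x : A => (⟨φ x, hW _ x.2.1, x.2.2⟩ : {d : SP 4 // W4 d ∧ d.s = 1}))
      ⟨fun x y e => Subtype.ext (h6 _ x.2.1 _ y.2.1 (congrArg Subtype.val e)), ?_⟩,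
      Nat.card_eq_fintype_card, d47]
    rintro ⟨d, hd⟩
    obtain ⟨x, hx, rfl⟩ := hsurj d hd.1
    exact ⟨⟨x, hx, hd.2⟩, rfl⟩

theorem Cfg.partB (h : Cfg ρ R b) {A : Subgroup S} (hA : Ab R b t A) (f : Four b t)
    (g : Geo ρ b t u) : GrpC R ∧ ModC ρ R (zpowers b) := by
  have hb : b ∈ R ⊔ zpowers b := mem_sup_right (mem_zpowers b)
  have ht := hA.le hA.mem
  have pm : ∀ {n : ℕ} (v : Fin n → E) (j : Fin n) (x : E), x = v j ∨ x = -v j →
      ∃ (j : Fin n) (a : ℤˣ), x = a • v j := by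
    rintro n v j x (e | e)
    · exact ⟨j, 1, by simpa using e⟩
    · exact ⟨j, -1, by simpa using e⟩
  by_cases hc : ∃ k ∈ R ⊔ zpowers b, ρ t (ρ k u) = ρ k u ∧ ρ (b * t * b⁻¹) (ρ k u) = ρ k u
  · obtain ⟨k, hk, k0, k1⟩ := hc
    have m : Mono ρ (R ⊔ zpowers b) b t u ![u, ρ b u, ρ b (ρ b u), ρ k u] ta4.e tb4.e :=
      { orb := by
          intro i
          fin_cases i
          exacts [⟨1, one_mem _, (app_one _ _).symm⟩, ⟨b, hb, rfl⟩,
            ⟨b * b, mul_mem hb hb, (app_mul _ _ _ _).symm⟩, ⟨k, hk, rfl⟩]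
        clo := by
          intro l hl
          rcases hA.cases f g h.b3 hl with e | e | e | e
          · exact pm _ 0 _ e
          · exact pm _ 1 _ e
          · exact pm _ 2 _ e
          · refine pm _ 3 _ ?_
            have := (h.tri hA f g).atmost hl hk ?_ ?_
            · simp only [MulAction.Quotient.smul_coe, ln_eq, smul_eq_mul, mul_one] at this
              exact this
            · simp only [MulAction.Quotient.smul_coe, ln_eq, smul_eq_mul, mul_one, app_mul]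
              exact Or.inl (g.fix _ e.1 e.2)
            · simp only [MulAction.Quotient.smul_coe, ln_eq, smul_eq_mul, mul_one, app_mul]
              exact Or.inl (g.fix _ k0 k1)
        w0 := by
          intro i
          fin_cases i <;> simp [ta4, g.t0, (g.w1 f).1, (g.w2 f).1, k0]
        w1 := by
          intro i
          fin_cases i
          · simpa [tb4] using g.t1
          · simpa [tb4] using (g.w1 f).2
          · simpa [tb4] using (g.w2 f).2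
          · simpa [tb4] using k1
        inj := by decide }
    exact ⟨h.case4 f g ht (g.fix _ k0 k1) m, h.modC f g ht m⟩
  · have m : Mono ρ (R ⊔ zpowers b) b t u ![u, ρ b u, ρ b (ρ b u)] ta3.e tb3.e :=
      { orb := by
          intro i
          fin_cases i
          exacts [⟨1, one_mem _, (app_one _ _).symm⟩, ⟨b, hb, rfl⟩,
            ⟨b * b, mul_mem hb hb, (app_mul _ _ _ _).symm⟩]
        clo := by
          intro l hl
          rcases hA.cases f g h.b3 hl with e | e | e | e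
          · exact pm _ 0 _ e
          · exact pm _ 1 _ e
          · exact pm _ 2 _ e
          · exact absurd ⟨l, hl, e⟩ hc
        w0 := by
          intro i
          fin_cases i <;> simp [ta3, g.t0, (g.w1 f).1, (g.w2 f).1]
        w1 := by
          intro i
          fin_cases i
          · simpa [tb3] using g.t1
          · simpa [tb3] using (g.w1 f).2
          · simpa [tb3] using (g.w2 f).2
        inj := by decide }
    exact ⟨h.case3 f g ht m, h.modC f g ht m⟩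

end Cfsg.Agent.H41.Cub
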