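import Mathlib
import Cfsg.Agent.H41.Cub4
import Cfsg.Agent.Grp.PChain

/-!
# The case of a `2`-group: existence of a normal abelian subgroup moved by `b`
-/

set_option autoImplicit false

namespace Cfsg.Agent.H41.Cub

open Subgroup Module
open scoped commutatorElement

variable {S : Type*} [Group S] {E : Type*} [AddCommGroup E] [Module (ZMod 3) E]
variable {ρ : Representation (ZMod 3) S E} {R : Subgroup S} {b t : S} {u : E}

theorem exists_inv_pow {c : S} (h : ∃ k : ℕ, c ^ 2 ^ k = 1) (hc : c ≠ 1) :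
    ∃ j : ℕ, c ^ j ≠ 1 ∧ c ^ j * c ^ j = 1 := by
  classical
  have h0 : Nat.find h ≠ 0 := by
    intro h0
    have := Nat.find_spec h
    rw [h0] at this
    exact hc (by simpa using this)
  obtain ⟨k, hk⟩ := Nat.exists_eq_succ_of_ne_zero h0
  refine ⟨2 ^ k, Nat.find_min h (by omega), ?_⟩
  have := Nat.find_spec h
  rw [hk] at this
  rw [← pow_add, ← two_mul, mul_comm, ← pow_succ]
  exact this

theorem Four.not_comm (f : Four b t) : b * t ≠ t * b := by
  intro h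
  have e : b * t * b⁻¹ = t := by rw [h]; group
  have := f.rot
  rw [e, e, f.sq] at this
  exact f.ne this

theorem four_of_ab (h3 : b ^ 3 = 1) {A : Subgroup S} (h2 : ∀ a ∈ A, ∃ k : ℕ, a ^ 2 ^ k = 1)
    (hc : ∀ a ∈ A, ∀ c ∈ A, a * c = c * a) (hb : ∀ a ∈ A, b * a * b⁻¹ ∈ A) {a : S} (ha : a ∈ A)
    (hab : b * a ≠ a * b) : ∃ t ∈ A, Four b t := by
  set e := a⁻¹ * (b * a * b⁻¹) with he
  have heA : e ∈ A := mul_mem (inv_mem ha) (hb a ha)
  have he1 : e ≠ 1 := by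
    intro h
    rw [he, inv_mul_eq_one, eq_comm, mul_inv_eq_iff_eq_mul] at h
    exact hab h
  have hN : e * (b * e * b⁻¹) * (b * (b * e * b⁻¹) * b⁻¹) = 1 := by
    have : e * (b * e * b⁻¹) * (b * (b * e * b⁻¹) * b⁻¹) = a⁻¹ * (b ^ 3 * a * (b ^ 3)⁻¹) := by
      rw [he, pow_three']; group
    rw [this, h3]; group
  obtain ⟨j, hj1, hj⟩ := exists_inv_pow (h2 e heA) he1
  have hN' : e ^ j * (b * e ^ j * b⁻¹) * (b * (b * e ^ j * b⁻¹) * b⁻¹) = 1 := by
    rw [← conj_pow, ← conj_pow, ← Commute.mul_pow (hc _ heA _ (hb _ heA)),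
      ← Commute.mul_pow (hc _ (mul_mem heA (hb _ heA)) _ (hb _ (hb _ heA))), hN, one_pow]
  have hjA : e ^ j ∈ A := pow_mem heA j
  refine ⟨e ^ j, hjA, hj1, hj, hc _ hjA _ (hb _ hjA), ?_⟩
  generalize e ^ j = x at hN' hj hjA
  have h1 : (b * x * b⁻¹)⁻¹ = b * x * b⁻¹ := by
    rw [show (b * x * b⁻¹)⁻¹ = b * x⁻¹ * b⁻¹ by group, inv_eq_of_mul_eq_one_right hj]
  rw [eq_inv_of_mul_eq_one_right hN', mul_inv_rev, h1, inv_eq_of_mul_eq_one_right hj,
    hc _ hjA _ (hb _ hjA)]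

variable [Finite S] [Finite E]

theorem Cfg.exists_ab (h : Cfg ρ R b) (f : Four b t) (ht : t ∈ R) :
    ∃ A ≤ R, (∀ a ∈ A, ∀ c ∈ A, a * c = c * a) ∧ (∀ r ∈ R, ∀ a ∈ A, r * a * r⁻¹ ∈ A) ∧
      (∀ a ∈ A, b * a * b⁻¹ ∈ A) ∧ ∃ a ∈ A, b * a ≠ a * b := by
  by_contra hno
  push Not at hno
  have hb : b ∈ R ⊔ zpowers b := mem_sup_right (mem_zpowers b)
  obtain ⟨u, g⟩ := f.exists_geo h.inj h.dm
  have hcen : ∀ A ≤ R, (∀ a ∈ A, ∀ c ∈ A, a * c = c * a) →
      (∀ r ∈ R ⊔ zpowers b, ∀ a ∈ A, r * a * r⁻¹ ∈ A) →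
      ∀ a ∈ A, ∀ r ∈ R ⊔ zpowers b, a * r = r * a := by
    intro A hA hc hn a ha r hr
    have := h.gen' (centralizer (A : Set S)) (fun s hs c hc' => by
      have e := hno A hA hc (fun r hr => hn r (mem_sup_left hr)) (hn b hb) _
        (hn _ (mem_sup_left (inv_mem hs)) c hc')
      calc c * (s * b * s⁻¹) = s * (s⁻¹ * c * s⁻¹⁻¹ * b) * s⁻¹ := by group
        _ = s * b * s⁻¹ * c := by rw [← e]; group) hr
    exact this a ha
  have hZ : ∀ w ∈ R, (∀ r ∈ R, w * r = r * w) → ∀ r ∈ R ⊔ zpowers b, w * r = r * w := by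
    intro w hw hc
    refine hcen (R ⊓ centralizer (R : Set S)) inf_le_left (fun a ha c hc => (hc.2 a ha.1)) ?_ w
      ⟨hw, fun r hr => (hc r hr).symm⟩
    intro k hk a ha
    refine ⟨h.conj hk ha.1, fun r hr => ?_⟩
    have := ha.2 _ (h.conj (inv_mem hk) hr)
    calc r * (k * a * k⁻¹) = k * (k⁻¹ * r * k⁻¹⁻¹ * a) * k⁻¹ := by group
      _ = k * a * k⁻¹ * r := by rw [this]; group
  have hsg : ∀ w ∈ R, (∀ r ∈ R, w * r = r * w) → w = 1 ∨ ρ w u = -u := by
    intro w hw hc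
    refine (g.sign (hc t ht) (hc _ (h.norm t ht))).imp_left fun e => ?_
    refine h.faith f g hw fun v hv => fix_F0 (fun k hk => ?_) hv
    rw [← app_mul, hZ w hw hc k hk, app_mul, e]
  have : Fact (Nat.Prime 2) := ⟨Nat.prime_two⟩
  have : Nontrivial R := ⟨⟨⟨t, ht⟩, 1, fun e => f.ne (congrArg Subtype.val e)⟩⟩
  have := h.two.center_nontrivial
  obtain ⟨⟨⟨z, hz⟩, hzc⟩, hz1⟩ := exists_ne (1 : center R)
  have hz1' : z ≠ 1 := fun e => hz1 (Subtype.ext (Subtype.ext e))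
  have hzR : ∀ r ∈ R, z * r = r * z := fun r hr =>
    (congrArg Subtype.val (mem_center_iff.1 hzc ⟨r, hr⟩)).symm
  have hzu := (hsg z hz hzR).resolve_left hz1'
  have hzw : ∀ w ∈ R, (∀ r ∈ R, w * r = r * w) → w = 1 ∨ z * w = 1 := by
    intro w hw hc
    refine (hsg w hw hc).imp_right fun e => ?_
    refine (hsg _ (mul_mem hz hw) fun r hr => ?_).resolve_right fun e' => ?_
    · rw [mul_assoc, hc r hr, ← mul_assoc, hzR r hr, mul_assoc]
    · rw [app_mul, e, map_neg, hzu, neg_neg] at e'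
      exact g.ne (eq_zero_of_neg e')
  have hzz : z * z = 1 := (hzw z hz hzR).resolve_left hz1'
  have hZz : ∀ w ∈ R, (∀ r ∈ R, w * r = r * w) → w = 1 ∨ w = z := by
    intro w hw hc
    refine (hzw w hw hc).imp_right fun e => ?_
    exact mul_left_cancel (e.trans hzz.symm)
  have hcz : ∀ k ∈ R ⊔ zpowers b, ∀ c ∈ zpowers z, k * c * k⁻¹ = c := by
    intro k hk c hc
    rcases (TT.mem_zpowers_invol hzz).1 hc with rfl | rfl
    · group
    · rw [← hZ c hz hzR k hk]; group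
  let X : Subgroup S :=
    { carrier := {x | x ∈ R ∧ ∀ r ∈ R, x * r * x⁻¹ * r⁻¹ ∈ zpowers z}
      mul_mem' := fun {x y} hx hy => ⟨mul_mem hx.1 hy.1, fun r hr => by
        rw [show x * y * r * (x * y)⁻¹ * r⁻¹ =
          x * (y * r * y⁻¹ * r⁻¹) * x⁻¹ * (x * r * x⁻¹ * r⁻¹) by group,
          hcz x (mem_sup_left hx.1) _ (hy.2 r hr)]
        exact mul_mem (hy.2 r hr) (hx.2 r hr)⟩
      one_mem' := ⟨one_mem _, fun r _ => by simp⟩
      inv_mem' := fun {x} hx => ⟨inv_mem hx.1, fun r hr => by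
        rw [show x⁻¹ * r * x⁻¹⁻¹ * r⁻¹ = x⁻¹ * (x * r * x⁻¹ * r⁻¹)⁻¹ * x⁻¹⁻¹ by group,
          hcz x⁻¹ (mem_sup_left (inv_mem hx.1)) _ (inv_mem (hx.2 r hr))]
        exact inv_mem (hx.2 r hr)⟩ }
  have hXn : ∀ k ∈ R ⊔ zpowers b, ∀ x ∈ X, k * x * k⁻¹ ∈ X := by
    intro k hk x hx
    refine ⟨h.conj hk hx.1, fun r hr => ?_⟩
    have := hx.2 _ (h.conj (inv_mem hk) hr)
    rw [← hcz k hk _ this] at this
    convert this using 1
    group
  have hstar : ∀ N ≤ R, (∀ r ∈ R, ∀ a ∈ N, r * a * r⁻¹ ∈ N) →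
      (∃ a ∈ N, ∃ r ∈ R, a * r ≠ r * a) → ∃ x ∈ N, x ∈ X ∧ x ≠ 1 ∧ x ≠ z := by
    rintro N hN hn ⟨a, ha, r, hr, har⟩
    have : (N.subgroupOf R).Normal := ⟨fun n hn' k => hn k k.2 n hn'⟩
    have := h.two.isNilpotent
    obtain ⟨x, hx, hx1, hx2⟩ := Grp.PChain.exists_central_mod (N.subgroupOf R) (center R) (fun hle =>
      har (congrArg Subtype.val (mem_center_iff.1 (hle (show (⟨a, hN ha⟩ : R) ∈ _ from ha))
        ⟨r, hr⟩)).symm)
    refine ⟨x, hx, ⟨x.2, fun r hr => ?_⟩, ?_, ?_⟩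
    · rw [TT.mem_zpowers_invol hzz]
      exact hZz _ (⁅x, ⟨r, hr⟩⁆ : R).2 fun s hs =>
        (congrArg Subtype.val (mem_center_iff.1 (hx2 ⟨r, hr⟩) ⟨s, hs⟩)).symm
    · intro e
      exact hx1 (by rw [show x = 1 from Subtype.ext e]; exact one_mem _)
    · intro e
      exact hx1 (by rw [show x = ⟨z, hz⟩ from Subtype.ext e]; exact hzc)
  have hcomm : ∀ x ∈ X, ∀ r ∈ R, x * r = r * x ∨ x * r = r * x * z := by
    intro x hx r hr
    rcases (TT.mem_zpowers_invol hzz).1 (hx.2 r hr) with e | e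
    · left
      rw [mul_inv_eq_one, mul_inv_eq_iff_eq_mul] at e
      exact e
    · right
      rw [mul_inv_eq_iff_eq_mul, mul_inv_eq_iff_eq_mul, mul_assoc, hzR _ (mul_mem hr hx.1)] at e
      exact e
  have hzX : z ∈ X := ⟨hz, fun r hr => by rw [hzR r hr]; simp⟩
  have hcent : ∀ x ∈ X, (∀ y ∈ X, x * y = y * x) → x = 1 ∨ x = z := by
    intro x hx hc
    refine hZz x hx.1 fun r hr => hcen (X ⊓ centralizer (X : Set S)) (fun a ha => ha.1.1)
      (fun a ha c hc => hc.2 a ha.1) ?_ x ⟨hx, fun y hy => (hc y hy).symm⟩ r (mem_sup_left hr)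
    intro k hk a ha
    refine ⟨hXn k hk a ha.1, fun r hr => ?_⟩
    have := ha.2 _ (hXn _ (inv_mem hk) r hr)
    calc r * (k * a * k⁻¹) = k * (k⁻¹ * r * k⁻¹⁻¹ * a) * k⁻¹ := by group
      _ = k * a * k⁻¹ * r := by rw [this]; group
  have hXS : TT.XS X z :=
    { z_mem := hzX
      z_ne := hz1'
      z_sq := hzz
      z_comm := fun x hx => (hzR x hx.1).symm
      comm := fun x hx y hy => hcomm x hx y hy.1
      cent := hcent
      nonab := by
        obtain ⟨x, -, hx⟩ := hstar R le_rfl (fun r hr a ha => mul_mem (mul_mem hr ha) (inv_mem hr))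
          (by
            by_contra hno'
            push Not at hno'
            exact f.not_comm (hZ t ht (hno' t ht) b hb).symm)
        exact ⟨x, hx⟩ }
  have hRX : R ≤ X := by
    intro r hr
    obtain ⟨q, hq, hq'⟩ := hXS.exists_inner (MulAut.conj r).toMonoidHom
      (hcz r (mem_sup_left hr) z (mem_zpowers z)) (fun x hx => by
        change r * x * r⁻¹ = x ∨ r * x * r⁻¹ = x * z
        rcases hcomm x hx r hr with e | e
        · left; rw [← e]; group
        · right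
          have : r * x = x * r * z := by rw [e, mul_assoc, hzz, mul_one]
          rw [this, mul_assoc x, ← hzR r hr]; group)
    have hm : q⁻¹ * r ∈ R ⊓ centralizer (X : Set S) := by
      refine ⟨R.mul_mem (R.inv_mem hq.1) hr, fun x hx => ?_⟩
      have : r * x * r⁻¹ = q * x * q⁻¹ := hq' x hx
      calc x * (q⁻¹ * r) = q⁻¹ * (q * x * q⁻¹) * r := by group
        _ = q⁻¹ * r * x := by rw [← this]; group
    have hc : ∀ s ∈ R, q⁻¹ * r * s = s * (q⁻¹ * r) := by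
      by_contra hno'
      push Not at hno'
      obtain ⟨x, hx, hxX, hx1, hxz⟩ := hstar (R ⊓ centralizer (X : Set S)) inf_le_left (by
        intro k hk a ha
        refine ⟨R.mul_mem (R.mul_mem hk ha.1) (R.inv_mem hk), fun r hr => ?_⟩
        have := ha.2 _ (hXn _ (mem_sup_left (inv_mem hk)) r hr)
        calc r * (k * a * k⁻¹) = k * (k⁻¹ * r * k⁻¹⁻¹ * a) * k⁻¹ := by group
          _ = k * a * k⁻¹ * r := by rw [this]; group) ⟨_, hm, hno'⟩
      rcases hcent x hxX (fun y hy => (hx.2 y hy).symm) with e | e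
      exacts [hx1 e, hxz e]
    rcases hZz _ hm.1 hc with e | e
    · rw [inv_mul_eq_one] at e
      rw [← e]; exact hq
    · rw [inv_mul_eq_iff_eq_mul] at e
      rw [e]; exact mul_mem hq hzX
  have ht1 := h.norm t ht
  set A := closure ({t, b * t * b⁻¹, z} : Set S) with hA
  have hAR : A ≤ R := by
    rw [hA, closure_le]
    rintro _ (rfl | rfl | rfl) <;> assumption
  have m0 : t ∈ A := subset_closure (by simp)
  have m1 : b * t * b⁻¹ ∈ A := subset_closure (by simp)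
  have m2 : z ∈ A := subset_closure (by simp)
  refine f.not_comm (hno A hAR ?_ (fun r hr a ha => hXS.conj_mem (hAR.trans hRX) m2 (hRX hr) ha)
    ?_ t m0)
  · have : A ≤ centralizer (A : Set S) := by
      rw [hA, centralizer_closure, closure_le]
      rintro _ (rfl | rfl | rfl) _ (rfl | rfl | rfl)
      exacts [rfl, f.comm.symm, hzR _ ht, f.comm, rfl, hzR _ ht1, (hzR _ ht).symm,
        (hzR _ ht1).symm, rfl]
    intro a ha c hc
    exact this hc a ha
  · have : A ≤ A.comap (MulAut.conj b).toMonoidHom := by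
      conv_lhs => rw [hA]
      rw [closure_le]
      rintro _ (rfl | rfl | rfl)
      · exact m1
      · change b * (b * t * b⁻¹) * b⁻¹ ∈ A
        rw [f.rot]; exact mul_mem m0 m1
      · change b * _ * b⁻¹ ∈ A
        rw [hcz b hb _ (mem_zpowers _)]; exact m2
    exact fun a ha => this ha

theorem Cfg.main (h : Cfg ρ R b) (f : Four b t) (ht : t ∈ R) :
    GrpC R ∧ ModC ρ R (zpowers b) := by
  obtain ⟨A, hA, hc, hn, hb, a, ha, hab⟩ := h.exists_ab f ht
  obtain ⟨s, hs, fs⟩ := four_of_ab h.b3 (fun x hx => by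
    obtain ⟨k, hk⟩ := h.two ⟨x, hA hx⟩
    exact ⟨k, congrArg Subtype.val hk⟩) hc hb ha hab
  obtain ⟨u, g⟩ := fs.exists_geo h.inj h.dm
  exact h.partB ⟨hA, hs, hc, hn, hb⟩ fs g

end Cfsg.Agent.H41.Cub
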