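import Mathlib
import Cfsg.Agent.H41.Cub5
import Cfsg.Agent.Grp.ConjCount
import Cfsg.Agent.Grp.CoprimeIndex
import Cfsg.Agent.Grp.Fitting
import Cfsg.Agent.PLocal.FittingCrit
import Cfsg.Agent.Solv.CoprimeSylow
import Cfsg.Agent.S0027

/-!
# Reduction to the case of a `2`-group
-/

set_option autoImplicit false

namespace Cfsg.Agent.H41.Cub

open Subgroup Module
open scoped commutatorElement

variable {S : Type*} [Group S] {E : Type*} [AddCommGroup E] [Module (ZMod 3) E]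
variable {ρ : Representation (ZMod 3) S E} {b t : S} {u : E}

theorem comm_of_comm (h3 : b ^ 3 = 1) {x : S} {n : ℕ} (hn : n.Coprime 3)
    (hy : (x * b * x⁻¹ * b⁻¹) ^ n = 1) (hc : b * (x * b * x⁻¹ * b⁻¹) = x * b * x⁻¹ * b⁻¹ * b) :
    b * x = x * b := by
  have e : (x * b * x⁻¹ * b⁻¹) ^ 3 = 1 := by
    have h1 : (x * b * x⁻¹ * b⁻¹ * b) ^ 3 = 1 := by
      rw [inv_mul_cancel_right, conj_pow, h3]; group
    rwa [Commute.mul_pow hc.symm, h3, mul_one] at h1
  have : x * b * x⁻¹ * b⁻¹ = 1 := by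
    rw [← orderOf_eq_one_iff]
    exact Nat.eq_one_of_dvd_coprimes hn (orderOf_dvd_of_pow_eq_one hy) (orderOf_dvd_of_pow_eq_one e)
  rw [mul_inv_eq_one, mul_inv_eq_iff_eq_mul] at this
  exact this.symm

variable [Finite E]

theorem dm_comm (hd : dm ρ b ≤ 2) (x : S) : dm ρ (x * b * x⁻¹ * b⁻¹) ≤ 4 := by
  have h1 := dm_mul ρ (x * b * x⁻¹) b⁻¹
  have h2 := dm_conj ρ x b
  have h3 := dm_inv ρ b
  omega

theorem five [Finite S] (hρ : Function.Injective ρ) (h3 : b ^ 3 = 1) (hd : dm ρ b ≤ 2)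
    {X : Subgroup S} (hX : IsPGroup 5 X) (hb : ∀ x ∈ X, b * x * b⁻¹ ∈ X) {x : S} (hx : x ∈ X) :
    b * x = x * b := by
  have : Fact (Nat.Prime 5) := ⟨Nat.prime_five⟩
  set y := x * b * x⁻¹ * b⁻¹ with hy
  have hyX : y ∈ X := by
    rw [hy, show x * b * x⁻¹ * b⁻¹ = x * (b * x⁻¹ * b⁻¹) by group]
    exact mul_mem hx (hb _ (inv_mem hx))
  by_cases hy1 : y = 1
  · exact comm_of_comm h3 (n := 1) (by norm_num) (by rw [← hy, hy1, one_pow]) (by rw [← hy, hy1]; simp)
  set C := fx ρ b ⊓ fx ρ (x * b * x⁻¹) with hC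
  have hCd : finrank (ZMod 3) E ≤ finrank (ZMod 3) C + 4 := by
    have h1 := Submodule.finrank_sup_add_finrank_inf_eq (fx ρ b) (fx ρ (x * b * x⁻¹))
    have h2 := Submodule.finrank_le (fx ρ b ⊔ fx ρ (x * b * x⁻¹))
    have h4 := dm_add ρ b
    have h5 := dm_add ρ (x * b * x⁻¹)
    have h6 := dm_conj ρ x b
    rw [← hC] at h1
    omega
  let X0 : Subgroup S :=
    { carrier := {w | w ∈ X ∧ C ≤ fx ρ w}
      mul_mem' := fun {w w'} hw hw' => ⟨mul_mem hw.1 hw'.1, fun v hv => by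
        rw [mem_fx, app_mul, mem_fx.1 (hw'.2 hv), mem_fx.1 (hw.2 hv)]⟩
      one_mem' := ⟨one_mem _, fun v _ => mem_fx.2 (app_one _ _)⟩
      inv_mem' := fun {w} hw => ⟨inv_mem hw.1, fun v hv => by
        rw [mem_fx]
        nth_rewrite 1 [← mem_fx.1 (hw.2 hv)]
        exact app_inv _ _ _⟩ }
  have hbi : ∀ v ∈ C, ρ b⁻¹ v = v := by
    intro v hv
    nth_rewrite 1 [← mem_fx.1 hv.1]
    exact app_inv _ _ _
  have hy0 : y ∈ X0 := ⟨hyX, fun v hv => by rw [mem_fx, hy, app_mul, hbi v hv, mem_fx.1 hv.2]⟩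
  have hby0 : b * y * b⁻¹ ∈ X0 := ⟨hb _ hyX, fun v hv => by
    rw [mem_fx, app_mul, app_mul, hbi v hv, mem_fx.1 (hy0.2 hv), mem_fx.1 hv.1]⟩
  have hfx : ∀ w ∈ X0, w ≠ 1 → fx ρ w = C ∧ finrank (ZMod 3) E = finrank (ZMod 3) C + 4 := by
    intro w hw hw1
    obtain ⟨k, hk⟩ := hX ⟨w, hw.1⟩
    have h1 := dvd_dm ρ Nat.prime_five (by norm_num) (g := w) (k := k) (congrArg Subtype.val hk)
    have h2 := dm_pos hρ hw1
    have h4 := dm_add ρ w
    have h5 := Submodule.finrank_mono hw.2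
    have h6 : dm ρ w = 4 := by
      have : dm ρ w ≤ 4 := by omega
      interval_cases dm ρ w <;> omega
    exact ⟨(Submodule.eq_of_le_of_finrank_le hw.2 (by omega)).symm, by omega⟩
  letI : MulAction X0 ((C : Set E)ᶜ : Set E) :=
    { smul := fun w v => ⟨ρ w v, fun h => v.2 (by
        have := mem_fx.1 ((inv_mem w.2).2 h)
        rw [app_inv] at this
        rw [this]; exact h)⟩
      one_smul := fun v => Subtype.ext (app_one _ _)
      mul_smul := fun w w' v => Subtype.ext (app_mul _ _ _ _) }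
  have hdvd := Grp.card_dvd_card_of_free (A := X0) (X := ((C : Set E)ᶜ : Set E)) (by
    intro v
    rw [eq_bot_iff]
    intro w hw
    rw [mem_bot]
    by_contra hw1
    have h1 : ρ w v = v := congrArg Subtype.val hw
    rw [← mem_fx, (hfx w w.2 fun e => hw1 (Subtype.ext e)).1] at h1
    exact v.2 h1)
  have hc := Set.ncard_add_ncard_compl (C : Set E)
  rw [← Nat.card_coe_set_eq, ← Nat.card_coe_set_eq, SetLike.coe_sort_coe, card_sub, card_E (E := E),
    (hfx y hy0 hy1).2, pow_add] at hc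
  have hc' : Nat.card ((C : Set E)ᶜ : Set E) = 3 ^ finrank (ZMod 3) C * 80 := by omega
  obtain ⟨j, hj⟩ := IsPGroup.iff_card.1 (hX.to_le (show X0 ≤ X from fun w hw => hw.1))
  rw [hc', hj] at hdvd
  have h80 : 5 ^ j ∣ 80 := Nat.Coprime.dvd_of_dvd_mul_left
    (Nat.Coprime.pow _ _ (by norm_num)) hdvd
  have hj1 : j ≤ 1 := by
    by_contra hj2
    have := (pow_dvd_pow 5 (show 2 ≤ j by omega)).trans h80
    omega
  have ho : orderOf y ∣ 5 := by
    have := orderOf_dvd_natCard (⟨y, hy0⟩ : X0)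
    rw [hj, orderOf_mk] at this
    exact this.trans (by interval_cases j <;> norm_num)
  have ho5 : orderOf y = 5 :=
    ((Nat.dvd_prime Nat.prime_five).1 ho).resolve_left (by rwa [orderOf_eq_one_iff])
  have hz : zpowers y = X0 := eq_of_le_of_card_ge (zpowers_le.2 hy0) (by
    rw [Nat.card_zpowers, ho5, hj]
    interval_cases j <;> norm_num)
  rw [← hz, ← mem_powers_iff_mem_zpowers] at hby0
  obtain ⟨i, hi⟩ := hby0
  simp only at hi
  have e3 : y ^ (i * i * i) = y ^ 1 := by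
    have : b ^ 3 * y * (b ^ 3)⁻¹ = b * (b * (b * y * b⁻¹) * b⁻¹) * b⁻¹ := by
      rw [pow_three']; group
    rw [h3, ← hi, ← conj_pow, ← hi, ← pow_mul, ← conj_pow, ← hi, ← pow_mul] at this
    rw [mul_assoc, ← this]; group
  rw [pow_eq_pow_iff_modEq, ho5] at e3
  have e1 : y ^ i = y ^ 1 := by
    rw [pow_eq_pow_iff_modEq, ho5]
    unfold Nat.ModEq at e3 ⊢
    rw [Nat.mul_mod, Nat.mul_mod i i] at e3
    have : i % 5 < 5 := Nat.mod_lt _ (by norm_num)
    interval_cases i % 5 <;> simp_all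
  rw [e1, pow_one, eq_comm, mul_inv_eq_iff_eq_mul] at hi
  exact comm_of_comm h3 (n := 5) (by norm_num) (by rw [← hy, ← ho5, pow_orderOf_eq_one]) hi

theorem odd [Finite S] (hρ : Function.Injective ρ) (h3 : b ^ 3 = 1) (hd : dm ρ b ≤ 2)
    {r : ℕ} (hr : r.Prime) (hr2 : r ≠ 2) (hr3 : r ≠ 3) (hr13 : r ≠ 13)
    {X : Subgroup S} (hX : IsPGroup r X) (hb : ∀ x ∈ X, b * x * b⁻¹ ∈ X) {x : S} (hx : x ∈ X) :
    b * x = x * b := by
  by_cases hr5 : r = 5
  · subst hr5
    exact five hρ h3 hd hX hb hx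
  have hyX : x * b * x⁻¹ * b⁻¹ ∈ X := by
    rw [show x * b * x⁻¹ * b⁻¹ = x * (b * x⁻¹ * b⁻¹) by group]
    exact mul_mem hx (hb _ (inv_mem hx))
  have hy1 : x * b * x⁻¹ * b⁻¹ = 1 := by
    by_contra hy1
    obtain ⟨k, hk⟩ := hX ⟨_, hyX⟩
    have h1 := dvd_dm ρ hr hr3 (k := k) (congrArg Subtype.val hk)
    have h2 := dm_pos hρ hy1
    have h4 := dm_comm hd x
    simp only at h1
    have h5 : r ∣ 2 ^ 4 * 5 * 13 := by
      refine h1.trans ?_
      interval_cases dm ρ (x * b * x⁻¹ * b⁻¹) <;> norm_num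
    rcases (Nat.Prime.dvd_mul hr).1 h5 with h | h
    · rcases (Nat.Prime.dvd_mul hr).1 h with h | h
      · exact hr2 ((Nat.prime_dvd_prime_iff_eq hr Nat.prime_two).1 (hr.dvd_of_dvd_pow h))
      · exact hr5 ((Nat.prime_dvd_prime_iff_eq hr Nat.prime_five).1 h)
    · exact hr13 ((Nat.prime_dvd_prime_iff_eq hr (by norm_num)).1 h)
  exact comm_of_comm h3 (n := 1) (by norm_num) (by rw [hy1, one_pow]) (by rw [hy1]; simp)

theorem dihedral (hρ : Function.Injective ρ) (htt : t * t = 1) (hd : dm ρ t ≤ 2) {x : S} {k : ℕ}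
    (hk : (x * t * x⁻¹ * t⁻¹) ^ 13 ^ k = 1) : t * x = x * t := by
  set w := x * t * x⁻¹ * t⁻¹ with hw
  suffices h : w = 1 by
    rw [hw, mul_inv_eq_one, mul_inv_eq_iff_eq_mul] at h
    exact h.symm
  by_contra hw1
  have h1 := dvd_dm ρ (by norm_num : Nat.Prime 13) (by norm_num) hk
  have h2 := dm_pos hρ hw1
  have h4 : dm ρ w ≤ 4 := dm_comm hd x
  have h3 : dm ρ w = 3 := by interval_cases dm ρ w <;> omega
  have ti : t⁻¹ = t := inv_eq_of_mul_eq_one_right htt
  have hinv : t * w * t⁻¹ = w⁻¹ := by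
    rw [hw, mul_inv_rev, mul_inv_rev, mul_inv_rev, inv_inv, inv_inv, ti]
    simp only [mul_assoc, htt, mul_one]
  have tt : ∀ v, ρ t (ρ t v) = v := fun v => by rw [← app_mul, htt, app_one]
  have hWt : ∀ v ∈ rg ρ w, ρ t v ∈ rg ρ w := by
    rintro _ ⟨v, rfl⟩
    apply rg_inv
    have := sub_mem_rg ρ (t * w * t⁻¹) (ρ t v)
    rw [app_mul, app_mul, app_inv, ← map_sub, hinv] at this
    exact this
  have hWw : ∀ v ∈ rg ρ w, ρ w v ∈ rg ρ w := by
    intro v hv
    have := add_mem (sub_mem_rg ρ w v) hv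
    rwa [sub_add_cancel] at this
  have key : ∀ a : ZMod 3, finrank (ZMod 3)
      ↥(rg ρ w ⊓ LinearMap.ker (ρ t - a • (1 : E →ₗ[ZMod 3] E))) ≤ 1 := by
    intro a
    by_contra hP
    set P := rg ρ w ⊓ LinearMap.ker (ρ t - a • (1 : E →ₗ[ZMod 3] E)) with hPd
    have e1 : finrank (ZMod 3) (P.map (ρ w)) = finrank (ZMod 3) P :=
      LinearEquiv.finrank_eq (Submodule.equivMapOfInjective _ (app_inj ρ w) P).symm
    have e2 := Submodule.finrank_sup_add_finrank_inf_eq P (P.map (ρ w))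
    have e3 : finrank (ZMod 3) ↥(P ⊔ P.map (ρ w)) ≤ dm ρ w := Submodule.finrank_mono
      (sup_le inf_le_left (by rintro _ ⟨v, hv, rfl⟩; exact hWw v hv.1))
    have e4 : P ⊓ P.map (ρ w) ≠ ⊥ := by
      intro e
      rw [e, finrank_bot] at e2
      omega
    obtain ⟨v, ⟨hv, p, hp, rfl⟩, hv0⟩ := (Submodule.ne_bot_iff _).1 e4
    have a1 : ρ t (ρ w p) = a • ρ w p := by simpa [sub_eq_zero] using hv.2
    have a2 : ρ t p = a • p := by simpa [sub_eq_zero] using hp.2
    have a3 : ρ (w ^ 2) p = p := by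
      have : ρ w⁻¹ (ρ t p) = ρ t (ρ w p) := by
        rw [← hinv, app_mul, app_mul, app_inv]
      rw [a1, ← map_smul, ← a2, ← (app_inj ρ t).eq_iff, ← app_mul, ← app_mul ρ t w] at this
      have e5 : t * w⁻¹ = w * t := by rw [← hinv, ti]; simp [mul_assoc, ← mul_assoc t t, htt]
      have e6 : t * w = w⁻¹ * t := by rw [← hinv]; group
      rw [e5, app_mul ρ w t, tt, e6, app_mul ρ w⁻¹ t, tt] at this
      rw [pow_two, app_mul, this, app_inv']
    have a4 : ρ w p = p := by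
      letI : MulAction S E := MulAction.compHom E ρ
      have hc : (orderOf w).Coprime 2 := Nat.Coprime.coprime_dvd_left
        (orderOf_dvd_of_pow_eq_one hk) (Nat.Coprime.pow_left _ (by norm_num))
      obtain ⟨m, hm⟩ := exists_pow_eq_self_of_coprime hc.symm
      have : (w ^ 2) ^ m ∈ MulAction.stabilizer S p := pow_mem a3 m
      rwa [hm] at this
    obtain ⟨q, hq⟩ := hp.1
    have hq' : ρ w q - q = p := hq
    have := fix_of_unip ρ (n := 13 ^ k) (fun h => by
      have := Nat.Prime.dvd_of_dvd_pow Nat.prime_three h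
      omega) hk (v := q) (by rw [hq', a4])
    rw [this, sub_self] at hq'
    exact hv0 (by rw [← hq', map_zero])
  have hle : rg ρ w ≤ rg ρ w ⊓ LinearMap.ker (ρ t - (1 : ZMod 3) • (1 : E →ₗ[ZMod 3] E)) ⊔
      rg ρ w ⊓ LinearMap.ker (ρ t - (-1 : ZMod 3) • (1 : E →ₗ[ZMod 3] E)) := by
    intro v hv
    have e : v = -(v + ρ t v) + -(v - ρ t v) := by
      have := three v
      linear_combination (norm := abel) this
    rw [e]
    refine Submodule.add_mem_sup (neg_mem ⟨add_mem hv (hWt v hv), ?_⟩)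
      (neg_mem ⟨sub_mem hv (hWt v hv), ?_⟩)
    · simp [tt, add_comm]
    · simp [tt]
  have e1 := (Submodule.finrank_mono hle).trans (Submodule.finrank_add_le_finrank_add_finrank _ _)
  have e2 := key 1
  have e3 := key (-1)
  unfold dm at h3
  omega

theorem thirteen (hρ : Function.Injective ρ) (h3 : b ^ 3 = 1) (hd : dm ρ b ≤ 2) (f : Four b t)
    {X : Subgroup S} [hn : X.Normal] (hX : IsPGroup 13 X) {x : S} (hx : x ∈ X) :
    b * x = x * b := by
  obtain ⟨u, g⟩ := f.exists_geo hρ hd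
  have c0 : ∀ x ∈ X, x * t = t * x := by
    intro x hx
    obtain ⟨k, hk⟩ := hX ⟨x * t * x⁻¹ * t⁻¹, by
      rw [show x * t * x⁻¹ * t⁻¹ = x * (t * x⁻¹ * t⁻¹) by group]
      exact mul_mem hx (hn.conj_mem _ (inv_mem hx) t)⟩
    exact (dihedral hρ f.sq (g.dm_t f h3) (congrArg Subtype.val hk)).symm
  have c1 : ∀ x ∈ X, x * (b * t * b⁻¹) = b * t * b⁻¹ * x := by
    intro x hx
    have := c0 _ (hn.conj_mem' _ hx b)
    calc x * (b * t * b⁻¹) = b * (b⁻¹ * x * b * t) * b⁻¹ := by group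
      _ = b * t * b⁻¹ * x := by rw [this]; group
  have c2 : ∀ x ∈ X, ρ x u = u := by
    intro x hx
    refine (g.sign (c0 x hx) (c1 x hx)).resolve_right fun e => ?_
    obtain ⟨k, hk⟩ := hX ⟨x, hx⟩
    have hk' : x ^ 13 ^ k = 1 := congrArg Subtype.val hk
    obtain ⟨m, hm⟩ : Odd (13 ^ k) := Odd.pow (by decide)
    have e2 : ρ ((x ^ 2) ^ m) u = u := by
      letI : MulAction S E := MulAction.compHom E ρ
      have : (x ^ 2) ^ m ∈ MulAction.stabilizer S u := pow_mem (by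
        change ρ (x ^ 2) u = u
        rw [pow_two, app_mul, e, map_neg, e, neg_neg]) m
      exact this
    have := app_one ρ u
    rw [← hk', hm, pow_succ', pow_mul, app_mul, e2, e] at this
    exact g.ne (eq_zero_of_neg this.symm)
  have c3 : ∀ x ∈ X, ρ x (ρ b u) = ρ b u := by
    intro x hx
    have := c2 _ (hn.conj_mem' _ hx b)
    rwa [app_mul, app_mul, ← (app_inj ρ b).eq_iff, app_inv'] at this
  have c4 : ∀ x ∈ X, ρ x (ρ b (ρ b u)) = ρ b (ρ b u) := by
    intro x hx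
    have := c3 _ (hn.conj_mem' _ hx b)
    rwa [app_mul, app_mul, ← (app_inj ρ b).eq_iff, app_inv'] at this
  apply hρ
  ext v
  obtain ⟨a0, a1, a2, c, rfl, h0, h1⟩ := g.decomp f h3 v
  have e := g.fix (ρ x c) (by rw [← app_mul, ← c0 x hx, app_mul, h0])
    (by rw [← app_mul, ← c1 x hx, app_mul, h1])
  simp only [app_mul, map_add, map_smul, c2 x hx, c3 x hx, c4 x hx, bbb h3, g.fix c h0 h1, e]

omit [Finite E] in
theorem comm_le {K : Subgroup S} (hK : zpowers b ≤ normalizer (K : Set S)) : ⁅K, zpowers b⁆ ≤ K := by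
  rw [commutator_le]
  intro k hk c hc
  rw [commutatorElement_def, show k * c * k⁻¹ * c⁻¹ = k * (c * k⁻¹ * c⁻¹) by group]
  exact mul_mem hk ((mem_normalizer_iff.1 (hK hc) _).1 (inv_mem hk))

omit [Finite E] in
theorem comm_norm {K : Subgroup S} (hK : zpowers b ≤ normalizer (K : Set S)) {r : S}
    (hr : r ∈ ⁅K, zpowers b⁆) : b * r * b⁻¹ ∈ ⁅K, zpowers b⁆ := by
  have : ⁅K, zpowers b⁆ ≤ (⁅K, zpowers b⁆).comap (MulAut.conj b).toMonoidHom := by
    rw [commutator_le]
    intro k hk c hc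
    change b * ⁅k, c⁆ * b⁻¹ ∈ ⁅K, zpowers b⁆
    rw [conjugate_commutatorElement]
    exact commutator_mem_commutator ((mem_normalizer_iff.1 (hK (mem_zpowers b)) _).1 hk)
      (mul_mem (mul_mem (mem_zpowers b) hc) (inv_mem (mem_zpowers b)))
  exact this hr

omit [Finite E] in
theorem comm_gen [Finite S] (h3 : b ^ 3 = 1) {K : Subgroup S}
    (hK : zpowers b ≤ normalizer (K : Set S)) (hc : (Nat.card K).Coprime 3) (L : Subgroup S)
    (hL : ∀ r ∈ ⁅K, zpowers b⁆, r * b * r⁻¹ ∈ L) : ⁅K, zpowers b⁆ ≤ L := by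
  rw [← S0027.result (zpowers b) K hK (by
    rw [Nat.card_zpowers]
    exact Nat.Coprime.coprime_dvd_left (orderOf_dvd_of_pow_eq_one h3) hc.symm)
    (Or.inl inferInstance), commutator_le]
  rintro r hr _ ⟨i, rfl⟩
  simp only
  rw [commutatorElement_def, ← conj_zpow]
  exact mul_mem (zpow_mem (hL r hr) i) (inv_mem (zpow_mem (by simpa using hL 1 (one_mem _)) i))

omit [Finite E] in
theorem Four.mem_comm (f : Four b t) (h3 : b ^ 3 = 1) {K : Subgroup S}
    (hK : zpowers b ≤ normalizer (K : Set S)) (ht : t ∈ K) : t ∈ ⁅K, zpowers b⁆ := by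
  have h1 := comm_norm hK (commutator_mem_commutator ht (mem_zpowers b))
  have ti : t⁻¹ = t := inv_eq_of_mul_eq_one_right f.sq
  rw [commutatorElement_def, ti, show t * b * t * b⁻¹ = t * (b * t * b⁻¹) by group, ← f.rot,
    show b * (b * (b * t * b⁻¹) * b⁻¹) * b⁻¹ = b ^ 3 * t * (b ^ 3)⁻¹ by rw [pow_three']; group,
    h3] at h1
  simpa using h1

variable [Finite S]

theorem card_comm_le (hρ : Function.Injective ρ) (h3 : b ^ 3 = 1) (hd : dm ρ b ≤ 2) (f : Four b t)
    {T : Subgroup S} [hn : T.Normal] (hT : IsPGroup 2 T) :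
    ∃ L : Subgroup S, Nat.card L ≤ 32 ∧ ∀ g ∈ T, ⁅b, g⁆ ∈ L := by
  have : Fact (Nat.Prime 2) := ⟨Nat.prime_two⟩
  set Q := closure ({t, b * t * b⁻¹} : Set S) with hQ
  have m0 : t ∈ Q := subset_closure (by simp)
  have m1 : b * t * b⁻¹ ∈ Q := subset_closure (by simp)
  have hQc : Q ≤ centralizer (Q : Set S) := by
    rw [hQ, centralizer_closure, closure_le]
    rintro _ (rfl | rfl) _ (rfl | rfl)
    exacts [rfl, f.comm.symm, f.comm, rfl]
  have hQ2 : IsPGroup 2 Q := by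
    rintro ⟨x, hx⟩
    refine ⟨1, Subtype.ext ?_⟩
    change x ^ 2 ^ 1 = 1
    rw [pow_one, pow_two]
    induction hx using closure_induction with
    | mem x hx =>
      rcases hx with rfl | rfl
      exacts [f.sq, f.sq1]
    | one => simp
    | mul x y hx hy ihx ihy =>
      rw [mul_assoc, ← mul_assoc y, hQc hx y hy, mul_assoc, ihy, mul_one, ihx]
    | inv x hx ih => rw [← mul_inv_rev, ih, inv_one]
  have hK : zpowers b ≤ normalizer ((T ⊔ Q : Subgroup S) : Set S) := by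
    rw [zpowers_le]
    refine mem_normalizer_fintype fun x hx => ?_
    have : T ⊔ Q ≤ (T ⊔ Q).comap (MulAut.conj b).toMonoidHom := by
      refine sup_le (fun x hx => mem_sup_left (hn.conj_mem x hx b)) ?_
      conv_lhs => rw [hQ]
      rw [closure_le]
      rintro _ (rfl | rfl)
      · exact mem_sup_right m1
      · change b * (b * t * b⁻¹) * b⁻¹ ∈ T ⊔ Q
        rw [f.rot]; exact mem_sup_right (mul_mem m0 m1)
    exact this hx
  have h2 : IsPGroup 2 (T ⊔ Q : Subgroup S) := hT.to_sup_of_normal_left hQ2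
  have hc : (Nat.card (T ⊔ Q : Subgroup S)).Coprime 3 := by
    obtain ⟨k, hk⟩ := IsPGroup.iff_card.1 h2
    rw [hk]
    exact Nat.Coprime.pow_left _ (by norm_num)
  have h := (Cfg.main (ρ := ρ) ⟨hρ, h3, hd, fun r => comm_norm hK, h2.to_le (comm_le hK),
    comm_gen h3 hK hc⟩ f (f.mem_comm h3 hK (mem_sup_right m0))).1
  refine ⟨⁅T ⊔ Q, zpowers b⁆, ?_, fun g hg => ?_⟩
  · rcases h with h | h
    · rw [h.2]; norm_num
    · rw [h.2.1]
  · rw [commutator_comm]
    exact commutator_mem_commutator (mem_zpowers b) (mem_sup_left hg)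

theorem cent_two (hρ : Function.Injective ρ) (h3 : b ^ 3 = 1) (hd : dm ρ b ≤ 2) (f : Four b t)
    {T : Subgroup S} [hn : T.Normal] (hT : IsPGroup 2 T) {x : S} {k : ℕ}
    (hk : (x * b * x⁻¹ * b⁻¹) ^ 13 ^ k = 1) :
    x * b * x⁻¹ * b⁻¹ ∈ centralizer (T : Set S) := by
  have : Fact (Nat.Prime 2) := ⟨Nat.prime_two⟩
  have : Fact (Nat.Prime 13) := ⟨by norm_num⟩
  obtain ⟨L, hL, hL'⟩ := card_comm_le hρ h3 hd f hT
  set y := x * b * x⁻¹ * b⁻¹ with hy
  have i1 := Grp.PChain.relIndex_centralizer_le T L hL'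
  have i2 := Grp.PChain.relIndex_centralizer_le T (L.map (MulAut.conj x).toMonoidHom)
    (u := x * b * x⁻¹) (fun g hg => ⟨_, hL' _ (hn.conj_mem' g hg x), by
      change x * _ * x⁻¹ = _
      simp only [commutatorElement_def]; group⟩)
  rw [card_map_of_injective (MulAut.conj x).injective] at i2
  have i3 : (centralizer (zpowers y : Set S)).relIndex T ≤ 1024 := by
    refine (relIndex_le_of_le_left (H := centralizer {x * b * x⁻¹} ⊓ centralizer {b}) ?_
      (index_ne_zero_of_finite)).trans (relIndex_inf_le.trans ?_)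
    · intro c hc
      rw [zpowers_eq_closure, centralizer_closure, mem_centralizer_singleton_iff]
      have c1 := mem_centralizer_singleton_iff.1 hc.1
      have c2 := mem_centralizer_singleton_iff.1 hc.2
      exact (Commute.mul_right c1 (Commute.inv_right c2) :)
    · exact (Nat.mul_le_mul (i2.trans hL) (i1.trans hL)).trans (by norm_num)
  have hp : IsPGroup 13 (zpowers y) := by
    rintro ⟨_, j, rfl⟩
    refine ⟨k, Subtype.ext ?_⟩
    simp only [SubgroupClass.coe_pow, OneMemClass.coe_one]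
    rw [← zpow_natCast, ← zpow_mul, mul_comm, zpow_mul, zpow_natCast, hk, one_zpow]
  have hm : Nat.card T ≡ Nat.card ↥(T ⊓ centralizer (zpowers y : Set S)) [MOD 13] :=
    Grp.ConjCount.card_modEq hp T fun g _ a ha => hn.conj_mem a ha g
  have hc := Grp.card_mul_relIndex (inf_le_left : T ⊓ centralizer (zpowers y : Set S) ≤ T)
  rw [inf_relIndex_left] at hc
  obtain ⟨a, ha⟩ := IsPGroup.iff_card.1 hT
  obtain ⟨i, -, hi⟩ := (Nat.dvd_prime_pow Nat.prime_two).1
    (show (centralizer (zpowers y : Set S)).relIndex T ∣ 2 ^ a from ⟨_, by rw [← ha, ← hc, mul_comm]⟩)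
  obtain ⟨j, -, hj⟩ := (Nat.dvd_prime_pow Nat.prime_two).1
    (show Nat.card ↥(T ⊓ centralizer (zpowers y : Set S)) ∣ 2 ^ a from ⟨_, by rw [← ha, ← hc]⟩)
  rw [← hc, hi, hj] at hm
  have h1 : 2 ^ i ≡ 1 [MOD 13] :=
    Nat.ModEq.cancel_left_of_coprime (c := 2 ^ j) (Nat.Coprime.pow_right _ (by norm_num))
      (by rwa [mul_one])
  have hi10 : i ≤ 10 := by
    rw [hi] at i3
    exact (Nat.pow_le_pow_iff_right (by norm_num)).1 (show 2 ^ i ≤ 2 ^ 10 from i3)
  have hi0 : i = 0 := by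
    interval_cases i <;> simp_all [Nat.ModEq]
  rw [hi0, pow_zero, relIndex_eq_one] at hi
  intro a ha
  exact (hi ha y (mem_zpowers y)).symm

theorem odd_all [Group.IsSolvable S] (hρ : Function.Injective ρ) (hO : pCore 3 S = ⊥)
    (h3 : b ^ 3 = 1) (hd : dm ρ b ≤ 2) (f : Four b t) {r : ℕ} (hr : r.Prime) (hr2 : r ≠ 2)
    (hr3 : r ≠ 3) {X : Subgroup S} (hX : IsPGroup r X) (hb : ∀ x ∈ X, b * x * b⁻¹ ∈ X) {x : S}
    (hx : x ∈ X) : b * x = x * b := by
  by_cases hr13 : r ≠ 13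
  · exact odd hρ h3 hd hr hr2 hr3 hr13 hX hb hx
  push Not at hr13
  subst hr13
  have : Fact (Nat.Prime 13) := ⟨hr⟩
  have hyX : x * b * x⁻¹ * b⁻¹ ∈ X := by
    rw [show x * b * x⁻¹ * b⁻¹ = x * (b * x⁻¹ * b⁻¹) by group]
    exact mul_mem hx (hb _ (inv_mem hx))
  obtain ⟨k, hk⟩ := hX ⟨_, hyX⟩
  have hk' : (x * b * x⁻¹ * b⁻¹) ^ 13 ^ k = 1 := congrArg Subtype.val hk
  have hF := Grp.centralizer_fitting_le S (PLocal.mem_centralizer_fitting_of_forall
    (y := x * b * x⁻¹ * b⁻¹) fun q hq => by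
      by_cases hq2 : q = 2
      · subst hq2
        exact cent_two hρ h3 hd f (Grp.pCore_isPGroup 2 S) hk'
      by_cases hq3 : q = 3
      · subst hq3
        rw [hO]
        rintro _ rfl
        simp
      have hbq : b ∈ centralizer (pCore q S : Set S) := by
        intro a ha
        by_cases hq13 : q = 13
        · subst hq13
          exact (thirteen hρ h3 hd f (Grp.pCore_isPGroup 13 S) ha).symm
        · exact (odd hρ h3 hd hq hq2 hq3 hq13 (Grp.pCore_isPGroup q S)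
            (fun a ha => Normal.conj_mem inferInstance a ha b) ha).symm
      exact mul_mem (Normal.conj_mem inferInstance b hbq x) (inv_mem hbq))
  exact comm_of_comm h3 (Nat.Coprime.pow_left k (by norm_num)) hk'
    (thirteen hρ h3 hd f (Grp.pCore_isPGroup 13 S) (PLocal.mem_pCore_of_mem_fitting hF hk'))

theorem final [Group.IsSolvable S] (hρ : Function.Injective ρ) (hO : pCore 3 S = ⊥)
    (h3 : b ^ 3 = 1) (hd : dm ρ b ≤ 2) (f : Four b t) {K : Subgroup S} [K.Normal]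
    (hc : (Nat.card K).Coprime 3) (ht : t ∈ K) :
    GrpC ⁅K, zpowers b⁆ ∧ ModC ρ ⁅K, zpowers b⁆ (zpowers b) := by
  have : Fact (Nat.Prime 2) := ⟨Nat.prime_two⟩
  have hK : zpowers b ≤ normalizer (K : Set S) := by rw [normalizer_eq_top]; exact le_top
  refine Cfg.main ⟨hρ, h3, hd, fun r => comm_norm hK, ?_, comm_gen h3 hK hc⟩ f (f.mem_comm h3 hK ht)
  have hcop : (Nat.card (zpowers b)).Coprime (Nat.card K) := by
    rw [Nat.card_zpowers]
    exact Nat.Coprime.coprime_dvd_left (orderOf_dvd_of_pow_eq_one h3) hc.symm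
  obtain ⟨T, hT⟩ := Solv.exists_invariant_sylow (zpowers b) K hK hcop (Or.inl inferInstance) 2
  have hidx : (T : Subgroup K).index.Coprime ((centralizer {b}).subgroupOf K).index := by
    refine Nat.Coprime.symm (Nat.coprime_of_dvd fun q hq h1 h2 => ?_)
    have : Fact q.Prime := ⟨hq⟩
    by_cases hq2 : q = 2
    · subst hq2
      exact T.not_dvd_index h2
    obtain ⟨P, hP⟩ := Solv.exists_invariant_sylow (zpowers b) K hK hcop (Or.inl inferInstance) q
    refine P.not_dvd_index (h1.trans (index_dvd_of_le fun x hx => ?_))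
    rw [mem_subgroupOf, mem_centralizer_singleton_iff]
    by_cases hq3 : q = 3
    · subst hq3
      obtain ⟨k, hk⟩ := P.isPGroup' ⟨x, hx⟩
      have hk' : x ^ 3 ^ k = 1 := congrArg Subtype.val hk
      have : x = 1 := by
        rw [← orderOf_eq_one_iff]
        exact Nat.eq_one_of_dvd_coprimes (hc.pow_right k) (orderOf_dvd_natCard x)
          (orderOf_dvd_of_pow_eq_one hk')
      simp [this]
    · exact (odd_all hρ hO h3 hd f hq hq2 hq3 (P.isPGroup'.map K.subtype)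
        (fun a ha => (mem_normalizer_iff.1 (hP (mem_zpowers b)) a).1 ha) ⟨x, hx, rfl⟩).symm
  refine (T.isPGroup'.map K.subtype).to_le (?_ : _ ≤ (T : Subgroup K).map K.subtype)
  have hle := comm_gen h3 hK hc ((T : Subgroup K).map K.subtype ⊔ zpowers b) (fun r hr => by
    obtain ⟨a, ha, c, hc', e⟩ := Grp.exists_mul_of_coprime_index hidx ⟨r, comm_le hK hr⟩
    have e' : (a : S) * c = r := congrArg Subtype.val e
    rw [mem_subgroupOf, mem_centralizer_singleton_iff] at hc'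
    have ha' : (a : S) ∈ (T : Subgroup K).map K.subtype ⊔ zpowers b := mem_sup_left ⟨a, ha, rfl⟩
    rw [← e', mul_assoc (a : S), hc', show (a : S) * (b * c) * ((a : S) * c)⁻¹ = (a : S) * b * (a : S)⁻¹ by group]
    exact mul_mem (mul_mem ha' (mem_sup_right (mem_zpowers b))) (inv_mem ha'))
  intro r hr
  have h1 := hle hr
  rw [← SetLike.mem_coe, coe_mul_of_right_le_normalizer_left _ _ hT] at h1
  obtain ⟨a, ha, c, hc', rfl⟩ := h1
  have hcK : c ∈ K := (K.mul_mem_cancel_left (map_subtype_le _ ha)).1 (comm_le hK hr)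
  have : c = 1 := by
    rw [← orderOf_eq_one_iff]
    exact Nat.eq_one_of_dvd_coprimes hcop (Subgroup.orderOf_dvd_natCard _ hc')
      (Subgroup.orderOf_dvd_natCard _ hcK)
  simp only [this, mul_one]
  exact ha

end Cfsg.Agent.H41.Cub
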