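import Mathlib
import Cfsg.Agent.Grp.Imprim
import Cfsg.Agent.S3370
import Cfsg.Agent.S0016

/-!
# Half-transitive 2-groups on finite vector spaces (Isaacs-Passman)
-/

set_option autoImplicit false

namespace Cfsg.Agent.H41.HalfTr

open Subgroup Module Cfsg.Agent.Grp.Imprim

section basic

variable {F V : Type*} [Field F] [AddCommGroup V] [Module F V] {G : Type*} [Group G]

/-- The stabiliser of a vector. -/
def St (ρ : G →* (V ≃ₗ[F] V)) (v : V) : Subgroup G :=
  (MulAction.stabilizer (V ≃ₗ[F] V) v).comap ρ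

theorem mem_St {ρ : G →* (V ≃ₗ[F] V)} {v : V} {g : G} : g ∈ St ρ v ↔ ρ g v = v := Iff.rfl

theorem app_mul (ρ : G →* (V ≃ₗ[F] V)) (g h : G) (v : V) : ρ (g * h) v = ρ g (ρ h v) := by
  rw [map_mul]; rfl

theorem app_one (ρ : G →* (V ≃ₗ[F] V)) (v : V) : ρ 1 v = v := by
  rw [map_one]; rfl

theorem orbit_mul_St (ρ : G →* (V ≃ₗ[F] V)) (v : V) :
    Nat.card {u : V | ∃ g : G, ρ g v = u} * Nat.card (St ρ v) = Nat.card G := by
  letI : MulAction G V := MulAction.compHom V ρ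
  have h1 : St ρ v = MulAction.stabilizer G v := by
    ext g; rfl
  have h2 : {u : V | ∃ g : G, ρ g v = u} = MulAction.orbit G v := by
    ext u; rfl
  rw [h1, h2, Nat.card_coe_set_eq, ← MulAction.index_stabilizer, Subgroup.index_mul_card]

theorem two_cancel (h2 : (2 : F) ≠ 0) {v : V} (h : v = -v) : v = 0 := by
  have : (2 : F) • v = 0 := by rw [two_smul]; nth_rewrite 1 [h]; simp
  exact (smul_eq_zero.1 this).resolve_left h2

theorem neg_of_central [Finite G] (ρ : G →* (V ≃ₗ[F] V)) (hρ : Function.Injective ρ)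
    (h2 : (2 : F) ≠ 0)
    (hc : ∀ v w : V, v ≠ 0 → w ≠ 0 → Nat.card (St ρ v) = Nat.card (St ρ w))
    {z : G} (hz : z ∈ center G) (hzz : z * z = 1) (hz1 : z ≠ 1) (v : V) : ρ z v = -v := by
  by_contra hv
  have hzz' : ∀ u, ρ z (ρ z u) = u := fun u => by rw [← app_mul, hzz, app_one]
  obtain ⟨w, hw⟩ : ∃ w, ρ z w ≠ w := by
    by_contra h
    push Not at h
    exact hz1 (hρ (by rw [map_one]; ext w; exact h w))
  set v1 := v + ρ z v with hv1
  set v2 := w - ρ z w with hv2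
  have h1 : ρ z v1 = v1 := by rw [hv1, map_add, hzz', add_comm]
  have h2' : ρ z v2 = -v2 := by rw [hv2, map_sub, hzz', neg_sub]
  have n1 : v1 ≠ 0 := fun h => hv (by rw [hv1] at h; exact eq_neg_of_add_eq_zero_right h)
  have n2 : v2 ≠ 0 := fun h => hw (by rw [hv2, sub_eq_zero] at h; exact h.symm)
  have n3 : v1 + v2 ≠ 0 := by
    intro h
    have h' := congrArg (ρ z) h
    rw [map_add, h1, h2', map_zero] at h'
    apply n2
    apply two_cancel h2
    exact add_left_cancel (h.trans h'.symm)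
  have hle : St ρ (v1 + v2) ≤ St ρ v1 := by
    intro g hg
    rw [mem_St] at hg ⊢
    have h' := congrArg (ρ z) hg
    rw [← app_mul, ← mem_center_iff.1 hz g, app_mul, map_add, h1, h2'] at h'
    rw [map_add] at hg h'
    rw [map_neg] at h'
    rw [← sub_eq_zero]
    apply two_cancel h2
    rw [← add_eq_zero_iff_eq_neg]
    have : ρ g v1 - v1 + (ρ g v1 - v1) = (ρ g v1 + ρ g v2) + (ρ g v1 + -ρ g v2) - (v1 + v2) - (v1 + -v2) := by
      abel
    rw [this, hg, h']; abel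
  have heq : St ρ (v1 + v2) = St ρ v1 :=
    Subgroup.eq_of_le_of_card_ge hle (hc _ _ n1 n3).le
  have : z ∈ St ρ (v1 + v2) := by rw [heq]; exact h1
  rw [mem_St, map_add, h1, h2', add_right_inj] at this
  exact n2 (two_cancel h2 this.symm)

theorem isCompl_fix (ρ : G →* (V ≃ₗ[F] V)) (h2 : (2 : F) ≠ 0) {z u : G}
    (hz : ∀ v, ρ z v = -v) (huu : u * u = 1) : IsCompl (fix ρ u) (fix ρ (z * u)) := by
  have huu' : ∀ v, ρ u (ρ u v) = v := fun v => by rw [← app_mul, huu, app_one]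
  constructor
  · rw [Submodule.disjoint_def]
    intro v h1 h3
    rw [mem_fix] at h1 h3
    rw [app_mul, h1, hz] at h3
    exact two_cancel h2 h3.symm
  · rw [codisjoint_iff, eq_top_iff]
    intro v _
    have : v = (2 : F)⁻¹ • (v + ρ u v) + (2 : F)⁻¹ • (v - ρ u v) := by
      rw [← smul_add, add_add_sub_cancel, ← two_smul F, smul_smul, inv_mul_cancel₀ h2, one_smul]
    rw [this]
    refine Submodule.add_mem_sup (Submodule.smul_mem _ _ ?_) (Submodule.smul_mem _ _ ?_)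
    · rw [mem_fix, map_add, huu', add_comm]
    · rw [mem_fix, app_mul, hz, map_sub, huu', neg_sub]

theorem finrank_fix_conj (ρ : G →* (V ≃ₗ[F] V)) (g u : G) :
    finrank F (fix ρ (g * u * g⁻¹)) = finrank F (fix ρ u) := by
  rw [← map_fix]
  exact LinearEquiv.finrank_map_eq (ρ g) _

theorem exists_inv_pow (hG : IsPGroup 2 G) {c : G} (hc : c ≠ 1) :
    ∃ j : ℕ, c ^ j ≠ 1 ∧ c ^ j * c ^ j = 1 := by
  classical
  have h := hG c
  have h0 : Nat.find h ≠ 0 := by
    intro h0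
    have := Nat.find_spec h
    rw [h0] at this
    exact hc (by simpa using this)
  obtain ⟨k, hk⟩ := Nat.exists_eq_succ_of_ne_zero h0
  refine ⟨2 ^ k, Nat.find_min h (by omega), ?_⟩
  have := Nat.find_spec h
  rw [hk] at this
  rw [← pow_add, ← two_mul, mul_comm, ← pow_succ]
  exact this

end basic

section count

variable {q : ℕ} [Fact q.Prime] {V : Type*} [AddCommGroup V] [Module (ZMod q) V] [Finite V]
  {G : Type*} [Group G] [Finite G]

theorem card_sub (W : Submodule (ZMod q) V) : Nat.card W = q ^ finrank (ZMod q) W := by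
  rw [Module.natCard_eq_pow_finrank (K := ZMod q), Nat.card_zmod]

theorem card_V : Nat.card V = q ^ finrank (ZMod q) V := by
  rw [Module.natCard_eq_pow_finrank (K := ZMod q), Nat.card_zmod]

theorem count [Nontrivial V] (ρ : G →* (V ≃ₗ[ZMod q] V)) (h2 : (2 : ZMod q) ≠ 0)
    (C : Subgroup G) (hC : C.index = 2) (hCs : ∀ c ∈ C, ∀ v : V, v ≠ 0 → ρ c v = v → c = 1)
    (hst : ∀ v : V, v ≠ 0 → ∃ g : G, g ≠ 1 ∧ ρ g v = v)
    {z w : G} (hz : ∀ v, ρ z v = -v) (hw : ∀ t, t ∉ C → t * t = 1 → w * t * w⁻¹ = z * t) :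
    ∃ d, 1 ≤ d ∧ Nat.card V = (q ^ d) ^ 2 ∧ {t : G | t ∉ C ∧ t * t = 1}.ncard = q ^ d + 1 := by
  classical
  have := Fintype.ofFinite G
  have := Fintype.ofFinite V
  have hq : 1 < q := (Fact.out : q.Prime).one_lt
  have hdim : ∀ t, t ∉ C → t * t = 1 → 2 * finrank (ZMod q) (fix ρ t) = finrank (ZMod q) V := by
    intro t ht htt
    have h1 := Submodule.finrank_add_eq_of_isCompl (isCompl_fix ρ h2 hz htt)
    rw [← hw t ht htt, finrank_fix_conj] at h1
    omega
  have hex : ∀ v : V, v ≠ 0 → ∃ t, (t ∉ C ∧ t * t = 1) ∧ ρ t v = v := by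
    intro v hv
    obtain ⟨g, hg1, hg⟩ := hst v hv
    refine ⟨g, ⟨fun h => hg1 (hCs g h v hv hg), hCs _ ?_ v hv (by rw [app_mul, hg, hg])⟩, hg⟩
    rw [Subgroup.mul_mem_iff_of_index_two hC]
  obtain ⟨v0, hv0⟩ := exists_ne (0 : V)
  obtain ⟨t0, ⟨ht0, ht00⟩, -⟩ := hex v0 hv0
  set d := finrank (ZMod q) (fix ρ t0) with hd
  have hdV : 2 * d = finrank (ZMod q) V := hdim t0 ht0 ht00
  have hpos : 0 < finrank (ZMod q) V := Module.finrank_pos
  have hV : Nat.card V = (q ^ d) ^ 2 := by rw [card_V (q := q), ← hdV, ← pow_mul, mul_comm]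
  refine ⟨d, by omega, hV, ?_⟩
  set T : Finset G := Finset.univ.filter (fun t => t ∉ C ∧ t * t = 1) with hT
  have hTc : {t : G | t ∉ C ∧ t * t = 1}.ncard = T.card := by
    rw [← Set.ncard_coe_finset]; congr 1; ext t; simp [hT]
  have hU : (Finset.univ.erase (0 : V)) =
      T.biUnion (fun t => (Finset.univ.filter (fun v => v ∈ fix ρ t)).erase 0) := by
    ext v
    simp only [Finset.mem_erase, Finset.mem_univ, and_true, Finset.mem_biUnion, hT,
      Finset.mem_filter, true_and, mem_fix]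
    constructor
    · intro hv
      obtain ⟨t, ht, htv⟩ := hex v hv
      exact ⟨t, ht, hv, htv⟩
    · rintro ⟨t, -, hv, -⟩
      exact hv
  have hcard : Nat.card V - 1 = T.card * (q ^ d - 1) := by
    have h1 := congrArg Finset.card hU
    rw [Finset.card_erase_of_mem (Finset.mem_univ _), Finset.card_univ, ← Nat.card_eq_fintype_card,
      Finset.card_biUnion, Finset.sum_congr rfl (g := fun _ => q ^ d - 1), Finset.sum_const,
      smul_eq_mul] at h1
    · exact h1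
    · intro t ht
      rw [hT, Finset.mem_filter] at ht
      rw [Finset.card_erase_of_mem (by simp), ← Fintype.card_subtype, ← Nat.card_eq_fintype_card]
      have := hdim t ht.2.1 ht.2.2
      rw [card_sub, show finrank (ZMod q) (fix ρ t) = d by omega]
    · intro t ht s hs hts
      rw [hT, Finset.coe_filter] at ht hs
      rw [Function.onFun, Finset.disjoint_left]
      intro v hv hv'
      simp only [Finset.mem_erase, Finset.mem_filter, Finset.mem_univ, true_and, mem_fix] at hv hv'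
      have hm : t * s ∈ C := by
        rw [Subgroup.mul_mem_iff_of_index_two hC]
        simp [ht.2.1, hs.2.1]
      have := hCs _ hm v hv.1 (by rw [app_mul, hv'.2, hv.2])
      exact hts (by rw [eq_inv_of_mul_eq_one_left this, ← eq_inv_of_mul_eq_one_left hs.2.2])
  rw [hTc]
  have hr : 1 < q ^ d := Nat.one_lt_pow (by omega) hq
  rw [hV] at hcard
  obtain ⟨r, hr'⟩ : ∃ r, q ^ d = r + 1 := ⟨q ^ d - 1, by omega⟩
  rw [hr'] at hcard hr ⊢
  have : (r + 1) ^ 2 - 1 = (r + 1 + 1) * r := by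
    have : (r + 1) ^ 2 = (r + 1 + 1) * r + 1 := by ring
    omega
  rw [this, Nat.add_sub_cancel] at hcard
  exact (Nat.eq_of_mul_eq_mul_right (by omega) hcard).symm

/-- The metacyclic case: `x` of order `2 ^ n` and index two, `y` an involution outside. -/
theorem metacyc [Nontrivial V] (ρ : G →* (V ≃ₗ[ZMod q] V)) (hρ : Function.Injective ρ)
    (h2 : (2 : ZMod q) ≠ 0)
    (hc : ∀ v w : V, v ≠ 0 → w ≠ 0 → Nat.card (St ρ v) = Nat.card (St ρ w))
    (hst : ∀ v : V, v ≠ 0 → ∃ g : G, g ≠ 1 ∧ ρ g v = v)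
    {x y : G} {n e : ℕ} (hn : 2 ≤ n) (hx : orderOf x = 2 ^ n) (hG : Nat.card G = 2 ^ (n + 1))
    (hy : y ∉ zpowers x) (hxy : y * x * y⁻¹ = x ^ e) (he : e % 4 = 3) :
    ∃ d, 1 ≤ d ∧ Nat.card V = (q ^ d) ^ 2 ∧
      {t : G | t ∉ zpowers x ∧ t * t = 1}.ncard = q ^ d + 1 := by
  obtain ⟨k, rfl⟩ : ∃ k, n = k + 2 := ⟨n - 2, by omega⟩
  have hC : (zpowers x).index = 2 := by
    have h1 := (zpowers x).card_mul_index
    rw [Nat.card_zpowers, hx, hG, pow_succ 2 (k + 2)] at h1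
    exact Nat.eq_of_mul_eq_mul_left (by positivity) h1
  have hyi : ∀ i : ℕ, y * x ^ i * y⁻¹ = x ^ (e * i) := by
    intro i
    rw [← conj_pow, hxy, pow_mul]
  -- every element outside acts like `y`
  have hout : ∀ t, t ∉ zpowers x → ∀ i : ℕ, t * x ^ i * t⁻¹ = x ^ (e * i) := by
    intro t ht i
    have hm : t * y⁻¹ ∈ zpowers x := by
      rw [Subgroup.mul_mem_iff_of_index_two hC]
      simp [ht, hy]
    obtain ⟨j, hj⟩ := hm
    have htj : t = x ^ j * y := by simp only [hj]; group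
    rw [htj, show x ^ j * y * x ^ i * (x ^ j * y)⁻¹ = x ^ j * (y * x ^ i * y⁻¹) * (x ^ j)⁻¹ by group,
      hyi]
    group
  obtain ⟨f, rfl⟩ : ∃ f, e = 4 * f + 3 := ⟨e / 4, by omega⟩
  set w := x ^ 2 ^ k with hw
  have hw4 : w ^ 4 = 1 := by
    rw [hw, ← pow_mul, ← orderOf_dvd_iff_pow_eq_one, hx, pow_add]; norm_num
  have hw2 : w ^ 2 ≠ 1 := by
    rw [hw, ← pow_mul, Ne, ← orderOf_dvd_iff_pow_eq_one, hx, pow_add]
    intro h
    have := Nat.le_of_dvd (by positivity) h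
    have : 0 < 2 ^ k := by positivity
    omega
  have hwt : ∀ t, t ∉ zpowers x → t * w * t⁻¹ = w ^ 3 := by
    intro t ht
    rw [hw, hout t ht, mul_comm, pow_mul, ← hw, pow_add, pow_mul, hw4, one_pow, one_mul]
  have hcen : ∀ i : ℕ, x ^ i * x ^ i = 1 → x ^ i ∈ center G := by
    intro i hi
    rw [mem_center_iff]
    intro g
    by_cases hg : g ∈ zpowers x
    · obtain ⟨j, rfl⟩ := hg
      simp only
      group
    · have h1 : g * x ^ i * g⁻¹ = x ^ i := by
        have h4 : (x ^ i) ^ 2 = 1 := by rw [pow_two, hi]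
        rw [hout g hg, mul_comm, pow_mul, show 4 * f + 3 = 2 * (2 * f + 1) + 1 by ring, pow_succ,
          pow_mul, h4, one_pow, one_mul]
      rw [← mul_inv_eq_iff_eq_mul, h1]
  have hzz : w ^ 2 * w ^ 2 = 1 := by rw [← pow_add]; exact hw4
  have hzc : w ^ 2 ∈ center G := by
    rw [hw, ← pow_mul] at hzz ⊢
    exact hcen _ hzz
  have hz := neg_of_central ρ hρ h2 hc hzc hzz hw2
  refine count ρ h2 _ hC ?_ hst hz (w := w) ?_
  · intro c hc' v hv hcv
    by_contra hc1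
    rw [← mem_powers_iff_mem_zpowers] at hc'
    obtain ⟨i, rfl⟩ := hc'
    obtain ⟨j, hj1, hj⟩ := exists_inv_pow (IsPGroup.of_card hG) hc1
    simp only at hj1 hj hcv
    have h5 : (x ^ i) ^ j ∈ St ρ v := pow_mem (mem_St.2 hcv) j
    have h6 := neg_of_central ρ hρ h2 hc (by rw [← pow_mul] at hj ⊢; exact hcen _ hj) hj hj1 v
    rw [mem_St, h6] at h5
    exact hv (two_cancel h2 h5.symm)
  · intro t ht htt
    have h3 := hwt t ht
    have ht' : t⁻¹ = t := inv_eq_of_mul_eq_one_right htt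
    have hwi : w⁻¹ = w ^ 3 := inv_eq_of_mul_eq_one_right (by rw [← pow_succ']; exact hw4)
    have h4 : t * w⁻¹ * t⁻¹ = w := by
      rw [show t * w⁻¹ * t⁻¹ = (t * w * t⁻¹)⁻¹ by group, h3, ← hwi, inv_inv]
    calc w * t * w⁻¹ = w * (t * w⁻¹ * t⁻¹) * t := by group
      _ = w ^ 2 * t := by rw [h4, pow_two]

omit [Finite V] in
theorem exists_noncentral [Nontrivial V] (hG : IsPGroup 2 G) (ρ : G →* (V ≃ₗ[ZMod q] V))
    (hρ : Function.Injective ρ) (h2 : (2 : ZMod q) ≠ 0)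
    (hc : ∀ v w : V, v ≠ 0 → w ≠ 0 → Nat.card (St ρ v) = Nat.card (St ρ w))
    (hst : ∀ v : V, v ≠ 0 → ∃ g : G, g ≠ 1 ∧ ρ g v = v) :
    ∃ t : G, t * t = 1 ∧ t ∉ center G := by
  obtain ⟨v, hv⟩ := exists_ne (0 : V)
  obtain ⟨g, hg1, hg⟩ := hst v hv
  obtain ⟨j, hj1, hj⟩ := exists_inv_pow hG hg1
  refine ⟨g ^ j, hj, fun hcen => ?_⟩
  have h5 : g ^ j ∈ St ρ v := pow_mem (mem_St.2 hg) j
  rw [mem_St, neg_of_central ρ hρ h2 hc hcen hj hj1 v] at h5
  exact hv (two_cancel h2 h5.symm)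

theorem quat_central {n : ℕ} (e : G ≃* QuaternionGroup n) {t : G} (ht : t * t = 1) :
    t ∈ center G := by
  have hn : n ≠ 0 := by
    rintro rfl
    have : Finite (QuaternionGroup 0) := Finite.of_equiv _ e.toEquiv
    have : Finite (DihedralGroup 0) :=
      Finite.of_equiv _ QuaternionGroup.quaternionGroupZeroEquivDihedralGroupZero.toEquiv
    exact not_finite (DihedralGroup 0)
  have : NeZero n := ⟨hn⟩
  rw [mem_center_iff]
  intro g
  apply e.injective
  have ht' : e t * e t = 1 := by rw [← map_mul, ht, map_one]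
  rw [map_mul, map_mul]
  rcases h : e t with i | i
  · rw [h, QuaternionGroup.a_mul_a, QuaternionGroup.one_def, QuaternionGroup.a.injEq] at ht'
    rcases e g with j | j
    · simp [add_comm]
    · rw [QuaternionGroup.xa_mul_a, QuaternionGroup.a_mul_xa, sub_eq_add_neg,
        ← eq_neg_of_add_eq_zero_left ht']
  · exfalso
    have h4 := QuaternionGroup.orderOf_xa (n := n) i
    rw [h, ← pow_two, ← orderOf_dvd_iff_pow_eq_one, h4] at ht'
    omega

theorem dihedral [Nontrivial V] (hG : IsPGroup 2 G) (ρ : G →* (V ≃ₗ[ZMod q] V))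
    (hρ : Function.Injective ρ) (h2 : (2 : ZMod q) ≠ 0)
    (hc : ∀ v w : V, v ≠ 0 → w ≠ 0 → Nat.card (St ρ v) = Nat.card (St ρ w))
    (hst : ∀ v : V, v ≠ 0 → ∃ g : G, g ≠ 1 ∧ ρ g v = v) {N : ℕ} (e : G ≃* DihedralGroup N) :
    Nat.card V = q ^ 2 ∧ ∃ m : ℕ, q = 2 ^ m - 1 ∧ Nonempty (G ≃* DihedralGroup (2 ^ m)) := by
  have hN : N ≠ 0 := by
    rintro rfl
    have : Finite (DihedralGroup 0) := Finite.of_equiv _ e.toEquiv
    exact not_finite (DihedralGroup 0)
  have : NeZero N := ⟨hN⟩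
  have hcard : Nat.card G = 2 * N := by rw [Nat.card_congr e.toEquiv, DihedralGroup.nat_card]
  obtain ⟨a, ha⟩ := IsPGroup.iff_card.1 hG
  obtain ⟨n, -, rfl⟩ := (Nat.dvd_prime_pow Nat.prime_two).1 (show N ∣ 2 ^ a from ⟨2, by omega⟩)
  have hn : 2 ≤ n := by
    by_contra hn
    obtain ⟨t, -, ht⟩ := exists_noncentral hG ρ hρ h2 hc hst
    apply ht
    rw [mem_center_iff]
    intro g
    apply e.injective
    rw [map_mul, map_mul]
    generalize e g = a
    generalize e t = b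
    have : n = 0 ∨ n = 1 := by omega
    rcases this with rfl | rfl
    · revert a b; decide
    · revert a b; decide
  set x := e.symm (DihedralGroup.r 1) with hx
  set y := e.symm (DihedralGroup.sr 0) with hy
  have hox : orderOf x = 2 ^ n := by rw [hx, MulEquiv.orderOf_eq, DihedralGroup.orderOf_r_one]
  have hmem : ∀ t : G, t ∈ zpowers x ↔ ∃ i, e t = DihedralGroup.r i := by
    intro t
    constructor
    · rintro ⟨j, rfl⟩
      refine ⟨j, ?_⟩
      simp only [hx, map_zpow, MulEquiv.apply_symm_apply, DihedralGroup.r_one_zpow]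
    · rintro ⟨i, hi⟩
      refine ⟨(i.val : ℕ), e.injective ?_⟩
      simp only [hx, map_zpow, MulEquiv.apply_symm_apply, DihedralGroup.r_one_zpow, hi]
      simp
  have h4 : 4 ∣ 2 ^ n := by
    obtain ⟨k, rfl⟩ : ∃ k, n = k + 2 := ⟨n - 2, by omega⟩
    exact ⟨2 ^ k, by ring⟩
  have hpos : 0 < 2 ^ n := by positivity
  obtain ⟨d, hd, hV, hT⟩ := metacyc ρ hρ h2 hc hst (x := x) (y := y) (e := 2 ^ n - 1) hn hox
    (by rw [hcard, pow_succ, mul_comm]) (by rw [hmem]; simp [hy]) (by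
      have : x ^ (2 ^ n - 1) = x⁻¹ := by
        rw [eq_inv_iff_mul_eq_one, ← pow_succ, Nat.sub_add_cancel hpos, ← hox, pow_orderOf_eq_one]
      rw [this]
      apply e.injective
      simp [hx, hy]) (by omega)
  have hTe : {t : G | t ∉ zpowers x ∧ t * t = 1} = (zpowers x : Set G)ᶜ := by
    ext t
    simp only [Set.mem_setOf_eq, Set.mem_compl_iff, SetLike.mem_coe, and_iff_left_iff_imp]
    intro ht
    rw [hmem] at ht
    apply e.injective
    rw [map_mul, map_one]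
    rcases h : e t with i | i
    · exact absurd ⟨i, h⟩ ht
    · simp
  have h6 := Set.ncard_add_ncard_compl (zpowers x : Set G)
  rw [← hTe, hT, ← Nat.card_coe_set_eq, SetLike.coe_sort_coe, Nat.card_zpowers, hox, hcard] at h6
  have h7 : q ^ d + 1 = 2 ^ n := by omega
  obtain rfl := S3370.num_two Fact.out hn h7
  rw [pow_one] at hV h7
  exact ⟨hV, n, by omega, ⟨e⟩⟩

theorem semidihedral [Nontrivial V] (ρ : G →* (V ≃ₗ[ZMod q] V))
    (hρ : Function.Injective ρ) (h2 : (2 : ZMod q) ≠ 0)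
    (hc : ∀ v w : V, v ≠ 0 → w ≠ 0 → Nat.card (St ρ v) = Nat.card (St ρ w))
    (hst : ∀ v : V, v ≠ 0 → ∃ g : G, g ≠ 1 ∧ ρ g v = v) (hS : Cfsg.IsQuasiDihedral G) :
    Nat.card V = q ^ 2 ∧ ∃ m : ℕ, q = 2 ^ m - 1 ∧ Nat.card G = 2 ^ (m + 2) := by
  obtain ⟨n, hn, hcard, x, y, hx, hy, hxy⟩ := hS
  obtain ⟨k, rfl⟩ : ∃ k, n = k + 3 := ⟨n - 3, by omega⟩
  rw [show k + 3 - 1 = k + 2 by omega] at hxy
  have hk : 0 < 2 ^ k := by positivity
  have e2 : 2 ^ (k + 2) = 4 * 2 ^ k := by ring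
  have e3 : 2 ^ (k + 3) = 8 * 2 ^ k := by ring
  have hyC : y ∉ zpowers x := by
    rintro ⟨j, rfl⟩
    simp only at hxy
    rw [show x ^ j * x * (x ^ j)⁻¹ = x ^ 1 by group, pow_eq_pow_iff_modEq, hx,
      Nat.modEq_iff_dvd' (by omega)] at hxy
    have := Nat.le_of_dvd (by omega) hxy
    omega
  have hyy : y * y = 1 := by rw [← pow_two, ← hy, pow_orderOf_eq_one]
  obtain ⟨d, hd, hV, hT⟩ := metacyc ρ hρ h2 hc hst (by omega) hx hcard hyC hxy (by omega)
  have hC : (zpowers x).index = 2 := by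
    have h1 := (zpowers x).card_mul_index
    rw [Nat.card_zpowers, hx, hcard, pow_succ 2 (k + 3)] at h1
    exact Nat.eq_of_mul_eq_mul_left (by positivity) h1
  have hsq : ∀ i : ℕ, x ^ i * y * (x ^ i * y) = x ^ (2 ^ (k + 2) * i) := by
    intro i
    calc x ^ i * y * (x ^ i * y) = x ^ i * (y * x * y⁻¹) ^ i * (y * y) := by
          rw [conj_pow]; group
      _ = x ^ (2 ^ (k + 2) * i) := by
          rw [hyy, mul_one, hxy, ← pow_mul, ← pow_add]
          congr 1
          obtain ⟨r, hr⟩ : ∃ r, 2 ^ (k + 2) = r + 1 := ⟨2 ^ (k + 2) - 1, by omega⟩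
          rw [hr, Nat.add_sub_cancel]; ring
  have hTe : {t : G | t ∉ zpowers x ∧ t * t = 1} = (fun c => c * y) '' (zpowers (x ^ 2) : Set G) := by
    ext t
    simp only [Set.mem_setOf_eq, Set.mem_image, SetLike.mem_coe]
    constructor
    · rintro ⟨ht, htt⟩
      have hm : t * y⁻¹ ∈ zpowers x := by
        rw [Subgroup.mul_mem_iff_of_index_two hC]
        simp [ht, hyC]
      rw [← mem_powers_iff_mem_zpowers] at hm
      obtain ⟨i, hi⟩ := hm
      have hti : t = x ^ i * y := by simp only [hi]; group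
      rw [hti, hsq, ← orderOf_dvd_iff_pow_eq_one, hx, pow_succ 2 (k + 2)] at htt
      obtain ⟨j, rfl⟩ := Nat.dvd_of_mul_dvd_mul_left (by positivity) htt
      exact ⟨x ^ (2 * j), by rw [pow_mul]; exact pow_mem (mem_zpowers _) _, hti.symm⟩
    · rintro ⟨c, hc', rfl⟩
      rw [← mem_powers_iff_mem_zpowers] at hc'
      obtain ⟨j, rfl⟩ := hc'
      simp only
      rw [← pow_mul]
      refine ⟨fun h => hyC ?_, ?_⟩
      · exact (Subgroup.mul_mem_cancel_left _ (pow_mem (mem_zpowers x) _)).1 h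
      · rw [hsq, ← orderOf_dvd_iff_pow_eq_one, hx]
        exact ⟨j, by ring⟩
  rw [hTe, Set.ncard_image_of_injective _ (mul_left_injective y), ← Nat.card_coe_set_eq,
    SetLike.coe_sort_coe, Nat.card_zpowers, orderOf_pow_of_dvd two_ne_zero (by rw [hx]; omega),
    hx] at hT
  have h7 : q ^ d + 1 = 2 ^ (k + 2) := by omega
  obtain rfl := S3370.num_two Fact.out (by omega) h7
  rw [pow_one] at hV h7
  exact ⟨hV, k + 2, by omega, hcard⟩

omit [Finite V] in
theorem swap (ρ : G →* (V ≃ₗ[ZMod q] V)) (h2 : (2 : ZMod q) ≠ 0)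
    (hc : ∀ v w : V, v ≠ 0 → w ≠ 0 → Nat.card (St ρ v) = Nat.card (St ρ w)) {u : G}
    (hAB : ∀ g, (∀ v, ρ u (ρ g v) = ρ g (ρ u v)) ∨ (∀ v, ρ u (ρ g v) = -ρ g (ρ u v)))
    {w w' : V} (hw : w ≠ 0) (hw' : w' ≠ 0) (h1 : ρ u w = w) (h1' : ρ u w' = -w') :
    ∃ g, ρ g w = w' ∧ ρ g w' = w := by
  by_contra hno
  have n3 : w + w' ≠ 0 := by
    intro h
    have h' := congrArg (ρ u) h
    rw [map_add, h1, h1', map_zero] at h'
    exact hw' (two_cancel h2 (add_left_cancel (h.trans h'.symm)))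
  have hle : St ρ (w + w') ≤ St ρ w := by
    intro g hg
    rw [mem_St] at hg ⊢
    have h' := congrArg (ρ u) hg
    rcases hAB g with h | h
    · rw [h, map_add, h1, h1', map_add, map_neg] at h'
      rw [map_add] at hg
      rw [← sub_eq_zero]
      apply two_cancel h2
      rw [← add_eq_zero_iff_eq_neg]
      have : ρ g w - w + (ρ g w - w) =
          (ρ g w + ρ g w') + (ρ g w + -ρ g w') - (w + w') - (w + -w') := by abel
      rw [this, hg, h']; abel
    · rw [h, map_add, h1, h1', map_add, map_neg] at h'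
      rw [map_add] at hg
      have h3 : ρ g w' = w := by
        rw [← sub_eq_zero]
        apply two_cancel h2
        rw [← add_eq_zero_iff_eq_neg]
        have : ρ g w' - w + (ρ g w' - w) =
            (ρ g w + ρ g w') + (-(ρ g w + -ρ g w')) - (w + w') - (w + -w') := by abel
        rw [this, hg, h']; abel
      rw [h3, add_comm w, add_left_inj] at hg
      exact (hno ⟨g, hg, h3⟩).elim
  have heq : St ρ (w + w') = St ρ w :=
    Subgroup.eq_of_le_of_card_ge hle (hc _ _ hw n3).le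
  have : u ∈ St ρ (w + w') := by rw [heq]; exact h1
  rw [mem_St, map_add, h1, h1', add_right_inj] at this
  exact hw' (two_cancel h2 this.symm)

omit [Finite V] in
theorem coords (ρ : G →* (V ≃ₗ[ZMod q] V)) (hρ : Function.Injective ρ) (h2 : (2 : ZMod q) ≠ 0)
    (hc : ∀ v w : V, v ≠ 0 → w ≠ 0 → Nat.card (St ρ v) = Nat.card (St ρ w)) {u : G}
    (hu1 : u ≠ 1)
    (hAB : ∀ g, (∀ v, ρ u (ρ g v) = ρ g (ρ u v)) ∨ (∀ v, ρ u (ρ g v) = -ρ g (ρ u v)))
    (b : Basis (Fin 2) (ZMod q) V) (h0 : ρ u (b 0) = b 0) (h1 : ρ u (b 1) = -b 1) :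
    ∃ e : V ≃ₗ[ZMod q] (Fin 2 → ZMod q), ∀ f : (Fin 2 → ZMod q) ≃ₗ[ZMod q] (Fin 2 → ZMod q),
        (∃ g : G, f = e.symm.trans ((ρ g).trans e)) ↔
        ∃ a s : ZMod q, a ≠ 0 ∧ (s = 1 ∨ s = -1) ∧
          ((∀ v, f v = ![a * v 0, s * a⁻¹ * v 1]) ∨ (∀ v, f v = ![s * a⁻¹ * v 1, a * v 0])) := by
  have n0 := b.ne_zero 0
  have n1 := b.ne_zero 1
  have hdec : ∀ v : V, v = b.repr v 0 • b 0 + b.repr v 1 • b 1 := by
    intro v
    have := b.sum_repr v
    rw [Fin.sum_univ_two] at this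
    exact this.symm
  have hW : ∀ v, ρ u v = v → ∃ a : ZMod q, v = a • b 0 := by
    intro v hv
    refine ⟨b.repr v 0, ?_⟩
    have h3 := hdec v
    have h4 := congrArg (ρ u) h3
    rw [hv, map_add, map_smul, map_smul, h0, h1, smul_neg] at h4
    have h5 := two_cancel h2 (add_left_cancel (h3.symm.trans h4))
    rw [h5, add_zero] at h3
    exact h3
  have hW' : ∀ v, ρ u v = -v → ∃ a : ZMod q, v = a • b 1 := by
    intro v hv
    refine ⟨b.repr v 1, ?_⟩
    have h3 := hdec v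
    have h4 := congrArg (ρ u) h3
    rw [hv, map_add, map_smul, map_smul, h0, h1, smul_neg, neg_eq_iff_eq_neg, neg_add, neg_neg] at h4
    have h5 := two_cancel h2 (add_right_cancel (h3.symm.trans h4))
    rw [h5, zero_add] at h3
    exact h3
  have hext : ∀ g g' : G, ρ g (b 0) = ρ g' (b 0) → ρ g (b 1) = ρ g' (b 1) → g = g' := by
    intro g g' e0 e1
    apply hρ
    ext v
    rw [hdec v, map_add, map_add, map_smul, map_smul, map_smul, map_smul, e0, e1]
  have hg : ∀ a : ZMod q, a ≠ 0 → ∃ g, ρ g (b 0) = a • b 1 ∧ ρ g (b 1) = a⁻¹ • b 0 := by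
    intro a ha
    obtain ⟨g, e0, e1⟩ := swap ρ h2 hc hAB n0 (smul_ne_zero ha n1) h0
      (by rw [map_smul, h1, smul_neg])
    refine ⟨g, e0, ?_⟩
    rw [← e1, map_smul, smul_smul, inv_mul_cancel₀ ha, one_smul]
  obtain ⟨g1, e0, e1⟩ := hg 1 one_ne_zero
  rw [one_smul] at e0
  rw [inv_one, one_smul] at e1
  have hli : ∀ x y x' y' : ZMod q, x • b 0 + y • b 1 = x' • b 0 + y' • b 1 → x = x' ∧ y = y' := by
    intro x y x' y' h
    have a0 := congrArg (fun v => b.repr v 0) h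
    have a1 := congrArg (fun v => b.repr v 1) h
    simp at a0 a1
    exact ⟨a0, a1⟩
  have n01 : b 0 + b 1 ≠ 0 := by
    intro h
    have := (hli 1 1 0 0 (by simpa using h)).1
    exact one_ne_zero this
  have hsub : (St ρ (b 0 + b 1) : Set G) ⊆ {1, g1} := by
    intro g hg'
    rw [SetLike.mem_coe, mem_St, map_add] at hg'
    rcases hAB g with h | h
    · obtain ⟨x, hx⟩ := hW (ρ g (b 0)) (by rw [h, h0])
      obtain ⟨y, hy⟩ := hW' (ρ g (b 1)) (by rw [h, h1, map_neg])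
      obtain ⟨rfl, rfl⟩ := hli x y 1 1 (by rw [← hx, ← hy, hg', one_smul, one_smul])
      left
      apply hext <;> simp [hx, hy]
    · obtain ⟨x, hx⟩ := hW' (ρ g (b 0)) (by rw [h, h0])
      obtain ⟨y, hy⟩ := hW (ρ g (b 1)) (by rw [h, h1, map_neg, neg_neg])
      obtain ⟨rfl, rfl⟩ := hli y x 1 1 (by rw [← hx, ← hy, add_comm, hg', one_smul, one_smul])
      right
      apply hext <;> simp [hx, hy, e0, e1]
  have hSt : ({1, u} : Set G) = St ρ (b 0) := by
    apply Set.eq_of_subset_of_ncard_le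
    · intro g hg'
      rcases hg' with rfl | rfl
      · exact one_mem _
      · exact h0
    · rw [Set.ncard_pair hu1.symm, ← Nat.card_coe_set_eq, SetLike.coe_sort_coe, hc _ _ n0 n01,
        ← SetLike.coe_sort_coe, Nat.card_coe_set_eq]
      exact (Set.ncard_le_ncard hsub).trans ((Set.ncard_insert_le _ _).trans (by simp))
    · exact Set.toFinite _
  have hB : ∀ (g : G) (a : ZMod q), a ≠ 0 → ρ g (b 0) = a • b 1 →
      ∃ s : ZMod q, (s = 1 ∨ s = -1) ∧ ρ g (b 1) = (s * a⁻¹) • b 0 := by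
    intro g a ha hga
    obtain ⟨k, k0, k1⟩ := hg a ha
    have : k⁻¹ * g ∈ ({1, u} : Set G) := by
      rw [hSt, SetLike.mem_coe, mem_St, app_mul, hga, ← k0, ← app_mul, inv_mul_cancel, app_one]
    rcases this with h | h
    · refine ⟨1, Or.inl rfl, ?_⟩
      rw [inv_mul_eq_one] at h
      rw [← h, k1, one_mul]
    · refine ⟨-1, Or.inr rfl, ?_⟩
      rw [Set.mem_singleton_iff, inv_mul_eq_iff_eq_mul] at h
      rw [h, app_mul, h1, map_neg, k1, neg_one_mul, neg_smul]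
  have hform : ∀ (g : G) (v : Fin 2 → ZMod q),
      (b.equivFun.symm.trans ((ρ g).trans b.equivFun)) v =
        v 0 • b.equivFun (ρ g (b 0)) + v 1 • b.equivFun (ρ g (b 1)) := by
    intro g v
    simp [Fin.sum_univ_two]
  have hA' : ∀ (g : G) (a c : ZMod q), ρ g (b 0) = a • b 0 → ρ g (b 1) = c • b 1 → ∀ v,
      (b.equivFun.symm.trans ((ρ g).trans b.equivFun)) v = ![a * v 0, c * v 1] := by
    intro g a c ha hc' v
    rw [hform, ha, hc']
    ext i
    fin_cases i <;> simp [mul_comm]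
  have hB' : ∀ (g : G) (a c : ZMod q), ρ g (b 0) = a • b 1 → ρ g (b 1) = c • b 0 → ∀ v,
      (b.equivFun.symm.trans ((ρ g).trans b.equivFun)) v = ![c * v 1, a * v 0] := by
    intro g a c ha hc' v
    rw [hform, ha, hc']
    ext i
    fin_cases i <;> simp [mul_comm]
  refine ⟨b.equivFun, fun f => ⟨?_, ?_⟩⟩
  · rintro ⟨g, rfl⟩
    rcases hAB g with h | h
    · obtain ⟨a, ha⟩ := hW (ρ g (b 0)) (by rw [h, h0])
      have ha0 : a ≠ 0 := by
        rintro rfl
        rw [zero_smul, LinearEquiv.map_eq_zero_iff] at ha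
        exact n0 ha
      obtain ⟨s, hs, hs'⟩ := hB (g1 * g) a ha0 (by rw [app_mul, ha, map_smul, e0])
      refine ⟨a, s, ha0, hs, Or.inl (hA' g a _ ha ?_)⟩
      apply (ρ g1).injective
      rw [← app_mul, hs', map_smul, e1]
    · obtain ⟨a, ha⟩ := hW' (ρ g (b 0)) (by rw [h, h0])
      have ha0 : a ≠ 0 := by
        rintro rfl
        rw [zero_smul, LinearEquiv.map_eq_zero_iff] at ha
        exact n0 ha
      obtain ⟨s, hs, hs'⟩ := hB g a ha0 ha
      exact ⟨a, s, ha0, hs, Or.inr (hB' g a _ ha hs')⟩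
  · rintro ⟨a, s, ha, hs, hf⟩
    obtain ⟨k, k0, k1⟩ : ∃ k, ρ k (b 0) = a • b 1 ∧ ρ k (b 1) = (s * a⁻¹) • b 0 := by
      obtain ⟨k, k0, k1⟩ := hg a ha
      rcases hs with rfl | rfl
      · exact ⟨k, k0, by rw [k1, one_mul]⟩
      · exact ⟨k * u, by rw [app_mul, h0, k0],
          by rw [app_mul, h1, map_neg, k1, neg_one_mul, neg_smul]⟩
    rcases hf with hf | hf
    · refine ⟨g1 * k, LinearEquiv.ext fun v => ?_⟩
      rw [hf, hA' (g1 * k) a (s * a⁻¹) (by rw [app_mul, k0, map_smul, e1])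
        (by rw [app_mul, k1, map_smul, e0])]
    · refine ⟨k, LinearEquiv.ext fun v => ?_⟩
      rw [hf, hB' k a (s * a⁻¹) k0 k1]

theorem four (hG : IsPGroup 2 G) (ρ : G →* (V ≃ₗ[ZMod q] V))
    (hρ : Function.Injective ρ) (h2 : (2 : ZMod q) ≠ 0)
    (hc : ∀ v w : V, v ≠ 0 → w ≠ 0 → Nat.card (St ρ v) = Nat.card (St ρ w))
    {z u : G} (hz : ∀ v, ρ z v = -v) (huu : u * u = 1) (hu1 : u ≠ 1) (huz : u ≠ z)
    (hug : ∀ g, g * u * g⁻¹ = u ∨ g * u * g⁻¹ = z * u) :
    (Nat.card V = q ^ 2 ∧ (∃ m : ℕ, q = 2 ^ m + 1) ∧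
      ∃ e : V ≃ₗ[ZMod q] (Fin 2 → ZMod q), ∀ f : (Fin 2 → ZMod q) ≃ₗ[ZMod q] (Fin 2 → ZMod q),
        (∃ g : G, f = e.symm.trans ((ρ g).trans e)) ↔
        ∃ a s : ZMod q, a ≠ 0 ∧ (s = 1 ∨ s = -1) ∧
          ((∀ v, f v = ![a * v 0, s * a⁻¹ * v 1]) ∨ (∀ v, f v = ![s * a⁻¹ * v 1, a * v 0]))) ∨
    (Nat.card V = 81 ∧ q = 3) := by
  have hq : 1 < q := (Fact.out : q.Prime).one_lt
  have hAB : ∀ g, (∀ v, ρ u (ρ g v) = ρ g (ρ u v)) ∨ (∀ v, ρ u (ρ g v) = -ρ g (ρ u v)) := by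
    intro g
    rcases hug g with h | h
    · left
      intro v
      rw [← app_mul, ← app_mul, mul_inv_eq_iff_eq_mul.1 h]
    · right
      intro v
      rw [← app_mul ρ g u, mul_inv_eq_iff_eq_mul.1 h, mul_assoc, app_mul ρ z, hz, neg_neg, app_mul]
  have hcompl := isCompl_fix ρ h2 hz huu
  have hm' : ∀ v, v ∈ fix ρ (z * u) ↔ ρ u v = -v := by
    intro v
    rw [mem_fix, app_mul, hz, neg_eq_iff_eq_neg]
  obtain ⟨w, hw, hw0⟩ : ∃ w ∈ fix ρ u, w ≠ 0 := by
    rw [← Submodule.ne_bot_iff]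
    intro h
    rw [h] at hcompl
    have ht := eq_top_of_bot_isCompl hcompl
    apply huz
    apply hρ
    ext v
    rw [hz, ← hm', ht]; trivial
  obtain ⟨w', hw', hw0'⟩ : ∃ w ∈ fix ρ (z * u), w ≠ 0 := by
    rw [← Submodule.ne_bot_iff]
    intro h
    rw [h] at hcompl
    have ht := eq_top_of_isCompl_bot hcompl
    apply hu1
    apply hρ
    ext v
    rw [app_one, ← mem_fix, ht]; trivial
  rw [mem_fix] at hw
  rw [hm'] at hw'
  have hfin : finrank (ZMod q) (fix ρ (z * u)) = finrank (ZMod q) (fix ρ u) := by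
    obtain ⟨g, e0, -⟩ := swap ρ h2 hc hAB hw0 hw0' hw hw'
    rcases hug g with h | h
    · exfalso
      have : ρ u w' = w' := by
        rw [← e0, ← app_mul, ← mul_inv_eq_iff_eq_mul.1 h, app_mul, hw]
      rw [hw'] at this
      exact hw0' (two_cancel h2 this.symm)
    · rw [← h, finrank_fix_conj]
  set d := finrank (ZMod q) (fix ρ u) with hd
  have hdV : finrank (ZMod q) V = 2 * d := by
    have := Submodule.finrank_add_eq_of_isCompl hcompl
    omega
  have horb : {v : V | ∃ g : G, ρ g w = v} =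
      ((fix ρ u : Set V) \ {0}) ∪ ((fix ρ (z * u) : Set V) \ {0}) := by
    ext v
    simp only [Set.mem_setOf_eq, Set.mem_union, Set.mem_diff, SetLike.mem_coe, hm',
      Set.mem_singleton_iff]
    rw [mem_fix]
    constructor
    · rintro ⟨g, rfl⟩
      have n : ρ g w ≠ 0 := by rwa [Ne, LinearEquiv.map_eq_zero_iff]
      rcases hAB g with h | h
      · exact Or.inl ⟨by rw [h, hw], n⟩
      · exact Or.inr ⟨by rw [h, hw], n⟩
    · rintro (⟨h, n⟩ | ⟨h, n⟩)
      · obtain ⟨g, e0, -⟩ := swap ρ h2 hc hAB hw0 hw0' hw hw'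
        obtain ⟨g', -, e1⟩ := swap ρ h2 hc hAB n hw0' h hw'
        exact ⟨g' * g, by rw [app_mul, e0, e1]⟩
      · obtain ⟨g, e0, -⟩ := swap ρ h2 hc hAB hw0 n hw h
        exact ⟨g, e0⟩
  have hcardo := orbit_mul_St ρ w
  rw [horb, Nat.card_coe_set_eq, Set.ncard_union_eq
    (Set.disjoint_left.2 fun v h h' =>
      h.2 (Submodule.disjoint_def.1 hcompl.disjoint v h.1 h'.1)),
    Set.ncard_diff_singleton_of_mem (zero_mem _), Set.ncard_diff_singleton_of_mem (zero_mem _),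
    ← Nat.card_coe_set_eq, ← Nat.card_coe_set_eq, SetLike.coe_sort_coe, SetLike.coe_sort_coe,
    card_sub, card_sub, hfin, ← hd] at hcardo
  obtain ⟨a, ha⟩ := IsPGroup.iff_card.1 hG
  obtain ⟨c, -, hc'⟩ := (Nat.dvd_prime_pow Nat.prime_two).1
    (show q ^ d - 1 ∣ 2 ^ a from ⟨2 * Nat.card (St ρ w), by rw [← ha, ← hcardo]; ring⟩)
  have hpos : 0 < q ^ d := by positivity
  have h7 : 2 ^ c + 1 = q ^ d := by omega
  have hq2 : q ≠ 2 := by
    rintro rfl
    exact h2 rfl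
  have hd0 : d ≠ 0 := by
    intro h
    rw [h, pow_zero] at h7
    have : 0 < 2 ^ c := by positivity
    omega
  by_cases hd2 : 2 ≤ d
  · obtain ⟨h3, h4⟩ := S3370.num_odd Fact.out hq2 hd2 h7
    right
    refine ⟨?_, h3⟩
    rw [card_V (q := q), hdV, h4, h3]; norm_num
  · have hd1 : d = 1 := by omega
    rw [hd1] at h7 hdV
    left
    refine ⟨by rw [card_V (q := q), hdV], ⟨c, by rw [h7, pow_one]⟩, ?_⟩
    have hli : LinearIndependent (ZMod q) ![w, w'] := by
      rw [LinearIndependent.pair_iff]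
      intro s t hst
      have h' := congrArg (ρ u) hst
      rw [map_add, map_smul, map_smul, hw, hw', map_zero, smul_neg] at h'
      have h3 := two_cancel h2 (add_left_cancel (hst.trans h'.symm))
      rw [h3, add_zero] at hst
      exact ⟨(smul_eq_zero.1 hst).resolve_right hw0, (smul_eq_zero.1 h3).resolve_right hw0'⟩
    let b := basisOfLinearIndependentOfCardEqFinrank hli (by simp [hdV])
    have hb : ⇑b = ![w, w'] := coe_basisOfLinearIndependentOfCardEqFinrank _ _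
    exact coords ρ hρ h2 hc hu1 hAB b (by rw [hb]; exact hw) (by rw [hb]; exact hw')

theorem main_two [Nontrivial V] (hG : IsPGroup 2 G) (ρ : G →* (V ≃ₗ[ZMod q] V))
    (hρ : Function.Injective ρ)
    (hc : ∀ v w : V, v ≠ 0 → w ≠ 0 → Nat.card (St ρ v) = Nat.card (St ρ w)) :
    ((IsCyclic G ∨ ∃ n : ℕ, Nonempty (G ≃* QuaternionGroup n)) ∧
      ∀ v : V, v ≠ 0 → ∀ g : G, ρ g v = v → g = 1) ∨
    (Nat.card V = q ^ 2 ∧ ∃ m : ℕ, q = 2 ^ m - 1 ∧
      (Nonempty (G ≃* DihedralGroup (2 ^ m)) ∨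
        (Cfsg.IsQuasiDihedral G ∧ Nat.card G = 2 ^ (m + 2)))) ∨
    (Nat.card V = q ^ 2 ∧ (∃ m : ℕ, q = 2 ^ m + 1) ∧
      ∃ e : V ≃ₗ[ZMod q] (Fin 2 → ZMod q), ∀ f : (Fin 2 → ZMod q) ≃ₗ[ZMod q] (Fin 2 → ZMod q),
        (∃ g : G, f = e.symm.trans ((ρ g).trans e)) ↔
        ∃ a s : ZMod q, a ≠ 0 ∧ (s = 1 ∨ s = -1) ∧
          ((∀ v, f v = ![a * v 0, s * a⁻¹ * v 1]) ∨ (∀ v, f v = ![s * a⁻¹ * v 1, a * v 0]))) ∨
    (Nat.card V = 81 ∧ q = 3 ∧ 2 = 2) := by
  by_cases hsr : ∀ v : V, v ≠ 0 → ∀ g : G, ρ g v = v → g = 1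
  · left
    refine ⟨?_, hsr⟩
    have hneg : ∀ t : G, t ≠ 1 → t * t = 1 → ∀ v, ρ t v = -v := by
      intro t ht htt v
      by_contra h
      apply ht
      apply hsr (v + ρ t v) (fun h' => h (eq_neg_of_add_eq_zero_right h'))
      rw [map_add, ← app_mul, htt, app_one, add_comm]
    have huniq : ∀ H K : Subgroup G, Nat.card H = 2 → Nat.card K = 2 → H = K := by
      have hle : ∀ H K : Subgroup G, Nat.card H = 2 → Nat.card K = 2 → H ≤ K := by
        intro H K hH hK t ht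
        by_cases ht1 : t = 1
        · rw [ht1]; exact one_mem _
        have hKb : K ≠ ⊥ := by
          rintro rfl
          simp at hK
        obtain ⟨⟨s, hs⟩, hs1⟩ := (Subgroup.ne_bot_iff_exists_ne_one).1 hKb
        have hs1' : s ≠ 1 := fun h => hs1 (Subtype.ext h)
        have htt : t * t = 1 := by
          have := pow_card_eq_one' (x := (⟨t, ht⟩ : H))
          rw [hH, pow_two] at this
          exact congrArg Subtype.val this
        have hss : s * s = 1 := by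
          have := pow_card_eq_one' (x := (⟨s, hs⟩ : K))
          rw [hK, pow_two] at this
          exact congrArg Subtype.val this
        have : t = s := hρ (LinearEquiv.ext fun v => by rw [hneg t ht1 htt, hneg s hs1' hss])
        rw [this]; exact hs
      intro H K hH hK
      exact le_antisymm (hle H K hH hK) (hle K H hK hH)
    rcases S0016.result 2 hG huniq with h | ⟨-, n, h⟩
    · exact Or.inl h
    · exact Or.inr ⟨_, h⟩
  right
  have hst : ∀ v : V, v ≠ 0 → ∃ g : G, g ≠ 1 ∧ ρ g v = v := by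
    push Not at hsr
    obtain ⟨v0, hv0, g0, hg0, hg1⟩ := hsr
    intro v hv
    have h1 : St ρ v0 ≠ ⊥ := fun h => hg1 (by rw [← Subgroup.mem_bot, ← h]; exact hg0)
    have h2 : St ρ v ≠ ⊥ := by
      rw [Ne, ← Subgroup.card_eq_one, hc v v0 hv hv0, Subgroup.card_eq_one]
      exact h1
    obtain ⟨⟨s, hs⟩, hs1⟩ := (Subgroup.ne_bot_iff_exists_ne_one).1 h2
    exact ⟨s, fun h => hs1 (Subtype.ext h), hs⟩
  have h2 : (2 : ZMod q) ≠ 0 := by
    intro h2
    have hq : q = 2 := by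
      have : ((2 : ℕ) : ZMod q) = 0 := by exact_mod_cast h2
      rw [ZMod.natCast_eq_zero_iff] at this
      exact (Nat.prime_dvd_prime_iff_eq Fact.out Nat.prime_two).1 this
    letI : MulAction G V := MulAction.compHom V ρ
    have hdvd : 2 ∣ Nat.card V := by
      rw [card_V (q := q)]
      exact dvd_pow (hq ▸ dvd_rfl) Module.finrank_pos.ne'
    obtain ⟨v, hv, hv0⟩ := hG.exists_fixed_point_of_prime_dvd_card_of_fixed_point V hdvd
      (a := 0) (fun g => map_zero (ρ g))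
    have htop : St ρ v = ⊤ := eq_top_iff.2 fun g _ => hv g
    apply hsr
    intro w hw g _
    apply hρ
    ext x
    rw [app_one]
    by_cases hx : x = 0
    · rw [hx, map_zero]
    · have : St ρ x = ⊤ := by
        rw [← Subgroup.card_eq_iff_eq_top, hc x v hx hv0.symm, htop, Subgroup.card_top]
      rw [← mem_St, this]; trivial
  by_cases hd : ∃ n, Nonempty (G ≃* DihedralGroup n)
  · obtain ⟨n, ⟨e⟩⟩ := hd
    obtain ⟨h1, m, h3, h4⟩ := dihedral hG ρ hρ h2 hc hst e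
    exact Or.inl ⟨h1, m, h3, Or.inl h4⟩
  by_cases hsd : Cfsg.IsQuasiDihedral G
  · obtain ⟨h1, m, h3, h4⟩ := semidihedral ρ hρ h2 hc hst hsd
    exact Or.inl ⟨h1, m, h3, Or.inr ⟨hsd, h4⟩⟩
  right
  obtain ⟨t, htt, ht⟩ := exists_noncentral hG ρ hρ h2 hc hst
  have hnc : ¬ IsCyclic G := by
    intro h
    apply ht
    rw [mem_center_iff]
    intro g
    exact IsCyclic.commGroup.mul_comm g t
  obtain ⟨A, hAn, hA, hAc⟩ := exists_normal_comm_not_isCyclic hG hnc
    (fun n ⟨e⟩ => ht (quat_central e htt)) (fun n h => hd ⟨n, h⟩) hsd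
  obtain ⟨z, u, hz, hzo, huu, huz, hug⟩ := exists_pair hG hA hAc
  have hzz : z * z = 1 := by rw [← pow_two, ← hzo, pow_orderOf_eq_one]
  have hz1 : z ≠ 1 := by
    rintro rfl
    simp at hzo
  rw [pow_two] at huu
  rcases four hG ρ hρ h2 hc (neg_of_central ρ hρ h2 hc hz hzz hz1) huu
    (fun h => huz (by rw [h]; exact one_mem _)) (fun h => huz (by rw [h]; exact mem_zpowers _))
    (fun g => by
      have h := inv_mem (hug g)
      rw [commutatorElement_inv, ← mem_powers_iff_mem_zpowers] at h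
      obtain ⟨j, hj⟩ := h
      simp only [commutatorElement_def] at hj
      rw [← pow_mod_orderOf, hzo] at hj
      rcases Nat.mod_two_eq_zero_or_one j with h | h
      · left
        rw [h, pow_zero, eq_comm, mul_inv_eq_one] at hj
        exact hj
      · right
        rw [h, pow_one, eq_comm, mul_inv_eq_iff_eq_mul] at hj
        exact hj) with h | h
  · exact Or.inl h
  · exact Or.inr ⟨h.1, h.2, rfl⟩

end count

end Cfsg.Agent.H41.HalfTr
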