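import Mathlib
import Cfsg.Agent.FGS.SameOrder
import Cfsg.Agent.FGS.BHM

/-! Counting elements of given order: general tools. -/

set_option autoImplicit false

namespace Cfsg.Agent.H41.Nse

open Subgroup Cfsg.Agent.FGS Cfsg.Agent.FGS.SO Cfsg.Agent.FGS.BHM

variable {G : Type*} [Group G] [Finite G]

theorem sum_eq_card_filter (T : Finset ℕ) :
    ∑ k ∈ T, s G k = Nat.card {g : G // orderOf g ∈ T} := by
  classical
  haveI := Fintype.ofFinite G
  simp only [s, Nat.card_eq_fintype_card, Fintype.card_subtype]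
  rw [Finset.card_eq_sum_card_fiberwise (f := orderOf) (t := T)
    (s := Finset.univ.filter fun x : G => orderOf x ∈ T) fun x hx => (Finset.mem_filter.1 hx).2]
  refine Finset.sum_congr rfl fun k hk => congrArg _ ?_
  ext x
  simp only [Finset.mem_filter, Finset.mem_univ, true_and]
  exact ⟨fun h => ⟨h ▸ hk, h⟩, fun h => h.2⟩

theorem sum_le (T : Finset ℕ) : ∑ k ∈ T, s G k ≤ Nat.card G := by
  rw [sum_eq_card_filter]
  exact Finite.card_subtype_le _

theorem sum_eq (T : Finset ℕ) (h : ∀ g : G, orderOf g ∈ T) : ∑ k ∈ T, s G k = Nat.card G := by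
  rw [sum_eq_card_filter]
  exact Nat.card_congr (Equiv.subtypeUnivEquiv h)

theorem s_normal (N : Subgroup G) [N.Normal] {k : ℕ} (h : k.Coprime N.index) : s G k = s N k := by
  refine (Nat.card_congr ⟨fun x => ⟨x.1.1, by rw [orderOf_coe, x.2]⟩,
    fun x => ⟨⟨x.1, mem_of_pow_mem_of_coprime (m := N.index) (by rw [x.2]; exact h)
      (N.pow_index_mem x.1)⟩, by rw [← orderOf_coe, x.2]⟩, fun _ => rfl, fun _ => rfl⟩).symm

theorem sum_le_normal (N : Subgroup G) [N.Normal] (T : Finset ℕ)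
    (h : ∀ k ∈ T, k.Coprime N.index) : ∑ k ∈ T, s G k ≤ Nat.card N := by
  rw [Finset.sum_congr rfl fun k hk => s_normal N (h k hk)]
  exact sum_le T

theorem pow_dvd_ix {p q k : ℕ} (hp : p.Prime) (hk : p ^ k ∣ Nat.card G) (h : s G (p * q) = 0)
    {y : G} (hq : q ∣ orderOf y) (hy : ¬ p ∣ orderOf y) : p ^ k ∣ ix y := by
  haveI := Fact.mk hp
  have h1 : ¬ p ∣ Nat.card (centralizer ({y} : Set G)) := by
    intro h2
    obtain ⟨z, hz⟩ := exists_prime_orderOf_dvd_card' p h2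
    have hc : Commute (z : G) y := mem_c.1 z.2
    have hz' : orderOf (z : G) = p := by rw [orderOf_coe, hz]
    refine not_dvd_orderOf h ((z : G) * y) ?_
    rw [hc.orderOf_mul_eq_mul_orderOf_of_coprime
      (by rw [hz']; exact (Nat.Prime.coprime_iff_not_dvd hp).2 hy), hz']
    exact Nat.mul_dvd_mul_left p hq
  rw [← (centralizer ({y} : Set G)).card_mul_index] at hk
  exact (((Nat.Prime.coprime_iff_not_dvd hp).2 h1).pow_left k).dvd_of_dvd_mul_left hk

theorem pow_dvd_s {p q k m : ℕ} (hp : p.Prime) (hk : p ^ k ∣ Nat.card G) (h : s G (p * q) = 0)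
    (hq : q ∣ m) (hm : ¬ p ∣ m) : p ^ k ∣ s G m :=
  dvd_s_of_index fun _ hg => pow_dvd_ix hp hk h (hg ▸ hq) (hg ▸ hm)

theorem cyclic_sylow {p a : ℕ} (hp : p.Prime) (ha : ¬ p ^ (a + 1) ∣ Nat.card G)
    (h : s G (p ^ a) ≠ 0) : ∃ n, n ∣ Nat.card G ∧ n % p = 1 ∧ s G (p ^ a) = (p ^ a).totient * n ∧
      ∀ j ≤ a, s G (p ^ j) ≤ (p ^ j).totient * n := by
  classical
  haveI := Fact.mk hp
  obtain ⟨g, hg⟩ := exists_of_s_ne_zero h
  have hf : (Nat.card G).factorization p = a := by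
    have h1 : p ^ a ∣ Nat.card G := hg ▸ orderOf_dvd_natCard g
    rw [hp.pow_dvd_iff_le_factorization Nat.card_pos.ne'] at ha h1
    omega
  let P : Sylow p G := Sylow.ofCard (zpowers g) (by rw [Nat.card_zpowers, hg, hf])
  have hcyc : ∀ Q : Sylow p G, IsCyclic Q := fun Q => by
    haveI : IsCyclic P := inferInstanceAs (IsCyclic (zpowers g))
    exact isCyclic_of_surjective (Sylow.equiv P Q).toMonoidHom (Sylow.equiv P Q).surjective
  have hcard : ∀ Q : Sylow p G, Nat.card Q = p ^ a := fun Q => by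
    rw [Sylow.card_eq_multiplicity, hf]
  have hs : ∀ j ≤ a, Nat.card (Σ Q : Sylow p G, {x : Q // orderOf x = p ^ j}) =
      (p ^ j).totient * Nat.card (Sylow p G) := by
    intro j hj
    haveI := Fintype.ofFinite (Sylow p G)
    rw [Nat.card_sigma, Finset.sum_congr rfl (g := fun _ => (p ^ j).totient) fun Q _ => ?_]
    · rw [Finset.sum_const, Finset.card_univ, smul_eq_mul, Nat.card_eq_fintype_card, mul_comm]
    · haveI := hcyc Q
      haveI := Fintype.ofFinite Q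
      rw [Nat.card_eq_fintype_card, Fintype.card_subtype]
      exact IsCyclic.card_orderOf_eq_totient
        (by rw [← Nat.card_eq_fintype_card]; exact (pow_dvd_pow p hj).trans (hcard Q).symm.dvd)
  let f : ∀ j, (Σ Q : Sylow p G, {x : Q // orderOf x = p ^ j}) → {x : G // orderOf x = p ^ j} :=
    fun j x => ⟨x.2.1.1, by rw [orderOf_coe, x.2.2]⟩
  have hsurj : ∀ j, Function.Surjective (f j) := by
    rintro j ⟨x, hx⟩
    obtain ⟨Q, hQ⟩ := exists_sylow_mem (p := p) (x := x) ⟨j, hx ▸ pow_orderOf_eq_one x⟩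
    exact ⟨⟨Q, ⟨x, hQ⟩, by rw [← orderOf_coe, hx]⟩, rfl⟩
  refine ⟨Nat.card (Sylow p G), (P.card_dvd_index).trans (index_dvd_card _), ?_, ?_, fun j hj => ?_⟩
  · have := card_sylow_modEq_one p G
    rwa [Nat.ModEq, Nat.mod_eq_of_lt hp.one_lt] at this
  · rw [← hs a le_rfl]
    refine (Nat.card_congr (Equiv.ofBijective (f a) ⟨?_, hsurj a⟩)).symm
    rintro ⟨Q, ⟨x, hx⟩, hxo⟩ ⟨Q', ⟨x', hx'⟩, hxo'⟩ e
    obtain rfl : x = x' := congrArg Subtype.val e
    have key : ∀ R : Sylow p G, x ∈ (R : Subgroup G) → zpowers x = R := fun R hR =>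
      eq_of_le_of_card_ge (zpowers_le.2 hR) (by
        rw [Nat.card_zpowers, hcard R, ← hxo, ← orderOf_coe])
    obtain rfl : Q = Q' := Sylow.ext ((key Q hx).symm.trans (key Q' hx'))
    rfl
  · rw [← hs j hj]
    exact Nat.card_le_card_of_surjective _ (hsurj j)

theorem dvd_three {n : ℕ} (hn : n ≠ 0) (h : ∀ p : ℕ, p.Prime → p ∣ n → p = 2 ∨ p = 3 ∨ p = 5)
    (i j k : ℕ) (h2 : ¬ 2 ^ (i + 1) ∣ n) (h3 : ¬ 3 ^ (j + 1) ∣ n) (h5 : ¬ 5 ^ (k + 1) ∣ n) :
    n ∣ 2 ^ i * 3 ^ j * 5 ^ k := by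
  refine (Nat.dvd_iff_prime_pow_dvd_dvd _ _).2 fun p e hp he => ?_
  rcases e with _ | e
  · simp
  have key : ∀ {m : ℕ}, ¬ p ^ (m + 1) ∣ n → p ^ (e + 1) ∣ p ^ m := fun hm =>
    pow_dvd_pow p (by by_contra h1; exact hm ((pow_dvd_pow p (by omega)).trans he))
  rcases h p hp ((dvd_pow_self p e.succ_ne_zero).trans he) with rfl | rfl | rfl
  · exact ((key h2).mul_right _).mul_right _
  · exact ((key h3).mul_left _).mul_right _
  · exact (key h5).mul_left _

theorem dvd_ncard {d : ℕ} (S : Set G) (hS : ∀ x ∈ S, ∀ g : G, g * x * g⁻¹ ∈ S)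
    (h : ∀ x ∈ S, d ∣ ix x) : d ∣ S.ncard := by
  rw [← Nat.card_coe_set_eq]
  refine FrobCount.dvd_card_of_fibers (fun x : S => ConjClasses.mk x.1) fun a => ?_
  have := h a.1 a.2
  rw [ix, ← ncard_setOf_isConj, ← Nat.card_coe_set_eq] at this
  have h2 : ∀ y, IsConj a.1 y → y ∈ S := fun y hy => by
    obtain ⟨c, hc⟩ := isConj_iff.1 hy
    exact hc ▸ hS _ a.2 c
  exact this.trans (Nat.card_congr ⟨fun y => ⟨⟨y.1, h2 _ y.2⟩,
    ConjClasses.mk_eq_mk_iff_isConj.2 (IsConj.symm y.2)⟩,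
    fun y => ⟨y.1.1, (ConjClasses.mk_eq_mk_iff_isConj.1 y.2).symm⟩,
    fun _ => rfl, fun _ => rfl⟩).dvd

/-- a normal subgroup of order prime to `5`, when there are no elements of order `10`, `15` -/
theorem normal_five (h5 : 5 ∣ Nat.card G) (h10 : s G (5 * 2) = 0) (h15 : s G (5 * 3) = 0)
    (N : Subgroup G) [hN : N.Normal] (hd : Nat.card N ∣ 72) :
    Nat.card N = 1 ∨ Nat.card N = 36 := by
  have hix : ∀ y ∈ N, y ≠ 1 → 5 ∣ ix y := by
    intro y hy h1
    have h2 : orderOf y ∣ 72 := (N.orderOf_dvd_natCard hy).trans hd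
    have h3 : ¬ 5 ∣ orderOf y := fun h => by have := h.trans h2; omega
    obtain ⟨r, hr, hry⟩ := Nat.exists_prime_and_dvd (mt orderOf_eq_one_iff.1 h1)
    have h4 : r ∣ 2 ^ 3 * 3 ^ 2 := hry.trans h2
    rcases (Nat.Prime.dvd_mul hr).1 h4 with h | h
    · obtain rfl := (Nat.prime_dvd_prime_iff_eq hr Nat.prime_two).1 (hr.dvd_of_dvd_pow h)
      exact pow_dvd_ix (k := 1) Nat.prime_five h5 h10 hry h3
    · obtain rfl := (Nat.prime_dvd_prime_iff_eq hr Nat.prime_three).1 (hr.dvd_of_dvd_pow h)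
      exact pow_dvd_ix (k := 1) Nat.prime_five h5 h15 hry h3
  have h1 : 5 ∣ ((N : Set G) \ {1}).ncard := dvd_ncard _
    (fun x hx g => ⟨hN.conj_mem x hx.1 g, fun h => hx.2 (by simpa [mul_inv_eq_iff_eq_mul] using h)⟩)
    fun x hx => hix x hx.1 hx.2
  have h2 : ((N : Set G) \ {1}).ncard + 1 = Nat.card N := by
    rw [Set.ncard_diff_singleton_add_one (one_mem N), ← Nat.card_coe_set_eq]
    rfl
  have h3 : ∀ r : ℕ, r.Prime → r ∣ Nat.card N → 5 ≤ s N r := by
    intro r hr hrN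
    have h4 : 5 ∣ {y : G | y ∈ N ∧ orderOf y = r}.ncard := dvd_ncard _
      (fun x hx g => ⟨hN.conj_mem x hx.1 g, by
        rw [← hx.2]; exact (MulAut.conj g).orderOf_eq x⟩)
      fun x hx => hix x hx.1 fun h => hr.one_lt.ne' (by rw [← hx.2, h, orderOf_one])
    have h6 : {y : G | y ∈ N ∧ orderOf y = r}.ncard = s N r := by
      rw [← Nat.card_coe_set_eq]
      exact Nat.card_congr ⟨fun y => ⟨⟨y.1, y.2.1⟩, by rw [← orderOf_coe, y.2.2]⟩,
        fun y => ⟨y.1.1, y.1.2, by rw [orderOf_coe, y.2]⟩, fun _ => rfl, fun _ => rfl⟩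
    rw [h6] at h4
    exact Nat.le_of_dvd (Nat.pos_of_ne_zero (s_ne_zero_of_prime hr hrN)) h4
  have h6 : Nat.card N ≠ 6 := by
    intro h
    have a2 := h3 2 Nat.prime_two (by rw [h]; norm_num)
    have a3 := h3 3 Nat.prime_three (by rw [h]; norm_num)
    have := sum_le (G := N) {2, 3}
    rw [Finset.sum_pair (by norm_num)] at this
    omega
  have h7 : ∀ n ∈ Nat.divisors 72, n % 5 = 1 → n = 1 ∨ n = 6 ∨ n = 36 := by decide
  have := h7 _ (Nat.mem_divisors.2 ⟨hd, by norm_num⟩) (by omega)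
  omega

/-- reading off the hypothesis -/
theorem exists_of_mem {T : Set ℕ}
    (h : (fun m : ℕ => Nat.card {g : G // orderOf g = m}) '' Set.range (orderOf : G → ℕ) = T)
    {c : ℕ} (hc : c ∈ T) : ∃ k, 0 < k ∧ s G k = c := by
  rw [← h] at hc
  obtain ⟨_, ⟨g, rfl⟩, e⟩ := hc
  exact ⟨_, orderOf_pos g, e⟩

theorem eq_two_of_odd {k c : ℕ} (hk : 0 < k) (h : s G k = c) (h1 : c % 2 = 1) (h2 : c ≠ 1) :
    s G 2 = c := by
  rcases Nat.lt_or_ge 2 k with h3 | h3
  · have := even_s (G := G) h3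
    omega
  · interval_cases k
    · exact absurd (h.symm.trans s_one) h2
    · exact h

theorem two_lt {k : ℕ} (hk : 0 < k) (h1 : s G k % 2 = 0) (h2 : s G 2 % 2 = 1) : 2 < k := by
  by_contra h3
  have : k = 1 ∨ k = 2 := by omega
  rcases this with rfl | rfl
  · rw [s_one] at h1; omega
  · omega

theorem prime_dvd {p : ℕ} (hp : p.Prime) (h : p ∣ Nat.card G) : p ∣ 1 + s G p ∧ p - 1 ∣ s G p := by
  have h1 := dvd_sum h
  rw [hp.sum_divisors, s_one, add_comm] at h1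
  exact ⟨h1, Nat.totient_prime hp ▸ totient_dvd p⟩

theorem dvd_card_of_ne {m : ℕ} (h : s G m ≠ 0) : m ∣ Nat.card G := by
  obtain ⟨g, rfl⟩ := exists_of_s_ne_zero h
  exact orderOf_dvd_natCard g

theorem s_eq_zero_of_dvd {m k : ℕ} (h : s G m = 0) (hk : m ∣ k) : s G k = 0 :=
  s_eq_zero_iff.2 fun g hg => not_dvd_orderOf h g (hg ▸ hk)

/-- the image set from explicit counts -/
theorem image_eq (T : Finset ℕ) (h0 : ∀ k ∈ T, s G k ≠ 0) (h : ∑ k ∈ T, s G k = Nat.card G) :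
    (fun m : ℕ => Nat.card {g : G // orderOf g = m}) '' Set.range (orderOf : G → ℕ) =
      s G '' (T : Set ℕ) := by
  classical
  have : Set.range (orderOf : G → ℕ) = T := by
    ext k
    refine ⟨?_, fun hk => exists_of_s_ne_zero (h0 k hk)⟩
    rintro ⟨g, rfl⟩
    by_contra h1
    have h2 := sum_le (G := G) (insert (orderOf g) T)
    rw [Finset.sum_insert h1] at h2
    have := s_ne_zero g
    omega
  rw [this]
  rfl

end Cfsg.Agent.H41.Nse
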