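import Mathlib
import Cfsg.Agent.Inv.SU3Syl

/-!
Automorphisms of a Sylow 2-subgroup of `SU₃(2ⁿ)` whose square is inner centralize the centre.
-/

set_option autoImplicit false

namespace Cfsg.Agent.H41.U3Cent

open Subgroup Cfsg.Agent.Class.U Cfsg.Agent.Inv

theorem sum_eq_zero {A : Type*} [AddGroup A] [Fintype A] (f : A → ℤ)
    (hf : ∀ a b, f (a + b) = f a * f b) {a : A} (ha : f a = -1) : ∑ x, f x = 0 := by
  have := Equiv.sum_comp (Equiv.addRight a) f
  simp only [Equiv.coe_addRight, hf, ha, mul_neg, mul_one, Finset.sum_neg_distrib] at this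
  omega

variable {F : Type*} [Field F] {q : ℕ} [hU : UF F q] [CharP F 2]

local notation "σ" => conj F q

/-- the quadratic forms attached to the norm are of minus type -/
theorem minus (ψ : F → ℤ) (hψ : ∀ a b, ψ (a + b) = ψ a * ψ b) (h1 : ∀ a, ψ a = 1 ∨ ψ a = -1)
    {a : F} (ha : σ a = a) (ha' : ψ a = -1) (W : AddSubgroup F)
    (hW : ∀ w ∈ W, ψ (w * σ w) = 1) : Nat.card W * Nat.card W < Nat.card F := by
  classical
  have := hU.finite
  have := Fintype.ofFinite F
  have ψ0 : ψ 0 = 1 := by simpa using hW 0 W.zero_mem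
  -- the Gauss sum is negative
  let K : AddSubgroup F := ((σ).toAddMonoidHom.eqLocus (AddMonoidHom.id F))
  have hK : ∀ c, c * σ c ∈ K := fun c => show σ (c * σ c) = c * σ c by
    rw [map_mul, conj_conj, mul_comm]
  have s1 : ∑ c, ψ (c * σ c) = -q := by
    have e1 := sum_eq_zero (fun x : K => ψ x) (fun x y => hψ x y) (a := ⟨a, ha⟩) ha'
    have e2 := Finset.sum_fiberwise Finset.univ
      (fun c : F => (⟨c * σ c, hK c⟩ : K)) (fun c => ψ (c * σ c))
    have e3 : ∀ μ : K, ∑ c with (⟨c * σ c, hK c⟩ : K) = μ,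
        ψ (c * σ c) = (q + 1) * ψ μ - if μ = 0 then (q : ℤ) else 0 := fun μ => by
      rw [Finset.sum_congr rfl (g := fun _ => ψ μ) fun c hc => by
        rw [← (Finset.mem_filter.1 hc).2], Finset.sum_const, nsmul_eq_mul]
      split_ifs with h
      · subst h
        rw [show (Finset.univ.filter fun c : F =>
          (⟨c * σ c, hK c⟩ : K) = 0) = {0} by
            ext c; simp [Subtype.ext_iff, conj_eq_zero]]
        simp [ψ0]
      · have := card_norm_fiber (F := F) (q := q) (μ := μ) (fun e => h (Subtype.ext e)) μ.2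
        rw [Nat.card_eq_fintype_card, Fintype.card_subtype] at this
        simp only [Subtype.ext_iff, this]
        simp
    rw [← e2, Finset.sum_congr rfl fun μ _ => e3 μ, Finset.sum_sub_distrib, ← Finset.mul_sum, e1]
    simp
  let B : F → F → F := fun c w => c * σ w + w * σ c
  have hB : ∀ c w, ψ ((c + w) * σ (c + w)) = ψ (c * σ c) * ψ (w * σ w) * ψ (B c w) := fun c w => by
    rw [← hψ, ← hψ, map_add]; congr 1; ring
  let P : Finset F := Finset.univ.filter fun c => ∀ w ∈ W, ψ (B c w) = 1
  have s2 : ∀ c, ∑ w : W, ψ (B c w) = if c ∈ P then (Nat.card W : ℤ) else 0 := fun c => by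
    split_ifs with h
    · rw [Finset.sum_congr rfl fun (w : W) _ => (Finset.mem_filter.1 h).2 w w.2]
      simp
    · obtain ⟨w, hw, h2⟩ : ∃ w ∈ W, ψ (B c w) ≠ 1 := by simpa [P] using h
      exact sum_eq_zero (fun w : W => ψ (B c w)) (fun x y => by
        rw [← hψ]; simp only [B, AddSubgroup.coe_add, map_add]; congr 1; ring) (a := ⟨w, hw⟩)
        ((h1 _).resolve_left h2)
  have s3 : ∀ w : W, ∑ c, ψ (B c w) = if w = 0 then (Nat.card F : ℤ) else 0 := fun w => by
    split_ifs with h
    · simp [h, B, ψ0]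
    · obtain ⟨t, ht⟩ := exists_trace_eq ha
      have h2 : (w : F) ≠ 0 := fun e => h (Subtype.ext e)
      have h3 := (conj_ne_zero (q := q)).2 h2
      refine sum_eq_zero (fun c => ψ (B c w)) (fun x y => by
        rw [← hψ]; simp only [B, map_add]; congr 1; ring) (a := t / σ w) ?_
      rw [← ha', ← ht]
      simp only [B, map_div₀, conj_conj]
      congr 1; field_simp
  have s4 : (P.card : ℤ) * Nat.card W = Nat.card F := by
    have := Finset.sum_comm (s := Finset.univ) (t := Finset.univ) (f := fun (c : F) (w : W) => ψ (B c w))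
    simp only [s2, s3] at this
    simpa using this
  have s5 : (∑ c ∈ P, ψ (c * σ c)) * Nat.card W = -q * Nat.card W := by
    have e1 : ∀ w : W, ∑ c, ψ (c * σ c) * ψ (B c w) = -q := fun w => by
      rw [← s1, ← Equiv.sum_comp (Equiv.addRight (w : F)) fun c => ψ (c * σ c)]
      simp only [Equiv.coe_addRight, hB, hW w w.2, mul_one]
    have := Finset.sum_comm (s := Finset.univ) (t := Finset.univ)
      (f := fun (c : F) (w : W) => ψ (c * σ c) * ψ (B c w))
    simp only [e1, ← Finset.mul_sum, s2] at this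
    simpa [Finset.mul_sum, mul_comm] using this
  have h0 : 0 < Nat.card W := Nat.card_pos
  by_contra hc
  have s6 : Finset.univ.filter (· ∈ W) = P := by
    refine Finset.eq_of_subset_of_card_le (fun c hc => ?_) ?_
    · refine Finset.mem_filter.2 ⟨Finset.mem_univ _, fun w hw => ?_⟩
      have h2 := (Finset.mem_filter.1 hc).2
      have := hB c w
      rwa [hW _ (W.add_mem h2 hw), hW c h2, hW w hw, one_mul, one_mul, eq_comm] at this
    · rw [← Fintype.card_subtype (· ∈ W), ← Nat.card_eq_fintype_card]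
      have : P.card * Nat.card W ≤ Nat.card W * Nat.card W := by zify; rw [s4]; omega
      exact Nat.le_of_mul_le_mul_right this h0
  rw [← s6, Finset.sum_congr rfl fun c hc => hW c (Finset.mem_filter.1 hc).2] at s5
  have := two_le_q F q
  simp only [Finset.sum_const, nsmul_eq_mul, mul_one] at s5
  nlinarith [Int.natCast_nonneg (Finset.univ.filter (· ∈ W)).card]

theorem fix (ρ : MulAut (UH F q)) (s : UH F q) (hs : ∀ x, ρ (ρ x) = s * x * s⁻¹) {z : UH F q}
    (hz : z ∈ center (UH F q)) : ρ z = z := by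
  classical
  have := hU.finite
  by_contra hne
  have hc : ∀ x : UH F q, x.c = 0 → (ρ x).c = 0 := fun x hx => by
    rw [← UH.mem_center_iff, Subgroup.mem_center_iff] at hx ⊢
    intro y
    rw [← ρ.apply_symm_apply y, ← map_mul, ← map_mul, hx]
  choose sec hsec using UH.exists_c (F := F) (q := q)
  have hα : ∀ x : UH F q, (ρ x).c = (ρ (sec x.c)).c := fun x => by
    have := hc ((sec x.c)⁻¹ * x) (by simp [hsec])
    rw [map_mul, map_inv, UH.mul_c, UH.inv_c] at this
    linear_combination this
  let γ : F →+ F := AddMonoidHom.mk' (fun c => (ρ (sec c)).c + c) fun c d => by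
    have := hα (sec c * sec d)
    rw [map_mul, UH.mul_c, UH.mul_c, hsec, hsec] at this
    linear_combination -this
  have hγ : ∀ x : UH F q, γ x.c = (ρ x).c + x.c := fun x => by rw [hα x]; rfl
  have h2 : γ.range ≤ γ.ker := by
    rintro _ ⟨c, rfl⟩
    have e1 := hγ (ρ (sec c) * sec c)
    have e2 := hγ (sec c)
    rw [map_mul, hs] at e1
    simp only [UH.mul_c, UH.inv_c, hsec] at e1 e2
    rw [AddMonoidHom.mem_ker, e2, e1]
    linear_combination CharTwo.add_self_eq_zero c + CharTwo.add_self_eq_zero (ρ (sec c)).c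
  have h3 : Nat.card F ≤ Nat.card γ.ker * Nat.card γ.ker := by
    rw [← γ.ker.card_mul_index, AddSubgroup.index_ker]
    exact Nat.mul_le_mul_left _ (AddSubgroup.card_le_of_le h2)
  letI : Algebra (ZMod 2) F := ZMod.algebra F 2
  let C : AddSubgroup F :=
    { carrier := {a | ∃ x : UH F q, x.c = 0 ∧ x.a = a ∧ ρ x = x}
      zero_mem' := ⟨1, rfl, rfl, map_one _⟩
      add_mem' := by
        rintro _ _ ⟨x, x1, rfl, x2⟩ ⟨y, y1, rfl, y2⟩
        exact ⟨x * y, by simp [x1, y1], by simp [y1], by rw [map_mul, x2, y2]⟩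
      neg_mem' := by
        rintro _ ⟨x, x1, rfl, x2⟩
        exact ⟨x, x1, (CharTwo.neg_eq _).symm, x2⟩ }
  have hz0 := UH.mem_center_iff.1 hz
  obtain ⟨l, l1, l2⟩ := (AddSubgroup.toZModSubmodule 2 C).exists_dual_map_eq_bot_of_notMem
    (x := z.a) (by
      rintro ⟨x, x1, x2, x3⟩
      exact hne ((UH.ext (x1.trans hz0.symm) x2 : x = z) ▸ x3)) inferInstance
  have l3 : ∀ a ∈ C, l a = 0 := fun a ha => by
    have : l a ∈ (AddSubgroup.toZModSubmodule 2 C).map l := ⟨a, ha, rfl⟩
    rwa [l2] at this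
  have := minus (q := q) (fun a => if l a = 0 then 1 else -1) (fun a b => by
      rw [map_add]; generalize l a = u; generalize l b = v; revert u v; decide)
    (fun a => by split_ifs <;> simp) (a := z.a) (by
      rw [z.conj_a, hz0, CharTwo.neg_eq]; simp) (if_neg l1) γ.ker fun w hw => if_pos (l3 _ ?_)
  · omega
  · have e := hγ (sec w)
    rw [hsec, show γ w = 0 from hw] at e
    have e1 : (ρ (sec w)).c = w := by linear_combination -e - CharTwo.add_self_eq_zero w
    refine ⟨sec w * sec w, UH.mul_self_c _, by rw [UH.mul_self_a, hsec], ?_⟩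
    rw [map_mul]
    ext
    · rw [UH.mul_self_c, UH.mul_self_c]
    · rw [UH.mul_self_a, UH.mul_self_a, e1, hsec]

end Cfsg.Agent.H41.U3Cent
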