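import Mathlib
import Cfsg.Agent.Fus.Tate
import Cfsg.Agent.Fus.KSys
import Cfsg.Agent.Fus.Factor
import Cfsg.Agent.Grp.PChain
import Cfsg.Agent.Grp.PFrattini

/-! A nilpotency criterion for fusion systems through weakly embedded subgroups. -/

set_option autoImplicit false

namespace Cfsg.Agent.H41.WEmb

open Cfsg FusionSystem Cfsg.Agent.Fus Subgroup

universe u

/-- normal subgroups of `S` -/
def Nm {Ω : Type*} [Group Ω] (S X : Subgroup Ω) : Prop := X ≤ S ∧ ∀ s ∈ S, ∀ x ∈ X, s * x * s⁻¹ ∈ X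

section grp

variable {Ω : Type*} [Group Ω] {S : Subgroup Ω}

theorem Nm.normal {X : Subgroup Ω} (h : Nm S X) : (X.subgroupOf S).Normal :=
  ⟨fun n hn g => h.2 g g.2 n hn⟩

theorem nm_map {C : Subgroup S} (h : C.Normal) : Nm S (C.map S.subtype) := by
  refine ⟨map_subtype_le _, ?_⟩
  rintro s hs _ ⟨x, hx, rfl⟩
  exact ⟨_, h.conj_mem x hx ⟨s, hs⟩, rfl⟩

theorem nm_of_sc {F : FusionSystem S} {T : Subgroup Ω} (h : F.StronglyClosed T) : Nm S T :=
  ⟨h.1, fun _ hs _ hx => conj_mem_of_stronglyClosed h hs hx⟩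

theorem Nm.inf {X Y : Subgroup Ω} (hX : Nm S X) (hY : Nm S Y) : Nm S (X ⊓ Y) :=
  ⟨inf_le_left.trans hX.1, fun s hs x hx => ⟨hX.2 s hs x hx.1, hY.2 s hs x hx.2⟩⟩

theorem card_subgroupOf {X : Subgroup Ω} (h : X ≤ S) : Nat.card (X.subgroupOf S) = Nat.card X :=
  Nat.card_congr (subgroupOfEquivOfLe h).toEquiv

theorem between [Finite S] {p : ℕ} [Fact p.Prime] (hS : IsPGroup p S) {B N : Subgroup Ω}
    (hB : Nm S B) (hN : Nm S N) (hBN : B ≤ N) (k : ℕ) (hk : Nat.card B * p ^ k ≤ Nat.card N) :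
    ∃ C, Nm S C ∧ B ≤ C ∧ C ≤ N ∧ Nat.card C = Nat.card B * p ^ k := by
  haveI := hB.normal
  haveI := hN.normal
  obtain ⟨C, hC, h1, h2, h3⟩ := Grp.PChain.exists_normal_between hS (B.subgroupOf S)
    (N.subgroupOf S) (comap_mono hBN) k (by rwa [card_subgroupOf hB.1, card_subgroupOf hN.1])
  refine ⟨C.map S.subtype, nm_map hC, fun x hx => ⟨⟨x, hB.1 hx⟩, h1 hx, rfl⟩, ?_, ?_⟩
  · rintro _ ⟨x, hx, rfl⟩
    exact h2 hx
  · rw [card_map_of_injective S.subtype_injective, h3, card_subgroupOf hB.1]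

theorem nm_bot : Nm S (⊥ : Subgroup Ω) :=
  ⟨bot_le, fun s _ x hx => by rw [mem_bot.1 hx]; simp⟩

theorem nm_top : Nm S S := ⟨le_rfl, fun _ hs _ hx => mul_mem (mul_mem hs hx) (inv_mem hs)⟩

theorem exists_card_pow [Finite S] {p : ℕ} [Fact p.Prime] (hS : IsPGroup p S) {X : Subgroup Ω}
    (h : X ≤ S) : ∃ j, Nat.card X = p ^ j := by
  haveI := finite_of_le h
  exact IsPGroup.iff_card.1 (hS.to_le h)

theorem card_preimageAlong [Finite S] {Ω' : Type*} [Group Ω'] (θ : S →* Ω')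
    (h : θ.range = ⊤) (Q : Subgroup Ω') :
    Nat.card (preimageAlong θ Q) = Nat.card Q * Nat.card (kerAlong θ) := by
  have hs : Function.Surjective θ := MonoidHom.range_eq_top.1 h
  haveI : Finite Ω' := Finite.of_surjective θ hs
  have key : ∀ R : Subgroup Ω', Nat.card (preimageAlong θ R) * R.index = Nat.card S := by
    intro R
    rw [preimageAlong, card_map_of_injective S.subtype_injective, ← index_comap_of_surjective R hs,
      card_mul_index]
  have h1 := key Q
  have h2 := key ⊥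
  rw [preimageAlong_bot, index_bot, ← Q.card_mul_index, ← h1] at h2
  refine Nat.eq_of_mul_eq_mul_right (Nat.pos_of_ne_zero (index_ne_zero_of_finite (H := Q))) ?_
  rw [← h2]
  ring

theorem exists_min_sc [Finite S] {F : FusionSystem S} {R : Subgroup Ω} (hR : F.StronglyClosed R)
    (h : R ≠ ⊥) : ∃ T, F.StronglyClosed T ∧ T ≠ ⊥ ∧ T ≤ R ∧
      ∀ X, F.StronglyClosed X → X ≤ T → X = ⊥ ∨ X = T := by
  classical
  have hex : ∃ n, ∃ T, F.StronglyClosed T ∧ T ≠ ⊥ ∧ T ≤ R ∧ Nat.card T = n := ⟨_, R, hR, h, le_rfl, rfl⟩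
  obtain ⟨T, h1, h2, h3, h4⟩ := Nat.find_spec hex
  refine ⟨T, h1, h2, h3, fun X hX hXT => ?_⟩
  by_contra h5
  push Not at h5
  have := Nat.find_min' hex ⟨X, hX, h5.1, hXT.trans h3, rfl⟩
  have h6 := card_lt_of_lt_of_le (lt_of_le_of_ne hXT h5.2) h1.1
  omega

end grp

/-- the hypotheses in the form passed to factor systems -/
structure Hyp {Ω : Type*} [Group Ω] {S : Subgroup Ω} (F : FusionSystem S) (p k : ℕ) : Prop where
  pos : 0 < k
  lt : p ^ k < Nat.card S
  W : ∀ Q, Nm S Q → Nat.card Q = p ^ k →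
    ∃ P, F.StronglyClosed P ∧ F.StronglyClosed (Q ⊔ P) ∧ F.StronglyClosed (Q ⊓ P)
  N : ∀ H U, Nm S H → Nat.card H = p ^ k → H ≤ U → U ≤ S → ∀ α ∈ F.autGroup U,
    (orderOf α).Coprime p → (∀ x ∈ H, afn α x ∈ H) → α = 1

theorem Hyp.factor {Ω : Type*} [Group Ω] {S : Subgroup Ω} [Finite S] {p k j : ℕ} [hp : Fact p.Prime]
    {F : FusionSystem S} (h : Hyp F p k) {Ω' : Type*} [Group Ω']
    {E : FusionSystem (⊤ : Subgroup Ω')} {θ : S →* Ω'} (hθ : F.IsSurjectiveMorphism E θ)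
    (hj : Nat.card (kerAlong θ) = p ^ j) (hjk : j < k) : Hyp E p (k - j) := by
  have hr : θ.range = ⊤ := hθ.2.1
  have hpk : p ^ (k - j) * p ^ j = p ^ k := by rw [← pow_add]; congr 1; omega
  have hnm : ∀ Q : Subgroup Ω', Nm ⊤ Q → Nm S (preimageAlong θ Q) := fun Q hQ =>
    ⟨preimageAlong_le _ _, fun s hs x hx => by
      rw [mem_preimageAlong] at hx ⊢
      refine ⟨mul_mem (mul_mem hs hx.1) (inv_mem hs), ?_⟩
      rw [hfn_conj θ hs hx.1]
      exact hQ.2 _ trivial _ hx.2⟩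
  have him : ∀ Q : Subgroup Ω', imageAlong θ (preimageAlong θ Q) = Q := fun Q =>
    imageAlong_preimageAlong θ (by rw [hr]; exact le_top)
  refine ⟨by omega, ?_, fun Q hQ hc => ?_, fun H U hH hc hHU _ β hβ hβc hβH => ?_⟩
  · have h1 := card_preimageAlong θ hr ⊤
    rw [← hr, preimageAlong_range, hr, hj] at h1
    have h2 := h.lt
    rw [h1, ← hpk] at h2
    exact lt_of_mul_lt_mul_right h2 (Nat.zero_le _)
  · obtain ⟨P, h1, h2, h3⟩ := h.W _ (hnm Q hQ) (by rw [card_preimageAlong θ hr, hc, hj, hpk])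
    refine ⟨imageAlong θ P, surj_stronglyClosed_image hθ h1, ?_, ?_⟩
    · have := surj_stronglyClosed_image hθ h2
      rwa [imageAlong_sup θ (preimageAlong_le _ _) h1.1, him] at this
    · have h4 : imageAlong θ (preimageAlong θ Q ⊓ P) = Q ⊓ imageAlong θ P := by
        ext y
        rw [mem_imageAlong_of_le (inf_le_right.trans h1.1), mem_inf, mem_imageAlong_of_le h1.1]
        constructor
        · rintro ⟨x, hx, rfl⟩
          exact ⟨(mem_preimageAlong.1 hx.1).2, x, hx.2, rfl⟩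
        · rintro ⟨hy, x, hx, rfl⟩
          exact ⟨x, ⟨mem_preimageAlong.2 ⟨h1.1 hx, hy⟩, hx⟩, rfl⟩
      exact h4 ▸ surj_stronglyClosed_image hθ h3
  · obtain ⟨V, hV, hKV, hHV, rfl⟩ :
        ∃ V, V ≤ S ∧ kerAlong θ ≤ V ∧ preimageAlong θ H ≤ V ∧ U = imageAlong θ V :=
      ⟨_, preimageAlong_le _ _, kerAlong_le_preimageAlong _ _, preimageAlong_mono θ hHU, (him U).symm⟩
    obtain ⟨α, hα, hαc, e⟩ := surj_lift_coprime hθ hV hKV hβ hβc
    have h1 : α = 1 := h.N _ V (hnm H hH) (by rw [card_preimageAlong θ hr, hc, hj, hpk]) hHV hV α hα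
      hαc fun x hx => mem_preimageAlong.2 ⟨hV (afn_mem α (hHV hx)), by
        rw [← e x (hHV hx)]
        exact hβH _ (mem_preimageAlong.1 hx).2⟩
    refine aut_ext fun y hy => ?_
    obtain ⟨x, hx, rfl⟩ := (mem_imageAlong_of_le hV).1 hy
    rw [e x hx, h1, afn_one, afn_one]

theorem core {Ω : Type*} [Group Ω] {S : Subgroup Ω} [Finite S] {p k : ℕ} [hp : Fact p.Prime]
    {F : FusionSystem S} (hS : IsPGroup p S) (hF : F.IsSaturated p) (h : Hyp F p k)
    (hB : ∀ T, F.StronglyClosed T → T ≠ ⊥ → Nat.card T < p ^ k → F.hyperfocalSubgroup p ≤ T) :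
    F.hyperfocalSubgroup p = ⊥ := by
  by_contra hR
  have hRs := stronglyClosed_hyp hS hF
  have p1 := hp.out.one_lt
  have hpk : 1 < p ^ k := Nat.one_lt_pow h.pos.ne' p1
  -- minimal strongly closed subgroups have order at most `p ^ k`
  have hA : ∀ T, F.StronglyClosed T → (∀ X, F.StronglyClosed X → X ≤ T → X = ⊥ ∨ X = T) →
      Nat.card T ≤ p ^ k := by
    intro T hT hmin
    by_contra hlt
    obtain ⟨Q, hQ, -, hQT, hc⟩ := between hS nm_bot (nm_of_sc hT) bot_le k (by simp; omega)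
    rw [card_bot, one_mul] at hc
    have hQs : ¬ F.StronglyClosed Q := fun hQs => by
      rcases hmin Q hQs hQT with e | e
      · rw [e, card_bot] at hc; omega
      · rw [e] at hc; omega
    obtain ⟨P, h1, h2, h3⟩ := h.W Q hQ hc
    rcases hmin _ (stronglyClosed_inf h1 hT) inf_le_right with e | e
    · refine hQs ?_
      have e2 : (Q ⊔ P) ⊓ T = Q := by
        refine le_antisymm (fun x hx => ?_) (le_inf le_sup_left hQT)
        have hn : Q ≤ normalizer (P : Set Ω) := fun q hq => by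
          haveI := finite_of_le h1.1
          exact mem_normalizer_of_conj_mem fun y hy => (nm_of_sc h1).2 q (hQ.1 hq) y hy
        have hx1 : x ∈ ((Q ⊔ P : Subgroup Ω) : Set Ω) := hx.1
        rw [coe_mul_of_left_le_normalizer_right Q P hn] at hx1
        obtain ⟨q, hq, y, hy, rfl⟩ := hx1
        have : y ∈ P ⊓ T := ⟨hy, by simpa using mul_mem (inv_mem (hQT hq)) hx.2⟩
        rw [e, mem_bot] at this
        simpa [this] using hq
      exact e2 ▸ stronglyClosed_inf h2 hT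
    · exact hQs (inf_eq_left.2 (hQT.trans (inf_eq_right.1 e)) ▸ h3)
  have hB' : ∀ T, F.StronglyClosed T → T ≠ ⊥ → Nat.card T ≤ p ^ k →
      F.hyperfocalSubgroup p ≤ T := by
    intro T hT h1 h2
    rcases h2.lt_or_eq with h2 | h2
    · exact hB T hT h1 h2
    · refine hyp_le_of_stronglyClosed hS hF hT le_rfl fun P hP hTP α hα hc x hx => ?_
      rw [h.N T P (nm_of_sc hT) h2 hTP hP α hα hc fun y hy =>
        (isMap_afn hP hα).mem_of_stronglyClosed hT (hTP hy) hy, afn_one, inv_mul_cancel]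
      exact one_mem _
  have hall : ∀ P, F.StronglyClosed P → P ≠ ⊥ → F.hyperfocalSubgroup p ≤ P := by
    intro P hP h1
    obtain ⟨T, h2, h3, h4, h5⟩ := exists_min_sc hP h1
    exact (hB' T h2 h3 (hA T h2 h5)).trans h4
  set R := F.hyperfocalSubgroup p with hRdef
  have hRn := nm_of_sc hRs
  have hQ : ∀ Q, Nm S Q → Nat.card Q = p ^ k → Q ⊓ R ≠ ⊥ → R ≤ Q := by
    intro Q hQ hc h1
    obtain ⟨P, h2, h3, h4⟩ := h.W Q hQ hc
    by_cases hP : P = ⊥
    · rw [hP, sup_bot_eq] at h3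
      exact hall Q h3 fun e => h1 (by rw [e, bot_inf_eq])
    · refine (hall _ h4 fun e => h1 ?_).trans inf_le_left
      exact eq_bot_iff.2 (e ▸ inf_le_inf_left Q (hall P h2 hP))
  -- Tate
  have hT : ¬ R ≤ (frattini S).map S.subtype := fun h1 => by
    rw [hRdef, eq_inner_of_hyp_le_frattini hS hF h1] at hR
    exact hR (hyp_inner S hS)
  obtain ⟨r, hr, hrF⟩ := SetLike.not_le_iff_exists.1 hT
  have : ∃ M : Subgroup S, IsCoatom M ∧ (⟨r, hRs.1 hr⟩ : S) ∉ M := by
    by_contra h1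
    push Not at h1
    exact hrF ⟨_, Grp.PFrattini.mem_frattini_iff.2 h1, rfl⟩
  obtain ⟨M, hM, hrM⟩ := this
  haveI hMN := Grp.PFrattini.normal_of_isCoatom hS hM
  have hMn := nm_map hMN
  have hMc : Nat.card (M.map S.subtype) * p = Nat.card S := by
    rw [card_map_of_injective S.subtype_injective, ← Grp.PFrattini.index_of_isCoatom hS hM,
      card_mul_index]
  obtain ⟨n, hn⟩ := exists_card_pow hS (le_refl S)
  have hkn : k < n := (Nat.pow_lt_pow_iff_right p1).1 (hn ▸ h.lt)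
  have hpp : p ^ 1 * p ^ (k - 1) = p ^ k := by
    rw [← pow_add]; congr 1; have := h.pos; omega
  have hRM : R ⊓ M.map S.subtype = ⊥ := by
    by_contra h1
    obtain ⟨j, hj⟩ := exists_card_pow hS (hRn.inf hMn).1
    haveI := finite_of_le (hRn.inf hMn).1
    have hj0 : j ≠ 0 := by
      rintro rfl
      exact h1 (card_eq_one.1 (by simpa using hj))
    obtain ⟨A, hA1, -, hA2, hA3⟩ := between hS nm_bot (hRn.inf hMn) bot_le 1
      (by rw [card_bot, one_mul, hj]; exact Nat.pow_le_pow_right hp.out.pos (by omega))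
    rw [card_bot, one_mul] at hA3
    obtain ⟨Q, hQ1, hQ2, hQ3, hQ4⟩ := between hS hA1 hMn (hA2.trans inf_le_right) (k - 1) (by
      rw [hA3, hpp]
      refine Nat.le_of_mul_le_mul_right ?_ hp.out.pos
      rw [hMc, hn, ← pow_succ]
      exact Nat.pow_le_pow_right hp.out.pos hkn)
    rw [hA3, hpp] at hQ4
    have h2 := hQ Q hQ1 hQ4 fun e => by
      have : A = ⊥ := eq_bot_iff.2 (e ▸ le_inf hQ2 (hA2.trans inf_le_left))
      rw [this, card_bot, pow_one] at hA3
      omega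
    obtain ⟨x, hx, e⟩ := hQ3 (h2 hr)
    exact hrM (by rwa [show (⟨r, hRs.1 hr⟩ : S) = x from Subtype.ext e.symm])
  have hRp : Nat.card R = p := by
    have h1 : Nat.card (R.subgroupOf S) ∣ p := by
      rw [← Grp.PFrattini.index_of_isCoatom hS hM, index_eq_card]
      refine card_dvd_of_injective ((QuotientGroup.mk' M).comp (R.subgroupOf S).subtype) ?_
      rw [injective_iff_map_eq_one]
      intro x hx
      have h2 : ((x : S) : Ω) ∈ R ⊓ M.map S.subtype :=
        ⟨x.2, x, (QuotientGroup.eq_one_iff _).1 hx, rfl⟩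
      rw [hRM, mem_bot] at h2
      exact Subtype.ext (Subtype.ext h2)
    rw [card_subgroupOf hRs.1] at h1
    haveI := finite_of_le hRs.1
    exact ((Nat.dvd_prime hp.out).1 h1).resolve_left fun e => hR (card_eq_one.1 e)
  have hRZ : S ≤ centralizerIn S R := by
    haveI := hRn.normal
    have h1 := Grp.PChain.le_center_of_card_eq_prime hS (R.subgroupOf S)
      (by rw [card_subgroupOf hRs.1, hRp])
    intro s hs
    refine ⟨hs, fun x hx => ?_⟩
    exact congrArg Subtype.val (mem_center_iff.1 (h1 (show (⟨x, hRs.1 hx⟩ : S) ∈ _ from hx)) ⟨s, hs⟩).symm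
  obtain ⟨H, hH1, hH2, -, hH4⟩ := between hS hRn nm_top hRs.1 (k - 1)
    (by rw [hRp, ← pow_succ', show k - 1 + 1 = k by have := h.pos; omega]; exact h.lt.le)
  rw [hRp, ← pow_succ', show k - 1 + 1 = k by have := h.pos; omega] at hH4
  -- automorphisms of `R` of order prime to `p` are trivial
  have hRa : ∀ β ∈ F.autGroup R, (orderOf β).Coprime p → β = 1 := by
    intro β hβ hc
    have hfc : F.IsFullyCentralized (img R (afn β)) := by
      rw [img_afn]
      haveI := finite_of_le hRs.1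
      exact sat_fullyCentralized hS hF (fullyNormalized_of_le_normalizer F hRs.1
        fun s hs => mem_normalizer_of_conj_mem fun y hy => hRn.2 s hs y hy)
    obtain ⟨g, hg, e⟩ := sat_extend_centralizer hS hF (isMap_afn hRs.1 hβ) hfc
    have hgS : IsMap F S g := hg.mono (hRZ.trans le_sup_right)
    obtain ⟨γ, hγ, eγ⟩ := hgS.exists_aut' fun x hx => hgS.mem hx
    obtain ⟨i, h1, h2⟩ := exists_pow_ext_coprime hRs.1 (γ := γ) (α := β)
      (fun x hx => by rw [eγ x (hRs.1 hx), e x hx]) hc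
    have h3 := h.N H S hH1 hH4 hH1.1 le_rfl _ (pow_mem hγ i) h2 fun x hx => by
      have := mul_mem hx (hH2 (mem_hyp_of_coprime le_rfl (pow_mem hγ i) h2 (hH1.1 hx)))
      rwa [mul_inv_cancel_left] at this
    refine aut_ext fun x hx => ?_
    rw [← h1 x hx, h3, afn_one, afn_one]
  refine hR (eq_bot_iff.2 (hyp_le_iff.2 fun U hU α hα hc x hx => ?_))
  haveI := finite_of_le hU
  have hfix : ∀ y ∈ U, y ∈ R → afn α y = y := by
    intro y hy hyR
    by_cases hRU : R ≤ U
    · have hm := isMap_afn hU hα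
      obtain ⟨β, hβ, eβ⟩ := (hm.mono hRU).exists_aut' fun z hz =>
        hm.mem_of_stronglyClosed hRs (hRU hz) hz
      rw [← eβ y hyR, hRa β hβ (hc.coprime_dvd_left (orderOf_dvd_of_res hRU eβ)), afn_one]
    · haveI := finite_of_le hRs.1
      have h1 : Nat.card (U ⊓ R : Subgroup Ω) ∣ p := hRp ▸ card_dvd_of_le inf_le_right
      have h2 : U ⊓ R = ⊥ := by
        rcases (Nat.dvd_prime hp.out).1 h1 with e | e
        · exact card_eq_one.1 e
        · exact absurd (inf_eq_right.1 (eq_of_le_of_card_ge inf_le_right (by rw [e, hRp]))) hRU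
      have h3 : y = 1 := mem_bot.1 (h2 ▸ (⟨hy, hyR⟩ : y ∈ U ⊓ R))
      rw [h3, (homOn_afn α).map_one]
  have h4 := fix_of_step (U := R) (hS.to_le hU) hc hfix hx (by
    simpa [mul_assoc] using hRn.2 x (hU hx) _ (mem_hyp_of_coprime hU hα hc hx))
  rw [h4, inv_mul_cancel]
  exact one_mem _

theorem main (p : ℕ) [hp : Fact p.Prime] (n : ℕ) : ∀ (Ω : Type u) [Group Ω] (S : Subgroup Ω)
    [Finite S] (F : FusionSystem S) (k : ℕ), Nat.card S = n → IsPGroup p S → F.IsSaturated p →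
    Hyp F p k → F.hyperfocalSubgroup p = ⊥ := by
  induction n using Nat.strong_induction_on with
  | _ n ih =>
  intro Ω _ S _ F k hn hS hF h
  refine core hS hF h fun T hT h1 h2 => ?_
  haveI := normal_of_stronglyClosed hT
  obtain ⟨E, hE⟩ := exists_isFactorSystem_mk' F hT
  have hθ := IsFactor.isSurjectiveMorphism hS hF hT hE
  obtain ⟨j, hj⟩ := exists_card_pow hS hT.1
  have hker := IsFactor.ker_eq hE
  have hjk : j < k := (Nat.pow_lt_pow_iff_right hp.out.one_lt).1 (hj ▸ h2)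
  have h3 := card_preimageAlong _ hθ.2.1 ⊤
  rw [← hθ.2.1, preimageAlong_range, hθ.2.1, hker] at h3
  haveI := finite_of_le hT.1
  have h4 : 1 < Nat.card T := one_lt_card_iff_ne_bot T |>.2 h1
  have h5 := ih _ (by
      rw [← hn, h3]
      exact lt_mul_of_one_lt_right Nat.card_pos h4) _ ⊤ E (k - j) rfl
    (IsFactor.isPGroup hS hE) (IsFactor.saturated hS hF hT hE)
    (h.factor hθ (by rw [hker, hj]) hjk)
  rw [surj_hyp_eq hθ, ← le_bot_iff, imageAlong_le_iff (hyp_le F p), preimageAlong_bot, hker] at h5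
  exact h5

theorem eq_inner {Ω : Type*} [Group Ω] {S : Subgroup Ω} [Finite S] {p : ℕ} [Fact p.Prime]
    (hS : IsPGroup p S) {F : FusionSystem S} (hF : F.IsSaturated p) {D : Subgroup Ω} (h1 : ⊥ < D)
    (h2 : D < S)
    (hW : ∀ Q : Subgroup Ω, Q ≤ S → Nat.card Q = Nat.card D → ∃ P : Subgroup Ω,
      F.StronglyClosed P ∧ F.StronglyClosed (Q ⊔ P) ∧ F.StronglyClosed (Q ⊓ P))
    (hN : ∀ H : Subgroup Ω, F.IsFullyNormalized H → Nat.card H = Nat.card D →
      ∀ N : FusionSystem (normalizerIn S H), F.IsNormalizerSystem H N →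
        ∀ P : Subgroup Ω, N.Hom P = (innerFusionSystem (normalizerIn S H)).Hom P) :
    F = innerFusionSystem S := by
  obtain ⟨k, hk⟩ := exists_card_pow hS h2.le
  haveI := finite_of_le h2.le
  refine eq_inner_of_hyp_eq_bot hS hF (main p _ Ω S F k rfl hS hF ⟨?_, ?_, ?_, ?_⟩)
  · rcases k with _ | k
    · exact absurd (card_eq_one.1 (by simpa using hk)) h1.ne'
    · omega
  · exact hk ▸ card_lt_of_lt_of_le h2 le_rfl
  · exact fun Q hQ hc => hW Q hQ.1 (hc.trans hk.symm)
  · intro H U hH hc hHU hU α hα hαc hαH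
    haveI := finite_of_le hH.1
    haveI := finite_of_le hU
    have hn : S ≤ normalizer (H : Set Ω) :=
      fun s hs => mem_normalizer_of_conj_mem fun y hy => hH.2 s hs y hy
    have hm := isMap_afn hU hα
    have h3 : IsMap (normSys F H hH.1) U (afn α) := isMap_normSys.2 ⟨le_inf hU (hU.trans hn), afn α,
      by rwa [sup_eq_left.2 hHU], fun _ _ => rfl, (hm.mono hHU).img_eq_self hαH⟩
    obtain ⟨-, g, hg, e⟩ := isMap_inner_iff.1 ((hom_eq_iff_isMap.1
      (hN H (fullyNormalized_of_le_normalizer F hH.1 hn) (hc.trans hk.symm) _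
        (isNormalizerSystem_normSys F hH.1) U) _).1 h3)
    obtain ⟨i, hi⟩ := hS ⟨g, hg.1⟩
    have hi' : g ^ p ^ i = 1 := congrArg Subtype.val hi
    have h4 : ∀ m : ℕ, ∀ x ∈ U, afn (α ^ m) x = g ^ m * x * (g ^ m)⁻¹ := by
      intro m
      induction m with
      | zero => intro x _; simp [afn_one]
      | succ m ih =>
        intro x hx
        rw [afn_pow α m hx, e _ (afn_mem _ hx), ih x hx]
        group
    have h5 : α ^ p ^ i = 1 := aut_ext fun x hx => by rw [h4 _ x hx, hi', afn_one]; group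
    exact orderOf_eq_one_iff.1 (Nat.Coprime.eq_one_of_dvd (hαc.pow_right i)
      (orderOf_dvd_of_pow_eq_one h5))

theorem of_inner {Ω : Type*} [Group Ω] {S : Subgroup Ω} [Finite S] {p : ℕ} [hp : Fact p.Prime]
    (hS : IsPGroup p S) (hc : p ^ 2 ≤ Nat.card S) : ∃ D : Subgroup Ω, ⊥ < D ∧ D < S ∧
      ∀ Q : Subgroup Ω, Q ≤ S → Nat.card Q = Nat.card D →
        (innerFusionSystem S).StronglyClosed Q := by
  obtain ⟨n, hn⟩ := exists_card_pow hS (le_refl S)
  have p1 := hp.out.one_lt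
  have h2 : 2 ≤ n := (Nat.pow_le_pow_iff_right p1).1 (hn ▸ hc)
  obtain ⟨m, rfl⟩ : ∃ m, n = m + 1 := ⟨n - 1, by omega⟩
  obtain ⟨D, hD, -, -, h3⟩ := between hS nm_bot nm_top bot_le m
    (by rw [card_bot, one_mul, hn]; exact Nat.pow_le_pow_right hp.out.pos (by omega))
  rw [card_bot, one_mul] at h3
  refine ⟨D, bot_lt_iff_ne_bot.2 fun e => ?_, lt_of_le_of_ne hD.1 fun e => ?_, fun Q hQ h4 => ?_⟩
  · rw [e, card_bot] at h3
    have := Nat.one_lt_pow (show m ≠ 0 by omega) p1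
    omega
  · rw [e, hn] at h3
    have := Nat.pow_right_injective p1 h3
    omega
  · refine stronglyClosed_iff.2 ⟨hQ, fun P f hf x hx hxQ => ?_⟩
    obtain ⟨-, g, hg, e⟩ := isMap_inner_iff.1 hf
    rw [e x hx]
    have h5 : Q < S := lt_of_le_of_ne hQ fun e => by
      rw [e, hn, h3] at h4
      have := Nat.pow_right_injective p1 h4
      omega
    have h6 := lt_normalizerIn hS h5
    obtain ⟨j, hj⟩ := exists_card_pow hS (normalizerIn_le S Q)
    have h7 := card_lt_of_lt_of_le h6 (normalizerIn_le S Q)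
    rw [h4, h3, hj, Nat.pow_lt_pow_iff_right p1] at h7
    have h8 : normalizerIn S Q = S := eq_of_le_of_card_ge (normalizerIn_le S Q)
      (by rw [hn, hj]; exact Nat.pow_le_pow_right hp.out.pos h7)
    have h9 : g ∈ normalizerIn S Q := h8.symm ▸ hg
    exact (mem_normalizer_iff.1 h9.2 x).1 hxQ

theorem norm_inner {Ω : Type*} [Group Ω] {S H : Subgroup Ω} (hH : H ≤ S)
    (N : FusionSystem (normalizerIn S H)) (hN : (innerFusionSystem S).IsNormalizerSystem H N)
    (P : Subgroup Ω) : N.Hom P = (innerFusionSystem (normalizerIn S H)).Hom P := by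
  refine hom_eq_iff_isMap.2 fun f => ?_
  rw [isNormalizerSystem_iff.1 hN, isMap_inner_iff]
  constructor
  · rintro ⟨h1, g, hg, e, h2⟩
    obtain ⟨-, s, hs, e2⟩ := isMap_inner_iff.1 hg
    refine ⟨h1, s, mem_normalizerIn_of_img hs ?_, fun x hx => ?_⟩
    · exact (img_congr fun x hx => e2 x (le_sup_right (a := P) hx)).symm.trans h2
    · rw [← e x hx, e2 x (le_sup_left (b := H) hx)]
  · rintro ⟨h1, s, hs, e⟩
    exact ⟨h1, fun x => s * x * s⁻¹, isMap_conj _ (sup_le (h1.trans inf_le_left) hH) hs.1,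
      fun x hx => (e x hx).symm, img_conj_eq_self hs⟩

end Cfsg.Agent.H41.WEmb
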