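import Mathlib
import Cfsg.Agent.S0205
import Cfsg.Agent.Inv.SylowTwo

/-!
Z-groups: a self-centralizing normal cyclic subgroup, the bound on core-free subgroups, and small tools.
-/

set_option autoImplicit false

namespace Cfsg.Agent.ZProd

open Subgroup MulAction
open scoped commutatorElement

variable {G : Type*} [Group G]

theorem solvable_of_odd_index [Finite G] (B : Subgroup G) [IsZGroup B] (h : Odd B.index) :
    Group.IsSolvable G := by
  obtain ⟨P⟩ : Nonempty (Sylow 2 B) := inferInstance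
  have hP : IsPGroup 2 ((P : Subgroup B).map B.subtype) := P.isPGroup'.map _
  have hi : ¬ 2 ∣ ((P : Subgroup B).map B.subtype).index := by
    rw [index_map_subtype]
    intro hd
    rcases (Nat.prime_two.dvd_mul).1 hd with h1 | h1
    · exact P.not_dvd_index h1
    · exact (Nat.not_even_iff_odd.2 h) (even_iff_two_dvd.2 h1)
  have hc : IsCyclic ((hP.toSylow hi : Sylow 2 G) : Subgroup G) :=
    isCyclic_of_surjective (B.subtype.subgroupMap P) (B.subtype.subgroupMap_surjective P)
  obtain ⟨N, hN, hcomp⟩ := Inv.exists_normal_complement_of_cyclic_sylow_two _ hc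
  have h1 : Group.IsSolvable N := S0205.result (by
    rw [← hcomp.index_eq_card, ← Nat.not_even_iff_odd, even_iff_two_dvd]
    exact hi)
  have h2 : IsPGroup 2 (G ⧸ N) := by
    obtain ⟨k, hk⟩ := IsPGroup.iff_card.1 (hP.toSylow hi).isPGroup'
    exact IsPGroup.of_card (n := k) (by rw [← hk, ← hcomp.symm.index_eq_card]; rfl)
  have := h2.isNilpotent
  exact Group.isSolvable_of_ker_le_range N.subtype (QuotientGroup.mk' N) (by simp)

theorem cyc_mem [Finite G] {C X : Subgroup G} [hC : IsCyclic C] (hX : X ≤ C) {x : G} (hx : x ∈ C)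
    (h : x ^ Nat.card X = 1) : x ∈ X := by
  letI := hC.commGroup
  have h1 := IsCyclic.card_powMonoidHom_ker C (Nat.card X)
  rw [Nat.gcd_eq_right (card_dvd_of_le hX)] at h1
  have h2 : X.subgroupOf C = (powMonoidHom (Nat.card X) : C →* C).ker := by
    refine eq_of_le_of_card_ge (fun y hy => ?_) ?_
    · rw [MonoidHom.mem_ker, powMonoidHom_apply]
      exact Subtype.ext (orderOf_dvd_iff_pow_eq_one.1 (X.orderOf_dvd_natCard hy))
    · rw [h1, Nat.card_congr (subgroupOfEquivOfLe hX).toEquiv]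
  have : (⟨x, hx⟩ : C) ∈ X.subgroupOf C := by
    rw [h2, MonoidHom.mem_ker, powMonoidHom_apply]
    exact Subtype.ext h
  exact this

theorem sq_of_inv {u : G} (hu : orderOf u = 2) : u * u = 1 := by
  rw [← pow_two, ← hu, pow_orderOf_eq_one]

theorem ne_one_of_inv {u : G} (hu : orderOf u = 2) : u ≠ 1 := by
  rintro rfl
  simp at hu

theorem inv_of {u : G} (h1 : u * u = 1) (h2 : u ≠ 1) : orderOf u = 2 :=
  orderOf_eq_prime (by rw [pow_two, h1]) h2

theorem eq_of_mem_zpowers {u v : G} (hu : orderOf u = 2) (hv : v ∈ zpowers u) (h1 : v ≠ 1) :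
    v = u := by
  obtain ⟨k, rfl⟩ := hv
  have h2 : u ^ (2 : ℤ) = 1 := by rw [zpow_two, sq_of_inv hu]
  obtain ⟨j, rfl | rfl⟩ := Int.even_or_odd' k
  · exact absurd (by simp only [zpow_mul, h2, one_zpow]) h1
  · simp only [zpow_add, zpow_mul, h2, one_zpow, one_mul, zpow_one]

theorem cyc_inv [Finite G] {C : Subgroup G} [IsCyclic C] {u v : G} (hu : orderOf u = 2)
    (hv : orderOf v = 2) (huC : u ∈ C) (hvC : v ∈ C) : v = u :=
  eq_of_mem_zpowers hu (cyc_mem (zpowers_le.2 huC) hvC (by
    rw [Nat.card_zpowers, hu, ← hv, pow_orderOf_eq_one])) (ne_one_of_inv hv)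

theorem isCyclic_of_comm [Finite G] {B X : Subgroup G} [IsZGroup B] (hX : X ≤ B)
    (hc : ∀ x ∈ X, ∀ y ∈ X, x * y = y * x) : IsCyclic X := by
  haveI : IsZGroup X := IsZGroup.of_injective (inclusion_injective hX)
  letI : CommGroup X := { (inferInstance : Group X) with
    mul_comm := fun a b => Subtype.ext (hc a a.2 b b.2) }
  haveI : Group.IsNilpotent X := CommGroup.isNilpotent
  infer_instance

theorem z_inv [Finite G] {B : Subgroup G} [IsZGroup B] {u v : G} (hu : orderOf u = 2)
    (hv : orderOf v = 2) (huB : u ∈ B) (hvB : v ∈ B) (h : u * v = v * u) : v = u := by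
  have hc : ∀ x ∈ closure ({u, v} : Set G), ∀ y ∈ closure ({u, v} : Set G), x * y = y * x := by
    intro x hx y hy
    have := closure_le_centralizer_centralizer ({u, v} : Set G)
    refine (this hx y ?_).symm
    have h2 : closure ({u, v} : Set G) ≤ centralizer ({u, v} : Set G) := by
      rw [closure_le]
      rintro a (rfl | rfl) b (rfl | rfl)
      · rfl
      · exact h.symm
      · exact h
      · rfl
    exact h2 hy
  haveI := isCyclic_of_comm (B := B) (X := closure ({u, v} : Set G))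
    ((closure_le _).2 (by rintro a (rfl | rfl); exacts [huB, hvB])) hc
  exact cyc_inv (C := closure ({u, v} : Set G)) hu hv (subset_closure (by simp))
    (subset_closure (by simp))

/-- A Z-group has a normal, self-centralizing cyclic subgroup containing the commutator subgroup. -/
theorem exists_gen (B : Type*) [Group B] [Finite B] [IsZGroup B] :
    ∃ g : B, (∀ x y : B, ⁅x, y⁆ ∈ zpowers g) ∧ ∀ x : B, x * g = g * x → x ∈ zpowers g := by
  have hc0 : ∀ x ∈ commutator B, ∀ y ∈ commutator B, x * y = y * x := by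
    intro x hx y hy
    letI := (IsZGroup.isCyclic_commutator (G := B)).commGroup
    exact congrArg Subtype.val (mul_comm (⟨x, hx⟩ : commutator B) ⟨y, hy⟩)
  obtain ⟨F, ⟨hF1, hF2⟩, hmax⟩ := (wellFounded_gt (α := Subgroup B)).has_min
    {F | commutator B ≤ F ∧ ∀ x ∈ F, ∀ y ∈ F, x * y = y * x} ⟨commutator B, le_rfl, hc0⟩
  haveI : IsZGroup (⊤ : Subgroup B) := inferInstance
  obtain ⟨⟨g, hg⟩, hgen⟩ := (isCyclic_of_comm (B := ⊤) le_top hF2).exists_generator
  have hFg : ∀ x ∈ F, x ∈ zpowers g := fun x hx => by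
    obtain ⟨k, hk⟩ := hgen ⟨x, hx⟩
    exact ⟨k, congrArg Subtype.val hk⟩
  refine ⟨g, fun x y => hFg _ (hF1 (commutator_mem_commutator (mem_top x) (mem_top y))),
    fun x hx => hFg x ?_⟩
  have h2 : closure ({x, g} : Set B) ≤ centralizer ({x, g} : Set B) := by
    rw [closure_le]
    rintro a (rfl | rfl) b (rfl | rfl)
    · rfl
    · exact hx.symm
    · exact hx
    · rfl
  have hle : F ≤ closure ({x, g} : Set B) := fun y hy =>
    (zpowers_le.2 (subset_closure (by simp))) (hFg y hy)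
  by_contra hxF
  refine hmax (closure ({x, g} : Set B)) ⟨hF1.trans hle, fun a ha b hb => ?_⟩
    (lt_of_le_of_ne hle fun h => hxF (h ▸ subset_closure (by simp)))
  exact (closure_le_centralizer_centralizer _ ha b (h2 hb)).symm

theorem conj_mem_of_gen {B : Type*} [Group B] {g : B} (h : ∀ x y : B, ⁅x, y⁆ ∈ zpowers g)
    {x : B} (hx : x ∈ zpowers g) (b : B) : b * x * b⁻¹ ∈ zpowers x := by
  obtain ⟨k, rfl⟩ := hx
  have h1 : b * g * b⁻¹ ∈ zpowers g := by
    have := mul_mem (h b g) (mem_zpowers g)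
    simpa [commutatorElement_def] using this
  obtain ⟨j, hj⟩ := h1
  refine ⟨j, ?_⟩
  simp only at hj ⊢
  rw [← conj_zpow, ← hj, ← zpow_mul, ← zpow_mul, mul_comm]

theorem card_lt_index {B : Type*} [Group B] [Finite B] [IsZGroup B] [Nontrivial B] (H : Subgroup B)
    (hH : H.normalCore = ⊥) : Nat.card H < H.index := by
  obtain ⟨g, h1, h2⟩ := exists_gen B
  have hFH : ∀ x ∈ zpowers g, x ∈ H → x = 1 := by
    intro x hx hxH
    have : x ∈ H.normalCore := fun b => (zpowers_le.2 hxH) (conj_mem_of_gen h1 hx b)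
    rwa [hH, mem_bot] at this
  have hg1 : g ≠ 1 := by
    rintro rfl
    obtain ⟨x, hx⟩ := exists_ne (1 : B)
    exact hx (by simpa using h2 x (by simp))
  have h3 : Nat.card (zpowers g) ≤ H.index := by
    refine Nat.card_le_card_of_injective (fun x : zpowers g => ((x : B) : B ⧸ H)) fun x y h => ?_
    have := hFH _ (mul_mem (inv_mem x.2) y.2) (QuotientGroup.eq.1 h)
    exact Subtype.ext (inv_mul_eq_one.1 this)
  refine lt_of_lt_of_le ?_ h3
  let φ : H → zpowers g := fun h => ⟨h * g * (h : B)⁻¹, conj_mem_of_gen h1 (mem_zpowers g) h⟩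
  haveI := Fintype.ofFinite H
  haveI := Fintype.ofFinite (zpowers g)
  rw [Nat.card_eq_fintype_card, Nat.card_eq_fintype_card]
  refine Fintype.card_lt_of_injective_not_surjective φ (fun x y h => ?_) fun hs => ?_
  · have h4 : (x : B) * g * (x : B)⁻¹ = y * g * (y : B)⁻¹ := congrArg Subtype.val h
    have h5 : ((y : B)⁻¹ * x) * g = g * ((y : B)⁻¹ * x) := by
      calc ((y : B)⁻¹ * x) * g = (y : B)⁻¹ * (x * g * (x : B)⁻¹) * x := by group
        _ = g * ((y : B)⁻¹ * x) := by rw [h4]; group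
    have := hFH _ (h2 _ h5) (mul_mem (inv_mem y.2) x.2)
    exact Subtype.ext (inv_mul_eq_one.1 this).symm
  · obtain ⟨x, hx⟩ := hs 1
    have h4 : (x : B) * g * (x : B)⁻¹ = 1 := congrArg Subtype.val hx
    exact hg1 (by simpa using h4)

theorem relIndex_core_lt {B : Type*} [Group B] [Finite B] [IsZGroup B] (H : Subgroup B)
    (hH : H ≠ ⊤) : H.normalCore.relIndex H < H.index := by
  set K := H.normalCore
  have hKH : K ≤ H := H.normalCore_le
  haveI : Nontrivial (B ⧸ K) := QuotientGroup.nontrivial_iff.2 fun h => hH (top_le_iff.1 (h ▸ hKH))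
  have h1 := card_lt_index (H.map (QuotientGroup.mk' K)) (by
    rw [eq_bot_iff]
    intro x hx
    obtain ⟨x, rfl⟩ := QuotientGroup.mk'_surjective K x
    refine (QuotientGroup.eq_one_iff x).2 fun b => ?_
    have := hx (QuotientGroup.mk' K b)
    rw [← map_inv, ← map_mul, ← map_mul, ← mem_comap, comap_map_eq, QuotientGroup.ker_mk',
      sup_eq_left.2 hKH] at this
    exact this)
  rw [index_map_eq _ (QuotientGroup.mk'_surjective K) (by rwa [QuotientGroup.ker_mk']),
    ← relIndex_ker, QuotientGroup.ker_mk'] at h1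
  exact h1

theorem zact [Finite G] {Ω : Type*} [MulAction G Ω] (B : Subgroup G) [IsZGroup B] (Y : Set Ω)
    (β : Ω) (hY : ∀ y, y ∈ Y ↔ ∃ b ∈ B, b • β = y) (K : Subgroup G)
    (hK : ∀ k ∈ B, k ∈ K ↔ ∀ y ∈ Y, k • y = y) (hne : ∃ y ∈ Y, y ≠ β) :
    K.relIndex (B ⊓ stabilizer G β) < Y.ncard := by
  have h1 := relIndex_core_lt (stabilizer B β) (by
    obtain ⟨y, hy, hyβ⟩ := hne
    obtain ⟨b, hb, rfl⟩ := (hY y).1 hy
    intro h
    have : (⟨b, hb⟩ : B) ∈ stabilizer B β := h ▸ mem_top _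
    exact hyβ this)
  have h2 : orbit B β = Y := by
    ext y
    rw [hY]
    exact ⟨fun ⟨b, hb⟩ => ⟨b, b.2, hb⟩, fun ⟨b, hb, h⟩ => ⟨⟨b, hb⟩, h⟩⟩
  have h3 : (stabilizer B β).normalCore = K.subgroupOf B := by
    ext k
    rw [mem_subgroupOf, hK k k.2]
    constructor
    · intro h y hy
      obtain ⟨b, hb, rfl⟩ := (hY y).1 hy
      have := h (⟨b, hb⟩ : B)⁻¹
      rw [mem_stabilizer_iff, inv_inv, mul_smul, mul_smul, inv_smul_eq_iff] at this
      exact this
    · intro h b
      rw [mem_stabilizer_iff, mul_smul, mul_smul, smul_eq_iff_eq_inv_smul]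
      exact h _ ((hY _).2 ⟨((b⁻¹ : B) : G), (b⁻¹).2, rfl⟩)
  have h4 : stabilizer B β = (B ⊓ stabilizer G β).subgroupOf B := by
    ext k
    simp [mem_subgroupOf, Subgroup.smul_def]
  rw [index_stabilizer, h2, h3, h4, relIndex_subgroupOf inf_le_left] at h1
  exact h1

theorem dvd_card_of_free [Finite G] (U : Subgroup G) (S : Finset G)
    (hS : ∀ c ∈ U, ∀ u ∈ S, c * u * c⁻¹ ∈ S) (hfree : ∀ c ∈ U, ∀ u ∈ S, c * u * c⁻¹ = u → c = 1) :
    Nat.card U ∣ S.card := by
  letI : MulAction U S :=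
    { smul := fun c u => ⟨c * u * (c : G)⁻¹, hS c c.2 u u.2⟩
      one_smul := fun u => Subtype.ext (by
        change ((1 : U) : G) * u * ((1 : U) : G)⁻¹ = u
        simp)
      mul_smul := fun c d u => Subtype.ext (by
        change ((c * d : U) : G) * u * ((c * d : U) : G)⁻¹ = c * (d * u * (d : G)⁻¹) * (c : G)⁻¹
        simp [mul_assoc]) }
  have h := Nat.card_congr (selfEquivOrbitsQuotientProd (G := U) (X := S) fun u => by
    rw [eq_bot_iff]
    intro c hc
    exact Subtype.ext (hfree c c.2 u u.2 (congrArg Subtype.val hc)))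
  rw [Nat.card_prod, Nat.card_eq_fintype_card, Fintype.card_coe] at h
  exact Dvd.intro_left _ h.symm

theorem exists_fix_of_odd {Ω : Type*} [MulAction G Ω] {g : G} {k : ℕ} (hg : g ^ 2 ^ k = 1)
    (S : Finset Ω) (hS : ∀ x, g • x ∈ S ↔ x ∈ S) (hodd : Odd S.card) : ∃ x ∈ S, g • x = x := by
  classical
  obtain ⟨a, ha⟩ := Equiv.Perm.exists_fixed_point_of_prime (p := 2) (n := k) (α := S)
    (σ := (MulAction.toPerm g : Equiv.Perm Ω).subtypePerm hS)
    (by rw [Fintype.card_coe, ← even_iff_two_dvd, Nat.not_even_iff_odd]; exact hodd) (by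
      have key : ∀ (n : ℕ) (x : S), ((((MulAction.toPerm g : Equiv.Perm Ω).subtypePerm hS ^ n :
          Equiv.Perm S) x : S) : Ω) = g ^ n • (x : Ω) := by
        intro n
        induction n with
        | zero => intro x; simp
        | succ n ih => intro x; rw [pow_succ, Equiv.Perm.mul_apply, ih, pow_succ, mul_smul]; rfl
      ext x
      rw [key, hg, one_smul]
      rfl)
  exact ⟨a, a.2, congrArg Subtype.val ha⟩

end Cfsg.Agent.ZProd
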