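import Mathlib
import Cfsg.Agent.H41.ZProdA
import Cfsg.Agent.Char.Burnside
import Cfsg.Agent.Perm.ZassSharp3

/-!
A non-solvable doubly transitive group with a regular cyclic subgroup whose point stabilizers are
Z-groups is `PGL₂(p)` on `p + 1` points.
-/

set_option autoImplicit false
set_option linter.unusedSectionVars false

namespace Cfsg.Agent.ZProd

open Subgroup MulAction
open scoped commutatorElement Pointwise MatrixGroups

/-- The doubly transitive configuration. -/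
structure Ctx (G Ω : Type*) [Group G] [MulAction G Ω] (A : Subgroup G) : Prop where
  faith : ∀ g : G, (∀ a : Ω, g • a = a) → g = 1
  two : ∀ {a b c d : Ω}, a ≠ b → c ≠ d → ∃ g : G, g • a = c ∧ g • b = d
  zg : ∀ a : Ω, IsZGroup (stabilizer G a)
  cyc : IsCyclic A
  tr : ∀ a b : Ω, ∃ g ∈ A, g • a = b
  reg : ∀ g ∈ A, ∀ a : Ω, g • a = a → g = 1
  ns : ¬ Group.IsSolvable G

/-- Involutions with a fixed point. -/
def FI (Ω : Type*) {G : Type*} [Group G] [MulAction G Ω] (u : G) : Prop :=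
  orderOf u = 2 ∧ ∃ a : Ω, u • a = a

variable {G Ω : Type*} [Group G] [MulAction G Ω] [Fintype G] [Fintype Ω] [DecidableEq G]
  [DecidableEq Ω] {A : Subgroup G}

theorem FI.conj {u : G} (hu : FI Ω u) (g : G) : FI Ω (g * u * g⁻¹) := by
  obtain ⟨h1, a, ha⟩ := hu
  exact ⟨by rw [← h1]; exact (MulAut.conj g).orderOf_eq u, g • a, by simp [mul_smul, ha]⟩

/-- The fixed points. -/
def Fx (Ω : Type*) [MulAction G Ω] [Fintype Ω] [DecidableEq Ω] (u : G) : Finset Ω :=
  Finset.univ.filter fun a => u • a = a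

@[simp] theorem mem_Fx {u : G} {a : Ω} : a ∈ Fx Ω u ↔ u • a = a := by simp [Fx]

theorem card_Fx_conj (u g : G) : (Fx Ω (g * u * g⁻¹)).card = (Fx Ω u).card := by
  symm
  refine Finset.card_bij (fun a _ => g • a) (fun a ha => by simp [mul_smul, mem_Fx.1 ha])
    (fun a _ b _ h => MulAction.injective g h) fun b hb => ⟨g⁻¹ • b, ?_, by simp⟩
  rw [mem_Fx, mul_smul, mul_smul, smul_eq_iff_eq_inv_smul] at hb
  exact mem_Fx.2 hb

namespace Ctx

variable (c : Ctx G Ω A)
include c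

theorem commA {x y : G} (hx : x ∈ A) (hy : y ∈ A) : x * y = y * x := by
  letI := c.cyc.commGroup
  exact congrArg Subtype.val (mul_comm (⟨x, hx⟩ : A) ⟨y, hy⟩)

theorem index_stab (a : Ω) : (stabilizer G a).index = Fintype.card Ω := by
  haveI : IsPretransitive G Ω := ⟨fun x y => by obtain ⟨g, -, h⟩ := c.tr x y; exact ⟨g, h⟩⟩
  rw [index_stabilizer_of_transitive, Nat.card_eq_fintype_card]

theorem card_A (a : Ω) : Nat.card A = Fintype.card Ω := by
  rw [← Nat.card_eq_fintype_card]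
  refine Nat.card_eq_of_bijective (fun g : A => (g : G) • a) ⟨fun x y h => ?_, fun b => ?_⟩
  · have := c.reg _ (mul_mem (inv_mem y.2) x.2) a (by
      rw [mul_smul, inv_smul_eq_iff]; exact h)
    exact Subtype.ext (inv_mul_eq_one.1 this).symm
  · obtain ⟨g, hg, h⟩ := c.tr a b
    exact ⟨⟨g, hg⟩, h⟩

theorem even_card (a : Ω) : Even (Fintype.card Ω) := by
  by_contra h
  haveI := c.zg a
  exact c.ns (solvable_of_odd_index (stabilizer G a) (by
    rw [c.index_stab]; exact Nat.not_even_iff_odd.1 h))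

theorem exists_s (a : Ω) : ∃ s ∈ A, orderOf s = 2 := by
  obtain ⟨s, hs⟩ := exists_prime_orderOf_dvd_card' (G := A) 2
    (by rw [c.card_A a]; exact (c.even_card a).two_dvd)
  exact ⟨s, s.2, by rw [orderOf_coe, hs]⟩

theorem fix2 {u : G} (hu : orderOf u = 2) {a : Ω} (ha : u • a = a) : ∃ b, b ≠ a ∧ u • b = b := by
  obtain ⟨b, hb, h⟩ := exists_fix_of_odd (g := u) (k := 1) (by rw [pow_one, pow_two, sq_of_inv hu])
    (Finset.univ.erase a) (fun x => by
      simp only [Finset.mem_erase, Finset.mem_univ, and_true]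
      rw [not_iff_not]
      exact ⟨fun h => MulAction.injective u (h.trans ha.symm), fun h => h ▸ ha⟩) (by
      rw [Finset.card_erase_of_mem (Finset.mem_univ a), Finset.card_univ]
      exact Nat.Even.sub_odd (Fintype.card_pos_iff.2 ⟨a⟩) (c.even_card a) odd_one)
  exact ⟨b, (Finset.mem_erase.1 hb).1, h⟩

theorem exists_t {a b : Ω} (hab : a ≠ b) : ∃ t : G, orderOf t = 2 ∧ t • a = a ∧ t • b = b := by
  have h1 : 2 ∣ Nat.card (stabilizer G a) := by
    by_contra h
    haveI := c.cyc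
    refine c.ns (solvable_of_odd_index A ?_)
    have h2 := A.card_mul_index
    rw [← (stabilizer G a).card_mul_index, c.index_stab, c.card_A a, mul_comm] at h2
    rw [Nat.eq_of_mul_eq_mul_right (Fintype.card_pos_iff.2 ⟨a⟩) h2, ← Nat.not_even_iff_odd,
      even_iff_two_dvd]
    exact h
  obtain ⟨u, hu', hua⟩ : ∃ u : G, orderOf u = 2 ∧ u • a = a := by
    obtain ⟨u, hu⟩ := exists_prime_orderOf_dvd_card' 2 h1
    exact ⟨u, by rw [orderOf_coe, hu], u.2⟩
  obtain ⟨d, hd, hud⟩ := c.fix2 hu' hua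
  obtain ⟨g, h2, h3⟩ := c.two hd.symm hab
  refine ⟨g * u * g⁻¹, by rw [← hu']; exact (MulAut.conj g).orderOf_eq _, ?_, ?_⟩
  · rw [← h2, mul_smul, mul_smul, inv_smul_smul, hua]
  · rw [← h3, mul_smul, mul_smul, inv_smul_smul, hud]

theorem gen (a : Ω) : ∃ g : G, g • a = a ∧
    (∀ x y : G, x • a = a → y • a = a → ⁅x, y⁆ ∈ zpowers g) ∧
    (∀ x : G, x • a = a → x * g = g * x → x ∈ zpowers g) ∧
    (∀ x ∈ zpowers g, ∀ y : G, y • a = a → y * x * y⁻¹ ∈ zpowers x) ∧
    ∀ x ∈ zpowers g, ∀ b, b ≠ a → x • b = b → x = 1 := by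
  haveI := c.zg a
  obtain ⟨g, h1, h2⟩ := exists_gen (stabilizer G a)
  have hm : ∀ x y : stabilizer G a, x ∈ zpowers y → (x : G) ∈ zpowers (y : G) :=
    fun x y ⟨k, hk⟩ => ⟨k, congrArg Subtype.val hk⟩
  have h3 : ∀ x ∈ zpowers (g : G), ∀ y : G, y • a = a → y * x * y⁻¹ ∈ zpowers x := by
    rintro _ ⟨k, rfl⟩ y hy
    exact hm _ (g ^ k) (conj_mem_of_gen h1 (zpow_mem_zpowers g k) ⟨y, hy⟩)
  refine ⟨g, g.2, fun x y hx hy => hm _ _ (h1 ⟨x, hx⟩ ⟨y, hy⟩),
    fun x hx h => hm ⟨x, hx⟩ _ (h2 ⟨x, hx⟩ (Subtype.ext h)), h3, fun x hx b hb hxb => ?_⟩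
  refine c.faith x fun d => ?_
  by_cases hd : d = a
  · rw [hd]
    exact (zpowers_le.2 g.2 : zpowers (g : G) ≤ stabilizer G a) hx
  · obtain ⟨y, hy1, hy2⟩ := c.two (Ne.symm hd) hb.symm
    have : y * x * y⁻¹ ∈ stabilizer G b := (zpowers_le.2 hxb) (h3 x hx y hy1)
    rw [mem_stabilizer_iff, ← hy2, mul_smul, mul_smul, inv_smul_smul] at this
    exact MulAction.injective y this

theorem comm {a b : Ω} (hab : a ≠ b) {x y : G} (hxa : x • a = a) (hxb : x • b = b)
    (hya : y • a = a) (hyb : y • b = b) : x * y = y * x := by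
  obtain ⟨g, -, h1, -, -, h2⟩ := c.gen a
  refine commutatorElement_eq_one_iff_mul_comm.1 (h2 _ (h1 x y hxa hya) b hab.symm ?_)
  have hx : x ∈ stabilizer G b := hxb
  have hy : y ∈ stabilizer G b := hyb
  exact mul_mem (mul_mem (mul_mem hx hy) (inv_mem hx)) (inv_mem hy)

theorem inv_eq {a : Ω} {u v : G} (hu : orderOf u = 2) (hv : orderOf v = 2) (hua : u • a = a)
    (hva : v • a = a) (h : u * v = v * u) : v = u :=
  haveI := c.zg a
  z_inv (B := stabilizer G a) hu hv hua hva h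

theorem t_eq {a b : Ω} (hab : a ≠ b) {u v : G} (hu : orderOf u = 2) (hv : orderOf v = 2)
    (hua : u • a = a) (hub : u • b = b) (hva : v • a = a) (hvb : v • b = b) : v = u :=
  c.inv_eq hu hv hua hva (c.comm hab hua hub hva hvb)

theorem norm {a b : Ω} (hab : a ≠ b) {t g : G} (ht : orderOf t = 2) (ha : t • a = a)
    (hb : t • b = b) (ha' : t • g • a = g • a) (hb' : t • g • b = g • b) : g * t = t * g := by
  have := c.t_eq (a := g • a) (b := g • b) (fun h => hab (MulAction.injective g h)) ht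
    (v := g * t * g⁻¹) (by rw [← ht]; exact (MulAut.conj g).orderOf_eq _) ha' hb'
    (by rw [mul_smul, mul_smul, inv_smul_smul, ha]) (by rw [mul_smul, mul_smul, inv_smul_smul, hb])
  rw [← mul_inv_eq_iff_eq_mul]
  exact this

theorem FI_conj {u v : G} (hu : FI Ω u) (hv : FI Ω v) : ∃ g : G, v = g * u * g⁻¹ := by
  obtain ⟨hu, a, ha⟩ := hu
  obtain ⟨hv, a', ha'⟩ := hv
  obtain ⟨b, hb, hub⟩ := c.fix2 hu ha
  obtain ⟨b', hb', hvb⟩ := c.fix2 hv ha'
  obtain ⟨g, h1, h2⟩ := c.two hb.symm hb'.symm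
  refine ⟨g, c.t_eq hb'.symm (by rw [← hu]; exact (MulAut.conj g).orderOf_eq _) hv ?_ ?_ ha' hvb⟩
  · rw [← h1, mul_smul, mul_smul, inv_smul_smul, ha]
  · rw [← h2, mul_smul, mul_smul, inv_smul_smul, hub]

theorem card_Fx_eq {u v : G} (hu : FI Ω u) (hv : FI Ω v) : (Fx Ω v).card = (Fx Ω u).card := by
  obtain ⟨g, rfl⟩ := c.FI_conj hu hv
  exact card_Fx_conj u g

theorem U_tr {u g : G} (hu : orderOf u = 2) (hg : g ∈ A) (hg1 : g ≠ 1) (h : g * u = u * g) {a b : Ω}
    (ha : u • a = a) (hb : u • b = b) : ∃ x ∈ A, x * u = u * x ∧ x • a = b := by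
  obtain ⟨x, hx, rfl⟩ := c.tr a b
  refine ⟨x, hx, c.norm (a := a) (b := g • a) (fun e => hg1 (c.reg g hg a e.symm)) hu ha
    (by rw [← mul_smul, ← h, mul_smul, ha]) hb ?_, rfl⟩
  rw [← mul_smul x, c.commA hx hg, mul_smul, ← mul_smul u, ← h, mul_smul, hb]

theorem card_U {u g : G} (hu : FI Ω u) (hg : g ∈ A) (hg1 : g ≠ 1) (h : g * u = u * g) :
    Nat.card ↥(A ⊓ centralizer {u}) = (Fx Ω u).card := by
  obtain ⟨hu, a, ha⟩ := hu
  rw [← Fintype.card_coe, ← Nat.card_eq_fintype_card]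
  refine Nat.card_eq_of_bijective (fun x : ↥(A ⊓ centralizer {u}) => (⟨(x : G) • a, by
    rw [mem_Fx, ← mul_smul, ← mem_centralizer_singleton_iff.1 x.2.2, mul_smul, ha]⟩ : Fx Ω u))
    ⟨fun x y h => ?_, fun b => ?_⟩
  · have := c.reg _ (mul_mem (inv_mem y.2.1) x.2.1) a (by
      rw [mul_smul, inv_smul_eq_iff]; exact congrArg Subtype.val h)
    exact Subtype.ext (inv_mul_eq_one.1 this).symm
  · obtain ⟨x, hx, h1, h2⟩ := c.U_tr hu hg hg1 h ha (mem_Fx.1 b.2)
    exact ⟨⟨x, hx, mem_centralizer_singleton_iff.2 h1⟩, Subtype.ext h2⟩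

end Ctx

open Classical in
/-- Involutions with fixed points moving `a` to `b`. -/
noncomputable def X (a b : Ω) : Finset G := Finset.univ.filter fun u => FI Ω u ∧ u • a = b

theorem mem_X {a b : Ω} {u : G} : u ∈ X a b ↔ FI Ω u ∧ u • a = b := by simp [X]

theorem smul_smul_inv {u : G} (hu : orderOf u = 2) (a : Ω) : u • u • a = a := by
  rw [← mul_smul, sq_of_inv hu, one_smul]

namespace Ctx

variable (c : Ctx G Ω A)
include c

theorem card_X {a b d : Ω} (hb : b ≠ a) (hd : d ≠ a) :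
    (X (G := G) a d).card = (X (G := G) a b).card := by
  obtain ⟨g, h1, h2⟩ := c.two hb.symm hd.symm
  symm
  refine Finset.card_bij (fun u _ => g * u * g⁻¹) (fun u hu => ?_)
    (fun u _ v _ h => by simpa using h) fun v hv => ⟨g⁻¹ * v * g⁻¹⁻¹, ?_, by group⟩
  · rw [mem_X] at hu ⊢
    refine ⟨hu.1.conj g, ?_⟩
    rw [← h2, ← hu.2, mul_smul, mul_smul, inv_smul_eq_iff.2 h1.symm]
  · rw [mem_X] at hv ⊢
    refine ⟨hv.1.conj g⁻¹, ?_⟩
    rw [inv_inv, mul_smul, mul_smul, h1, hv.2, ← h2, inv_smul_smul]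

theorem X_pos {a b : Ω} (hb : b ≠ a) : 0 < (X (G := G) a b).card := by
  obtain ⟨t, ht, ha, -⟩ := c.exists_t hb.symm
  obtain ⟨x, hx⟩ : ∃ x : Ω, t • x ≠ x := by
    by_contra h
    push Not at h
    exact ne_one_of_inv ht (c.faith t h)
  obtain ⟨g, h1, h2⟩ := c.two hx.symm hb.symm
  refine Finset.card_pos.2 ⟨g * t * g⁻¹, mem_X.2 ⟨FI.conj ⟨ht, a, ha⟩ g, ?_⟩⟩
  rw [← h1, mul_smul, mul_smul, inv_smul_smul, h2]

section main

variable {α : Ω} {s t : G} (hsA : s ∈ A) (hs : orderOf s = 2) (ht : orderOf t = 2)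
  (htα : t • α = α) (htβ : t • s • α = s • α)
include hsA hs

theorem β_ne : s • α ≠ α := fun h => ne_one_of_inv hs (c.reg s hsA α h)

include ht htα htβ

theorem st : s * t = t * s :=
  c.norm (c.β_ne hsA hs).symm ht htα htβ htβ (by rw [smul_smul_inv hs, htα])

theorem dvd_d : ∃ ε ≤ 1, (Fx Ω t).card ∣ (X (G := G) α (s • α)).card + ε := by
  classical
  have hst := c.st hsA hs ht htα htβ
  have hβ := c.β_ne (α := α) hsA hs
  have hFt : FI Ω t := ⟨ht, α, htα⟩
  set Y : Finset G := Finset.univ.filter fun u => FI Ω u ∧ u * t = t * u ∧ u ≠ t with hY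
  have hYm : ∀ u, u ∈ Y ↔ FI Ω u ∧ u * t = t * u ∧ u ≠ t := fun u => by simp [hY]
  have hmv : ∀ u ∈ Y, u • α ∈ (Fx Ω t).erase α := by
    intro u hu
    obtain ⟨h1, h2, h3⟩ := (hYm u).1 hu
    refine Finset.mem_erase.2 ⟨fun h => h3 (c.inv_eq ht h1.1 htα h h2.symm), ?_⟩
    rw [mem_Fx, ← mul_smul, ← h2, mul_smul, htα]
  have h1 : Y.card = ((Fx Ω t).card - 1) * (X (G := G) α (s • α)).card := by
    rw [Finset.card_eq_sum_card_fiberwise (f := fun u => u • α) (t := (Fx Ω t).erase α) hmv,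
      ← Finset.card_erase_of_mem (mem_Fx.2 htα), ← smul_eq_mul, ← Finset.sum_const]
    refine Finset.sum_congr rfl fun γ hγ => ?_
    obtain ⟨h2, h3⟩ := Finset.mem_erase.1 hγ
    rw [← c.card_X hβ h2]
    congr 1
    ext u
    rw [Finset.mem_filter, hYm, mem_X]
    refine ⟨fun h => ⟨h.1.1, h.2⟩, fun h => ⟨⟨h.1, ?_, ?_⟩, h.2⟩⟩
    · refine c.norm h2.symm ht htα (mem_Fx.1 h3) (by rw [h.2]; exact mem_Fx.1 h3) ?_
      rw [← h.2, smul_smul_inv h.1.1, htα]
    · rintro rfl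
      exact h2 (h.2.symm.trans htα)
  set U := A ⊓ centralizer {t} with hU
  have hUc : Nat.card U = (Fx Ω t).card := c.card_U hFt hsA (ne_one_of_inv hs) hst
  have h2 : Nat.card U ∣ (Y.filter fun u => ¬ ∀ x ∈ U, x * u = u * x).card := by
    refine dvd_card_of_free U _ (fun x hx u hu => ?_) fun x hx u hu h => ?_
    · obtain ⟨h3, h4⟩ := Finset.mem_filter.1 hu
      obtain ⟨h5, h6, h7⟩ := (hYm u).1 h3
      have hxt : x * t = t * x := mem_centralizer_singleton_iff.1 hx.2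
      have hxt' : x * t * x⁻¹ = t := by rw [hxt]; group
      refine Finset.mem_filter.2 ⟨(hYm _).2 ⟨h5.conj x, ?_, fun h => h7 ?_⟩, fun h => h4 ?_⟩
      · calc x * u * x⁻¹ * t = x * u * x⁻¹ * (x * t * x⁻¹) := by rw [hxt']
          _ = x * (u * t) * x⁻¹ := by group
          _ = (x * t * x⁻¹) * (x * u * x⁻¹) := by rw [h6]; group
          _ = _ := by rw [hxt']
      · rw [← hxt'] at h
        simpa using h
      · intro y hy
        have h8 := h y hy
        have h9 : y * x = x * y := c.commA hy.1 hx.1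
        calc y * u = x⁻¹ * (x * y) * u := by group
          _ = x⁻¹ * (y * (x * u * x⁻¹)) * x := by rw [← h9]; group
          _ = u * (x⁻¹ * (y * x)) := by rw [h8]; group
          _ = u * y := by rw [h9]; group
    · obtain ⟨h3, h4⟩ := Finset.mem_filter.1 hu
      obtain ⟨h5, -, -⟩ := (hYm u).1 h3
      by_contra hx1
      refine h4 fun y hy => ?_
      have h6 := c.card_U h5 hx.1 hx1 (mul_inv_eq_iff_eq_mul.1 h)
      haveI := c.cyc
      have h7 : y ∈ A ⊓ centralizer {u} := cyc_mem (C := A) inf_le_left hy.1 (by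
        rw [h6, c.card_Fx_eq hFt h5, ← hUc]
        exact orderOf_dvd_iff_pow_eq_one.1 (U.orderOf_dvd_natCard hy))
      exact mem_centralizer_singleton_iff.1 h7.2
  have h3 : (Y.filter fun u => ∀ x ∈ U, x * u = u * x).card ≤ 1 := by
    refine (Finset.card_le_card (t := {s * t}) fun u hu => ?_).trans (by simp)
    obtain ⟨h3, h4⟩ := Finset.mem_filter.1 hu
    obtain ⟨h5, h6, h7⟩ := (hYm u).1 h3
    obtain ⟨h8, h9⟩ := Finset.mem_erase.1 (hmv u h3)
    obtain ⟨g, hg, hgt, hga⟩ := c.U_tr ht hsA (ne_one_of_inv hs) hst htα (mem_Fx.1 h9)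
    have hgu := h4 g ⟨hg, mem_centralizer_singleton_iff.2 hgt⟩
    have hg2 : g * g = 1 := c.reg _ (mul_mem hg hg) α (by
      rw [mul_smul, hga, ← mul_smul, hgu, mul_smul, hga, smul_smul_inv h5.1])
    haveI := c.cyc
    have hgs : g = s := cyc_inv (C := A) hs (inv_of hg2 fun h => h8 (by
      rw [← hga, h, one_smul])) hsA hg
    subst hgs
    have hk : orderOf (g * u) = 2 := by
      refine inv_of ?_ fun h => ?_
      · calc g * u * (g * u) = g * (u * g) * u := by group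
          _ = (g * g) * (u * u) := by rw [← hgu]; group
          _ = 1 := by rw [hg2, sq_of_inv h5.1, mul_one]
      · obtain ⟨a, ha⟩ := h5.2
        refine ne_one_of_inv hs (c.reg g hsA a ?_)
        rw [← ha, ← mul_smul, h, one_smul, ha]
    have h10 := c.inv_eq ht hk htα (by rw [mul_smul, ← hga, smul_smul_inv hs]) (by
      rw [← mul_assoc, ← hst, mul_assoc, ← h6, mul_assoc])
    rw [Finset.mem_singleton, ← h10, ← mul_assoc, hg2, one_mul]
  refine ⟨_, h3, ?_⟩
  have h4 := Finset.card_filter_add_card_filter_not (s := Y) fun u => ∀ x ∈ U, x * u = u * x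
  rw [hUc] at h2
  have h5 : 0 < (Fx Ω t).card := Finset.card_pos.2 ⟨α, mem_Fx.2 htα⟩
  obtain ⟨f, hf⟩ : ∃ f, (Fx Ω t).card = f + 1 := ⟨_, (Nat.succ_pred_eq_of_pos h5).symm⟩
  rw [hf] at h1 h2 ⊢
  rw [Nat.add_sub_cancel] at h1
  rw [← Nat.dvd_add_right h2]
  exact ⟨(X (G := G) α (s • α)).card, by rw [add_mul, one_mul, ← h1]; omega⟩

omit ht htα htβ in
/-- The elements of the two-point stabilizer inverted by `s`. -/
def Hm (α : Ω) (hsA : s ∈ A) (hs : orderOf s = 2) : Subgroup G where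
  carrier := {h | h • α = α ∧ h • s • α = s • α ∧ s * h = h⁻¹ * s}
  one_mem' := by simp
  mul_mem' := by
    rintro x y ⟨h1, h2, h3⟩ ⟨h4, h5, h6⟩
    refine ⟨by rw [mul_smul, h4, h1], by rw [mul_smul, h5, h2], ?_⟩
    rw [← mul_assoc, h3, mul_assoc, h6, c.comm (c.β_ne hsA hs).symm h1 h2 h4 h5, mul_inv_rev,
      mul_assoc]
  inv_mem' := by
    rintro x ⟨h1, h2, h3⟩
    refine ⟨inv_smul_eq_iff.2 h1.symm, inv_smul_eq_iff.2 h2.symm, ?_⟩
    rw [inv_inv, mul_inv_eq_iff_eq_mul, mul_assoc, h3, mul_inv_cancel_left]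

omit ht htα htβ in
theorem two_d_le : 2 * (X (G := G) α (s • α)).card ≤ Nat.card (c.Hm α hsA hs) := by
  classical
  haveI := c.zg α
  have hc : IsCyclic (c.Hm α hsA hs) := isCyclic_of_comm (B := stabilizer G α) (fun x hx => hx.1)
    fun x hx y hy => c.comm (c.β_ne hsA hs).symm hx.1 hx.2.1 hy.1 hy.2.1
  obtain ⟨⟨w, hw⟩, hgen⟩ := hc.exists_generator
  have hss := sq_of_inv hs
  have hs' : s⁻¹ = s := inv_eq_of_mul_eq_one_right hss
  have h1 : ∀ u ∈ X (G := G) α (s • α), u * s ∈ c.Hm α hsA hs := by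
    intro u hu
    obtain ⟨h2, h3⟩ := mem_X.1 hu
    refine ⟨by rw [mul_smul, ← h3, smul_smul_inv h2.1], by rw [mul_smul, smul_smul_inv hs, h3], ?_⟩
    rw [mul_inv_rev, hs', inv_eq_of_mul_eq_one_right (sq_of_inv h2.1), mul_assoc]
  have h2 : ∀ u ∈ X (G := G) α (s • α), ∀ j : ℤ, u * s ≠ w ^ (2 * j) := by
    intro u hu j h
    obtain ⟨⟨-, a, ha⟩, -⟩ := mem_X.1 hu
    have h3 : s * w ^ j = (w ^ j)⁻¹ * s := (zpow_mem hw j).2.2
    have h4 : s = (w ^ j)⁻¹ * u * w ^ j := by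
      calc s = (w ^ j)⁻¹ * (w ^ (2 * j) * ((w ^ j)⁻¹ * s)) := by group
        _ = _ := by rw [← h3, ← h]; simp only [mul_assoc]; rw [← mul_assoc s, hss, one_mul]
    refine ne_one_of_inv hs (c.reg s hsA ((w ^ j)⁻¹ • a) ?_)
    rw [h4, mul_smul, mul_smul, smul_inv_smul, ha]
  have h3 : Disjoint ((X (G := G) α (s • α)).image (· * s))
      ((X (G := G) α (s • α)).image (· * s * w)) := by
    rw [Finset.disjoint_left]
    intro x hx hx'
    obtain ⟨u, hu, rfl⟩ := Finset.mem_image.1 hx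
    obtain ⟨v, hv, h⟩ := Finset.mem_image.1 hx'
    obtain ⟨k, hk⟩ := hgen ⟨_, h1 v hv⟩
    have hk' : w ^ k = v * s := congrArg Subtype.val hk
    obtain ⟨j, rfl | rfl⟩ := Int.even_or_odd' k
    · exact h2 v hv j hk'.symm
    · refine h2 u hu (j + 1) ?_
      rw [← h, ← hk']
      group
  have h4 := Finset.card_union_of_disjoint h3
  rw [Finset.card_image_of_injective _ (mul_left_injective s),
    Finset.card_image_of_injective _ (fun a b h => by simpa using h)] at h4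
  rw [two_mul, ← h4, Nat.card_eq_fintype_card, Fintype.card_subtype]
  refine Finset.card_le_card fun x hx => Finset.mem_filter.2 ⟨Finset.mem_univ _, ?_⟩
  rcases Finset.mem_union.1 hx with h | h
  · obtain ⟨u, hu, rfl⟩ := Finset.mem_image.1 h
    exact h1 u hu
  · obtain ⟨u, hu, rfl⟩ := Finset.mem_image.1 h
    exact mul_mem (h1 u hu) hw

theorem s_cent {γ : Ω} (hγ : t • γ = γ) (hγα : γ ≠ α) (hγβ : γ ≠ s • α) {k : G}
    (hk : ∀ a : Ω, t • a = a → k • a = a) : s * k = k * s := by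
  have hst := c.st hsA hs ht htα htβ
  have hβ := c.β_ne (α := α) hsA hs
  have hss := sq_of_inv hs
  let K : Subgroup G :=
    { carrier := {k | ∀ a : Ω, t • a = a → k • a = a}
      one_mem' := fun a _ => one_smul _ a
      mul_mem' := fun {x y} hx hy a ha => by rw [mul_smul, hy a ha, hx a ha]
      inv_mem' := fun {x} hx a ha => inv_smul_eq_iff.2 (hx a ha).symm }
  have hKn : ∀ x, x * t = t * x → ∀ y ∈ K, x * y * x⁻¹ ∈ K := by
    intro x hx y hy a ha
    have : t • x⁻¹ • a = x⁻¹ • a := by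
      rw [← mul_smul, ← (Commute.inv_left hx).eq, mul_smul, ha]
    rw [mul_smul, mul_smul, hy _ this, smul_inv_smul]
  have hfix : ∀ x : G, ∀ a b : Ω, a ≠ b → t • a = a → t • b = b → x • a = a → x • b = b →
      x ∈ centralizer (K : Set G) := fun x a b hab ha hb hxa hxb y hy =>
    c.comm hab (hy a ha) (hy b hb) hxa hxb
  haveI := c.zg α
  have hc : IsCyclic K := isCyclic_of_comm (B := stabilizer G α) (fun x hx => hx α htα)
    fun x hx y hy => c.comm hβ.symm (hx α htα) (hx _ htβ) (hy α htα) (hy _ htβ)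
  obtain ⟨⟨w, hw⟩, hgen⟩ := hc.exists_generator
  have hgen' : ∀ y ∈ K, ∃ j : ℤ, w ^ j = y := fun y hy => by
    obtain ⟨j, hj⟩ := hgen ⟨y, hy⟩
    exact ⟨j, congrArg Subtype.val hj⟩
  have hcomm : ∀ x y, x * t = t * x → y * t = t * y → x * y * x⁻¹ * y⁻¹ ∈ centralizer (K : Set G) := by
    intro x y hx hy
    have key : y * x * w * (y * x)⁻¹ = x * y * w * (x * y)⁻¹ := by
      obtain ⟨i, hi⟩ := hgen' _ (hKn x hx w hw)
      obtain ⟨j, hj⟩ := hgen' _ (hKn y hy w hw)
      calc y * x * w * (y * x)⁻¹ = y * (x * w * x⁻¹) * y⁻¹ := by group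
        _ = w ^ (j * i) := by rw [← hi, ← conj_zpow, ← hj, zpow_mul]
        _ = x * (y * w * y⁻¹) * x⁻¹ := by rw [← hj, ← conj_zpow, ← hi, mul_comm j i, zpow_mul]
        _ = _ := by group
    intro z hz
    have hyx : (y * x) * t = t * (y * x) := by rw [mul_assoc, hx, ← mul_assoc, hy, mul_assoc]
    obtain ⟨j, hj⟩ := hgen' _ (hKn (y * x)⁻¹ (Commute.inv_left hyx).eq z hz)
    have h1 : z = y * x * w ^ j * (y * x)⁻¹ := by rw [hj]; group
    have h2 : z = x * y * w ^ j * (x * y)⁻¹ := by rw [h1, ← conj_zpow, key, conj_zpow]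
    calc z * (x * y * x⁻¹ * y⁻¹) = (x * y * w ^ j * (x * y)⁻¹) * (x * y * x⁻¹ * y⁻¹) := by rw [← h2]
      _ = (x * y * x⁻¹ * y⁻¹) * (y * x * w ^ j * (y * x)⁻¹) := by group
      _ = _ := by rw [← h1]
  have hCn : ∀ x, x * t = t * x → ∀ l ∈ centralizer (K : Set G),
      x * l * x⁻¹ ∈ centralizer (K : Set G) := by
    intro x hx l hl z hz
    have h1 := hl _ (hKn x⁻¹ (Commute.inv_left hx).eq z hz)
    calc z * (x * l * x⁻¹) = x * (x⁻¹ * z * x⁻¹⁻¹ * l) * x⁻¹ := by group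
      _ = _ := by rw [h1]; group
  obtain ⟨y, hy1, hy2⟩ := c.two hβ.symm hγα.symm
  have hyt : y * t = t * y := c.norm hβ.symm ht htα htβ (by rw [hy1, htα]) (by rw [hy2, hγ])
  have hs' : s⁻¹ = s := inv_eq_of_mul_eq_one_right hss
  have hl0 := hcomm s y hst hyt
  have hl0α : (s * y * s⁻¹ * y⁻¹) • α = s • γ := by
    rw [mul_smul, mul_smul, mul_smul, inv_smul_eq_iff.2 hy1.symm, hs', hy2]
  have hδ : t • s • γ = s • γ := by rw [← mul_smul, ← hst, mul_smul, hγ]
  have hδα : s • γ ≠ α := fun h => hγβ (by rw [← h, smul_smul_inv hs])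
  obtain ⟨z, hz1, hz2⟩ := c.two hδα.symm hβ.symm
  have hzt : z * t = t * z := c.norm hδα.symm ht htα hδ (by rw [hz1, htα]) (by rw [hz2, htβ])
  obtain ⟨l, hl, hlt, hlα⟩ : ∃ l ∈ centralizer (K : Set G), l * t = t * l ∧ l • α = s • α := by
    refine ⟨_, hCn z hzt _ hl0, ?_, ?_⟩
    · have h1 : Commute s t := hst
      have h2 : Commute y t := hyt
      have h3 : Commute z t := hzt
      exact ((h3.mul_left (((h1.mul_left h2).mul_left h1.inv_left).mul_left h2.inv_left)).mul_left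
        h3.inv_left).eq
    · rw [mul_smul, mul_smul, inv_smul_eq_iff.2 hz1.symm, hl0α, hz2]
  have hbα : (s * l) • α = α := by rw [mul_smul, hlα, smul_smul_inv hs]
  have hbt : Commute (s * l) t := Commute.mul_left hst hlt
  have hb2 : (s * l) ^ 2 ∈ centralizer (K : Set G) := by
    have : (s * l) ^ 2 = (s * l * s⁻¹) * l := by rw [hs', pow_two]; group
    rw [this]
    exact mul_mem (hCn s hst l hl) hl
  obtain ⟨j, m, hm, e⟩ := Nat.exists_eq_two_pow_mul_odd (orderOf_pos (s * l)).ne'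
  have hbm : ((s * l) ^ m) • α = α := (pow_mem (show s * l ∈ stabilizer G α from hbα) m :)
  obtain ⟨δ, hδ1, hδ2⟩ := exists_fix_of_odd (g := (s * l) ^ m) (k := j)
    (by rw [← pow_mul, mul_comm, ← e, pow_orderOf_eq_one]) ((Fx Ω t).erase α) (fun x => by
      simp only [Finset.mem_erase, mem_Fx]
      refine and_congr (not_iff_not.2 ⟨fun h => MulAction.injective _ (h.trans hbm.symm),
        fun h => h ▸ hbm⟩) ?_
      rw [← mul_smul, ← (hbt.pow_left m).eq, mul_smul]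
      exact ⟨fun h => MulAction.injective _ h, fun h => by rw [h]⟩) (by
      rw [Finset.card_erase_of_mem (mem_Fx.2 htα),
        ← c.card_U ⟨ht, α, htα⟩ hsA (ne_one_of_inv hs) hst]
      refine Nat.Even.sub_odd Nat.card_pos (even_iff_two_dvd.2 ?_) odd_one
      rw [← hs]
      exact Subgroup.orderOf_dvd_natCard _ ⟨hsA, mem_centralizer_singleton_iff.2 hst⟩)
  obtain ⟨hδ3, hδ4⟩ := Finset.mem_erase.1 hδ1
  have hbmC := hfix _ α δ hδ3.symm htα (mem_Fx.1 hδ4) hbm hδ2
  obtain ⟨i, rfl⟩ := hm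
  have hb : s * l ∈ centralizer (K : Set G) := by
    rw [pow_succ, pow_mul] at hbmC
    exact (mul_mem_cancel_left (pow_mem hb2 i)).1 hbmC
  exact ((mul_mem_cancel_right hl).1 hb k hk).symm

theorem card_Fx : (Fx Ω t).card = 2 := by
  have hst := c.st hsA hs ht htα htβ
  have hβ := c.β_ne (α := α) hsA hs
  have h2 : 2 ≤ (Fx Ω t).card :=
    Finset.one_lt_card.2 ⟨α, mem_Fx.2 htα, s • α, mem_Fx.2 htβ, hβ.symm⟩
  by_contra hne
  obtain ⟨γ, hγ, hγα, hγβ⟩ : ∃ γ, t • γ = γ ∧ γ ≠ α ∧ γ ≠ s • α := by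
    by_contra h
    push Not at h
    have : (Fx Ω t).card ≤ ({α, s • α} : Finset Ω).card := Finset.card_le_card fun x hx => by
      by_cases hx' : x = α
      · simp [hx']
      · simp [h x (mem_Fx.1 hx) hx']
    have := this.trans Finset.card_le_two
    omega
  let K : Subgroup G :=
    { carrier := {k | ∀ a : Ω, t • a = a → k • a = a}
      one_mem' := fun a _ => one_smul _ a
      mul_mem' := fun {x y} hx hy a ha => by rw [mul_smul, hy a ha, hx a ha]
      inv_mem' := fun {x} hx a ha => inv_smul_eq_iff.2 (hx a ha).symm }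
  haveI := c.zg α
  haveI : IsZGroup ↥(stabilizer G α ⊓ centralizer {t}) :=
    IsZGroup.of_injective (inclusion_injective (inf_le_left (a := stabilizer G α)))
  have h3 := zact (stabilizer G α ⊓ centralizer {t}) ((Fx Ω t).erase α : Finset Ω) (s • α)
    (fun y => by
      rw [Finset.mem_coe, Finset.mem_erase, mem_Fx]
      constructor
      · rintro ⟨h1, h2⟩
        obtain ⟨b, hb1, hb2⟩ := c.two hβ.symm h1.symm
        exact ⟨b, ⟨hb1, mem_centralizer_singleton_iff.2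
          (c.norm hβ.symm ht htα htβ (by rw [hb1, htα]) (by rw [hb2, h2]))⟩, hb2⟩
      · rintro ⟨b, ⟨hb1, hb2⟩, rfl⟩
        refine ⟨fun h => hβ (MulAction.injective b (h.trans (mem_stabilizer_iff.1 hb1).symm)), ?_⟩
        rw [← mul_smul, ← mem_centralizer_singleton_iff.1 hb2, mul_smul, htβ]) K
    (fun k hk => by
      refine ⟨fun h y hy => h y (mem_Fx.1 (Finset.mem_erase.1 hy).2), fun h a ha => ?_⟩
      by_cases haα : a = α
      · rw [haα]; exact hk.1
      · exact h a (Finset.mem_erase.2 ⟨haα, mem_Fx.2 ha⟩))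
    ⟨γ, Finset.mem_erase.2 ⟨hγα, mem_Fx.2 hγ⟩, hγβ⟩
  rw [Set.ncard_coe_finset, Finset.card_erase_of_mem (mem_Fx.2 htα)] at h3
  have h4 : K.relIndex (c.Hm α hsA hs) ≤
      K.relIndex ((stabilizer G α ⊓ centralizer {t}) ⊓ stabilizer G (s • α)) :=
    relIndex_le_of_le_right (fun x hx => ⟨⟨hx.1, mem_centralizer_singleton_iff.2
      (c.comm hβ.symm hx.1 hx.2.1 htα htβ)⟩, hx.2.1⟩) index_ne_zero_of_finite
  have h5 : Nat.card (K.subgroupOf (c.Hm α hsA hs)) ≤ 2 := by
    rw [← ht, ← Nat.card_zpowers]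
    refine Nat.card_le_card_of_injective (fun k => (⟨((k : c.Hm α hsA hs) : G), ?_⟩ : zpowers t))
      fun x y h => Subtype.ext (Subtype.ext (congrArg (fun z : zpowers t => (z : G)) h))
    obtain ⟨⟨k, hk1, hk2, hk3⟩, hk⟩ := k
    have h6 := c.s_cent hsA hs ht htα htβ hγ hγα hγβ (k := k) hk
    by_cases hk0 : k = 1
    · subst hk0; exact one_mem _
    · have h7 : k * k = 1 := by
        rw [h6] at hk3
        exact mul_eq_one_iff_eq_inv.2 (mul_right_cancel hk3)
      have := c.t_eq hβ.symm ht (inv_of h7 hk0) htα htβ hk1 hk2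
      subst this
      exact mem_zpowers _
  have h6 := (K.subgroupOf (c.Hm α hsA hs)).card_mul_index
  have h7 := c.two_d_le (α := α) hsA hs
  have h8 := c.X_pos hβ
  obtain ⟨ε, hε, h9⟩ := c.dvd_d hsA hs ht htα htβ
  have h10 := Nat.le_of_dvd (by omega) h9
  have h11 : Nat.card (c.Hm α hsA hs) ≤ 2 * K.relIndex (c.Hm α hsA hs) := by
    rw [← h6]
    exact Nat.mul_le_mul_right _ h5
  omega

theorem card_H_ge : Fintype.card Ω - 2 ≤ Nat.card ↥(stabilizer G α ⊓ stabilizer G (s • α)) := by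
  classical
  have hβ := c.β_ne (α := α) hsA hs
  have hf := c.card_Fx hsA hs ht htα htβ
  set Z : Finset G := Finset.univ.filter fun u => FI Ω u ∧ u • α ≠ α with hZ
  have hZm : ∀ u, u ∈ Z ↔ FI Ω u ∧ u • α ≠ α := fun u => by simp [hZ]
  have h1 : Z.card = (Fintype.card Ω - 1) * (X (G := G) α (s • α)).card := by
    rw [Finset.card_eq_sum_card_fiberwise (f := fun u => u • α) (t := Finset.univ.erase α)
      (fun u hu => Finset.mem_erase.2 ⟨((hZm u).1 hu).2, Finset.mem_univ _⟩),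
      ← Finset.card_univ, ← Finset.card_erase_of_mem (Finset.mem_univ α), ← smul_eq_mul,
      ← Finset.sum_const]
    refine Finset.sum_congr rfl fun γ hγ => ?_
    have h2 := (Finset.mem_erase.1 hγ).1
    rw [← c.card_X hβ h2]
    congr 1
    ext u
    rw [Finset.mem_filter, hZm, mem_X]
    exact ⟨fun h => ⟨h.1.1, h.2⟩, fun h => ⟨⟨h.1, h.2 ▸ h2⟩, h.2⟩⟩
  have h2 : (Finset.univ.erase α).offDiag ⊆ Z.biUnion fun u => (Fx Ω u).offDiag := by
    intro x hx
    obtain ⟨h3, h4, h5⟩ := Finset.mem_offDiag.1 hx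
    obtain ⟨u, hu, hu1, hu2⟩ := c.exists_t h5
    have hFu : FI Ω u := ⟨hu, _, hu1⟩
    refine Finset.mem_biUnion.2 ⟨u, (hZm u).2 ⟨hFu, fun h => ?_⟩,
      Finset.mem_offDiag.2 ⟨mem_Fx.2 hu1, mem_Fx.2 hu2, h5⟩⟩
    have h6 : 2 < (Fx Ω u).card := Finset.two_lt_card_iff.2 ⟨α, x.1, x.2, mem_Fx.2 h,
      mem_Fx.2 hu1, mem_Fx.2 hu2, (Finset.mem_erase.1 h3).1.symm, (Finset.mem_erase.1 h4).1.symm, h5⟩
    rw [c.card_Fx_eq ⟨ht, α, htα⟩ hFu] at h6
    omega
  have h3 := (Finset.card_le_card h2).trans Finset.card_biUnion_le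
  rw [Finset.sum_congr rfl (g := fun _ => 2) (fun u hu => by
      rw [Finset.offDiag_card, c.card_Fx_eq ⟨ht, α, htα⟩ ((hZm u).1 hu).1, hf]),
    Finset.sum_const, smul_eq_mul, h1, Finset.offDiag_card,
    Finset.card_erase_of_mem (Finset.mem_univ α), Finset.card_univ] at h3
  have h4 := c.two_d_le (α := α) hsA hs
  have h5 : Nat.card (c.Hm α hsA hs) ≤ Nat.card ↥(stabilizer G α ⊓ stabilizer G (s • α)) :=
    card_le_of_le fun x hx => ⟨hx.1, hx.2.1⟩
  have h6 : 1 < Fintype.card Ω := Fintype.one_lt_card_iff.2 ⟨_, _, hβ⟩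
  obtain ⟨m, hm⟩ : ∃ m, Fintype.card Ω = m + 2 := ⟨Fintype.card Ω - 2, by omega⟩
  rw [hm] at h3 ⊢
  have h7 : (m + 1) * m ≤ (m + 1) * ((X (G := G) α (s • α)).card * 2) := by
    have e1 : m + 2 - 1 = m + 1 := rfl
    rw [e1, Nat.mul_succ, Nat.add_sub_cancel, mul_assoc] at h3
    exact h3
  have := Nat.le_of_mul_le_mul_left h7 (Nat.succ_pos m)
  omega

end main

theorem gen_prime (a : Ω) : ∃ g : G, g • a = a ∧ (orderOf g).Prime ∧
    Fintype.card Ω = orderOf g + 1 ∧ (∀ x : G, x • a = a → x * g = g * x → x ∈ zpowers g) ∧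
    (∀ y : G, y • a = a → y * g * y⁻¹ ∈ zpowers g) ∧
    (∀ x ∈ zpowers g, ∀ b, b ≠ a → x • b = b → x = 1) ∧
    ∃ b, b ≠ a ∧ Nat.card ↥(stabilizer G a ⊓ stabilizer G b) = Fintype.card Ω - 2 := by
  classical
  obtain ⟨g, hga, -, h2, h3, h4⟩ := c.gen a
  obtain ⟨s, hsA, hs⟩ := c.exists_s a
  have hβ := c.β_ne (α := a) hsA hs
  obtain ⟨t, ht, hta, htb⟩ := c.exists_t hβ.symm
  have h5 := c.card_H_ge hsA hs ht hta htb
  have hg1 : g ≠ 1 := by
    rintro rfl
    exact ne_one_of_inv ht (by simpa using h2 t hta (by simp))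
  have hza : zpowers g ≤ stabilizer G a := zpowers_le.2 hga
  have h6 : orderOf g ≤ Fintype.card Ω - 1 := by
    rw [← Nat.card_zpowers, ← Finset.card_univ, ← Finset.card_erase_of_mem (Finset.mem_univ a),
      ← Fintype.card_coe, ← Nat.card_eq_fintype_card]
    refine Nat.card_le_card_of_injective (fun x : zpowers g => (⟨(x : G) • s • a,
      Finset.mem_erase.2 ⟨fun h => hβ (MulAction.injective (x : G)
        (h.trans (mem_stabilizer_iff.1 (hza x.2)).symm)), Finset.mem_univ _⟩⟩ :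
          Finset.univ.erase a)) fun x y h => ?_
    have := h4 _ (mul_mem (inv_mem y.2) x.2) _ hβ (by
      rw [mul_smul, inv_smul_eq_iff]; exact congrArg Subtype.val h)
    exact Subtype.ext (inv_mul_eq_one.1 this).symm
  let φ : ↥(stabilizer G a ⊓ stabilizer G (s • a)) → {x : zpowers g // x ≠ 1} := fun h =>
    ⟨⟨h * g * (h : G)⁻¹, h3 g (mem_zpowers g) h h.2.1⟩, fun e => hg1 (by
      simpa using congrArg Subtype.val e)⟩
  have hφ : Function.Injective φ := by
    intro x y h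
    have h7 : (x : G) * g * (x : G)⁻¹ = y * g * (y : G)⁻¹ :=
      congrArg (fun z : {x : zpowers g // x ≠ 1} => ((z : zpowers g) : G)) h
    have h8 : ((y : G)⁻¹ * x) * g = g * ((y : G)⁻¹ * x) := by
      calc ((y : G)⁻¹ * x) * g = (y : G)⁻¹ * (x * g * (x : G)⁻¹) * x := by group
        _ = g * ((y : G)⁻¹ * x) := by rw [h7]; group
    have h9 := mul_mem (inv_mem y.2) x.2
    have := h4 _ (h2 _ h9.1 h8) _ hβ h9.2
    exact Subtype.ext (inv_mul_eq_one.1 this).symm
  have h7 : Nat.card {x : zpowers g // x ≠ 1} = orderOf g - 1 := by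
    rw [Nat.card_eq_fintype_card, Fintype.card_subtype_compl, Fintype.card_subtype_eq,
      ← Nat.card_eq_fintype_card, Nat.card_zpowers]
  have h8 := Nat.card_le_card_of_injective φ hφ
  have h9 : 1 < Fintype.card Ω := Fintype.one_lt_card_iff.2 ⟨_, _, hβ⟩
  have h10 : 1 < orderOf g := by
    have := orderOf_pos g
    have := mt orderOf_eq_one_iff.1 hg1
    omega
  have hs := (hφ.bijective_of_nat_card_le (by omega)).2
  refine ⟨g, hga, ?_, by omega, h2, h3 g (mem_zpowers g), h4, s • a, hβ, by omega⟩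
  obtain ⟨p, hp, hd⟩ := Nat.exists_prime_and_dvd h10.ne'
  haveI := Fact.mk hp
  obtain ⟨x, hx⟩ := exists_prime_orderOf_dvd_card' (G := zpowers g) p (by rwa [Nat.card_zpowers])
  obtain ⟨h, hh⟩ := hs ⟨x, fun e => hp.ne_one (by rw [← hx, e, orderOf_one])⟩
  have h11 : (h : G) * g * (h : G)⁻¹ = x :=
    congrArg (fun z : {x : zpowers g // x ≠ 1} => ((z : zpowers g) : G)) hh
  have h12 : orderOf g = p := by
    rw [← hx, ← orderOf_coe x, ← h11]
    exact ((MulAut.conj (h : G)).orderOf_eq g).symm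
  exact h12 ▸ hp

theorem three {h : G} {a b d : Ω} (hab : a ≠ b) (hbd : b ≠ d) (had : a ≠ d) (ha : h • a = a)
    (hb : h • b = b) (hd : h • d = d) : h = 1 := by
  obtain ⟨g, hga, hp, hn, h2, h3, h4, -⟩ := c.gen_prime a
  have hza : zpowers g ≤ stabilizer G a := zpowers_le.2 hga
  let ψ : zpowers g → Finset.univ.erase a := fun x => ⟨(x : G) • b,
    Finset.mem_erase.2 ⟨fun h => hab.symm (MulAction.injective (x : G)
      (h.trans (mem_stabilizer_iff.1 (hza x.2)).symm)), Finset.mem_univ _⟩⟩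
  have hψ : Function.Injective ψ := fun x y h => by
    have := h4 _ (mul_mem (inv_mem y.2) x.2) _ hab.symm (by
      rw [mul_smul, inv_smul_eq_iff]; exact congrArg Subtype.val h)
    exact Subtype.ext (inv_mul_eq_one.1 this).symm
  obtain ⟨⟨x, hx⟩, hxd⟩ := (hψ.bijective_of_nat_card_le (by
    rw [Nat.card_zpowers, Nat.card_eq_fintype_card, Fintype.card_coe,
      Finset.card_erase_of_mem (Finset.mem_univ a), Finset.card_univ]
    omega)).2 ⟨d, Finset.mem_erase.2 ⟨had.symm, Finset.mem_univ _⟩⟩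
  have hxd' : x • b = d := congrArg Subtype.val hxd
  have h5 : h * x * h⁻¹ ∈ zpowers g := by
    obtain ⟨k, rfl⟩ := hx
    simp only
    rw [← conj_zpow]
    exact zpow_mem (h3 h ha) k
  have h6 := h4 _ (mul_mem (inv_mem hx) h5) b hab.symm (by
    rw [mul_smul, inv_smul_eq_iff, mul_smul, mul_smul, inv_smul_eq_iff.2 hb.symm, hxd', hd])
  have hx1 : x ≠ 1 := by
    rintro rfl
    exact hbd (by simpa using hxd')
  have h7 : g ∈ zpowers x := by
    have : zpowers x = zpowers g := eq_of_le_of_card_ge (zpowers_le.2 hx) (by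
      rw [Nat.card_zpowers, Nat.card_zpowers]
      have h8 : orderOf x ∣ orderOf g := orderOf_dvd_of_mem_zpowers hx
      rcases (Nat.dvd_prime hp).1 h8 with h9 | h9
      · exact absurd (orderOf_eq_one_iff.1 h9) hx1
      · exact h9.ge)
    rw [this]
    exact mem_zpowers g
  have h8 : Commute h x := by
    rw [inv_mul_eq_one] at h6
    exact mul_inv_eq_iff_eq_mul.1 h6.symm
  obtain ⟨k, rfl⟩ := h7
  exact h4 _ (h2 h ha (h8.zpow_right k).eq) b hab.symm hb

theorem exists_fix {N : Subgroup G} [hN : N.Normal] (hns : ¬ Group.IsSolvable N) (a : Ω) :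
    ∃ x ∈ N, x ≠ 1 ∧ x • a = a := by
  by_contra hcon
  push Not at hcon
  have h1 : 2 ∣ Nat.card N := by
    by_contra h
    exact hns (S0205.result (by rwa [← Nat.not_even_iff_odd, even_iff_two_dvd]))
  obtain ⟨u, hu⟩ := exists_prime_orderOf_dvd_card' 2 h1
  have hu' : orderOf (u : G) = 2 := by rw [orderOf_coe, hu]
  have h2 : ∀ x ∈ N, x * x = 1 := by
    intro x hx
    by_cases hx1 : x = 1
    · simp [hx1]
    obtain ⟨b, hb1, hb2⟩ := c.two (hcon u u.2 (ne_one_of_inv hu')).symm (hcon x hx hx1).symm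
    have h3 : x⁻¹ * (b * u * b⁻¹) = 1 := by
      by_contra h
      refine hcon _ (mul_mem (inv_mem hx) (hN.conj_mem _ u.2 b)) h ?_
      rw [mul_smul, inv_smul_eq_iff, mul_smul, mul_smul, inv_smul_eq_iff.2 hb1.symm, hb2]
    rw [inv_mul_eq_one.1 h3, conj_mul, sq_of_inv hu']
    simp
  refine hns (Group.isSolvable_of_comm fun x y => Subtype.ext ?_)
  have h3 := h2 _ (mul_mem x.2 y.2)
  calc ((x * y : N) : G) = ((x : G) * y)⁻¹ := (inv_eq_of_mul_eq_one_right h3).symm
    _ = y * x := by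
      rw [mul_inv_rev, inv_eq_of_mul_eq_one_right (h2 _ x.2), inv_eq_of_mul_eq_one_right (h2 _ y.2)]

theorem isZass (a : Ω) : IsZassenhausGroup G Ω := by
  obtain ⟨s, hsA, hs⟩ := c.exists_s a
  have hβ := c.β_ne (α := a) hsA hs
  obtain ⟨t, ht, hta, htb⟩ := c.exists_t hβ.symm
  refine ⟨⟨fun {x y} h => ?_⟩, is_two_pretransitive_iff.2 c.two,
    fun g a b d h1 h2 h3 => c.three h1 h2 h3, ⟨t, ne_one_of_inv ht, _, _, hβ.symm, hta, htb⟩,
    fun N hN htr => ?_⟩
  · have := c.faith (y⁻¹ * x) fun a => by rw [mul_smul, h, inv_smul_smul]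
    exact (inv_mul_eq_one.1 this).symm
  · by_cases hns : Group.IsSolvable N
    · exfalso
      haveI := c.zg a
      refine c.ns (Group.isSolvable_of_ker_le_range N.subtype (QuotientGroup.mk' N) (by simp)
        (hG' := hns) (hG'' := ?_))
      refine Group.isSolvable_of_surjective
        (f := (QuotientGroup.mk' N).comp (stabilizer G a).subtype) fun x => ?_
      obtain ⟨x, rfl⟩ := QuotientGroup.mk'_surjective N x
      obtain ⟨n, hn⟩ := htr.exists_smul_eq a (x⁻¹ • a)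
      refine ⟨⟨x * n, ?_⟩, by simp⟩
      rw [mem_stabilizer_iff, mul_smul]
      exact smul_eq_iff_eq_inv_smul x |>.2 hn
    · obtain ⟨x, hx, hx1, hxa⟩ := c.exists_fix hns a
      refine ⟨a, fun h => hx1 ?_⟩
      have : (⟨x, hx⟩ : N) ∈ stabilizer N a := hxa
      rw [h, mem_bot] at this
      exact congrArg Subtype.val this

theorem final (a : Ω) : ∃ (p : ℕ) (g : G), p.Prime ∧ 3 < p ∧ orderOf g = p ∧
    ¬ p ^ 2 ∣ Nat.card G ∧ (∀ y : G, y • a = a → y * g * y⁻¹ ∈ zpowers g) ∧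
    (∀ N : Subgroup G, N.Normal → ¬ Group.IsSolvable N → g ∈ N) ∧
    ∃ (F : Type) (_ : Field F) (_ : Fintype F), Fintype.card F = p ∧ Nonempty (G ≃* PGL(2, F)) := by
  obtain ⟨g, hga, hp, hn, h2, h3, h4, b, hb, h5⟩ := c.gen_prime a
  have hZ := c.isZass a
  have hG := Perm.Zass.card_eq hZ hb.symm
  obtain ⟨p, hpdef⟩ : ∃ p, orderOf g = p := ⟨_, rfl⟩
  rw [hpdef] at hp hn
  rw [h5, Nat.card_eq_fintype_card (α := Ω), hn] at hG
  have hp2 : p ≠ 2 := by
    rintro rfl
    have := c.even_card a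
    rw [hn] at this
    exact absurd this (by decide)
  have hp3 : p ≠ 3 := by
    rintro rfl
    exact c.ns (Char.isSolvable_of_card_dvd_pow_mul_pow (a := 3) (b := 1) Nat.prime_two
      Nat.prime_three G (by rw [hG]; norm_num))
  have h3p : 3 < p := by have := hp.two_le; omega
  obtain ⟨F, _, _, hF, hiso⟩ := Perm.ZassPSL.pgl_of_sharp hZ (p := p) (f := 1)
    (by rw [Nat.card_eq_fintype_card, hn]; omega) hp hp2 odd_one
    (by rw [Nat.card_eq_fintype_card, hn, pow_one]) hb.symm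
    (by rw [h5, Nat.card_eq_fintype_card])
  refine ⟨p, g, hp, h3p, hpdef, fun hd => ?_, h3, fun N hN hns => ?_, F, inferInstance,
    inferInstance, by rw [← Nat.card_eq_fintype_card, hF, pow_one], hiso⟩
  · rw [hG, Nat.add_sub_cancel, mul_right_comm, pow_two, Nat.mul_dvd_mul_iff_right hp.pos] at hd
    rcases hp.dvd_mul.1 hd with h | h
    · have := Nat.le_of_dvd (by omega) h
      omega
    · exact hp.one_lt.ne' (Nat.dvd_one.1 ((Nat.dvd_add_right (dvd_refl p)).1 h))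
  · obtain ⟨x, hx, hx1, hxa⟩ := c.exists_fix hns a
    obtain ⟨y, hyN, hyg, hy1⟩ : ∃ y ∈ N, y ∈ zpowers g ∧ y ≠ 1 := by
      by_cases h : x * g = g * x
      · exact ⟨x, hx, h2 x hxa h, hx1⟩
      · refine ⟨x * g * x⁻¹ * g⁻¹, ?_, mul_mem (h3 x hxa) (inv_mem (mem_zpowers g)), fun e => h ?_⟩
        · have := mul_mem hx (hN.conj_mem _ (inv_mem hx) g)
          simpa only [mul_assoc] using this
        · rw [mul_inv_eq_one, mul_inv_eq_iff_eq_mul] at e
          exact e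
    have : zpowers y = zpowers g := eq_of_le_of_card_ge (zpowers_le.2 hyg) (by
      rw [Nat.card_zpowers, Nat.card_zpowers]
      have h8 : orderOf y ∣ orderOf g := orderOf_dvd_of_mem_zpowers hyg
      rw [hpdef] at h8 ⊢
      rcases (Nat.dvd_prime hp).1 h8 with h9 | h9
      · exact absurd (orderOf_eq_one_iff.1 h9) hy1
      · exact h9.ge)
    exact (zpowers_le.2 hyN) (this ▸ mem_zpowers g)

end Ctx

end Cfsg.Agent.ZProd
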