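import Mathlib
import Cfsg.Agent.H41.ZProdB
import Cfsg.Agent.Perm.BGroup
import Cfsg.Agent.FGS.SolvRad

/-!
A product of a cyclic group and a Z-group with trivial solvable radical is trivial or `PGL₂(p)`.
-/

set_option autoImplicit false
set_option linter.unusedSectionVars false

namespace Cfsg.Agent.ZProd

open Subgroup MulAction
open scoped commutatorElement MatrixGroups

variable {G : Type*} [Group G] [Finite G] {A B : Subgroup G}

theorem mem_core [hA : IsCyclic A] (hAB : ∀ g : G, ∃ a ∈ A, ∃ b ∈ B, g = a * b) {M : Subgroup G}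
    (hM : B ≤ M) {x : G} (hx : x ∈ A) (hxM : x ∈ M) : x ∈ M.normalCore := by
  intro y
  obtain ⟨a, ha, b, hb, h⟩ := hAB y⁻¹
  letI := hA.commGroup
  have h1 : x * a = a * x := congrArg Subtype.val (mul_comm (⟨x, hx⟩ : A) ⟨a, ha⟩)
  have h2 : y * x * y⁻¹ = b⁻¹ * x * b := by
    rw [← inv_inv y, h, inv_inv, mul_inv_rev, mul_assoc, mul_assoc, ← mul_assoc x, h1]
    group
  rw [h2]
  exact mul_mem (mul_mem (inv_mem (hM hb)) hxM) (hM hb)

theorem bij (hAB : ∀ g : G, ∃ a ∈ A, ∃ b ∈ B, g = a * b) (h : ∀ x ∈ A, x ∈ B → x = 1) :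
    Function.Bijective fun a : A => A.subtype a • ((1 : G) : G ⧸ B) := by
  refine ⟨fun x y e => ?_, fun z => ?_⟩
  · simp only [coe_subtype, Quotient.smul_coe, smul_eq_mul, mul_one] at e
    exact Subtype.ext (inv_mul_eq_one.1 (h _ (mul_mem (inv_mem x.2) y.2) (QuotientGroup.eq.1 e)))
  · obtain ⟨z, rfl⟩ := QuotientGroup.mk_surjective z
    obtain ⟨a, ha, b, hb, rfl⟩ := hAB z
    refine ⟨⟨a, ha⟩, ?_⟩
    simp only [coe_subtype, Quotient.smul_coe, smul_eq_mul, mul_one]
    exact QuotientGroup.eq.2 (by simpa using hb)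

theorem even_A [IsZGroup B] (hns : ¬ Group.IsSolvable G)
    (hAB : ∀ g : G, ∃ a ∈ A, ∃ b ∈ B, g = a * b) (h : ∀ x ∈ A, x ∈ B → x = 1) :
    2 ∣ Nat.card A := by
  rw [Nat.card_eq_of_bijective _ (bij hAB h), ← even_iff_two_dvd, ← Nat.not_odd_iff_even]
  exact fun ho => hns (solvable_of_odd_index B ho)

theorem prim [hA : IsCyclic A] [IsZGroup B] (hns : ¬ Group.IsSolvable G)
    (hAB : ∀ g : G, ∃ a ∈ A, ∃ b ∈ B, g = a * b) (hco : IsCoatom B) (hcore : B.normalCore = ⊥) :
    ∃ (p : ℕ) (g : G), p.Prime ∧ 3 < p ∧ orderOf g = p ∧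
    ¬ p ^ 2 ∣ Nat.card G ∧ (∀ y ∈ B, y * g * y⁻¹ ∈ zpowers g) ∧
    (∀ N : Subgroup G, N.Normal → ¬ Group.IsSolvable N → g ∈ N) ∧
    ∃ (F : Type) (_ : Field F) (_ : Fintype F), Fintype.card F = p ∧ Nonempty (G ≃* PGL(2, F)) := by
  classical
  haveI := Fintype.ofFinite G
  have h1 : ∀ x ∈ A, x ∈ B → x = 1 := fun x hx hxB => by
    have := mem_core hAB le_rfl hx hxB
    rwa [hcore, mem_bot] at this
  have hb := bij hAB h1
  have hev := even_A hns hAB h1
  have hcomm : ∀ x ∈ A, ∀ y ∈ A, x * y = y * x := fun x hx y hy => by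
    letI := hA.commGroup
    exact congrArg Subtype.val (mul_comm (⟨x, hx⟩ : A) ⟨y, hy⟩)
  have hst : ∀ x y : G, y • (x : G ⧸ B) = x ↔ x⁻¹ * y * x ∈ B := fun x y => by
    rw [Quotient.smul_coe, smul_eq_mul, eq_comm, QuotientGroup.eq, mul_assoc]
  have h2 : IsMultiplyPretransitive G (G ⧸ B) 2 := by
    by_contra h2
    letI := hA.commGroup
    have h3 : 2 < Nat.card A := by
      have h4 : Nat.card A ≠ 2 := by
        intro h
        have h5 : B.index = 2 := by rw [← h, Nat.card_eq_of_bijective _ hb]; rfl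
        have h6 := normal_of_index_eq_two h5
        rw [normalCore_eq_self] at hcore
        rw [hcore, index_bot] at h5
        haveI := isCyclic_of_prime_card h5
        exact hns inferInstance
      have := Nat.le_of_dvd Nat.card_pos hev
      omega
    haveI : Nontrivial (G ⧸ B) := by
      rw [← Finite.one_lt_card_iff_nontrivial, ← Nat.card_eq_of_bijective _ hb]
      omega
    refine (Perm.BGroup.imprimitive_of_not_two_trans A.subtype _ hb Nat.prime_two ?_ h3 h2).1 ?_
    · have := IsCyclic.card_powMonoidHom_ker A 2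
      rw [Nat.gcd_eq_right hev] at this
      exact this
    · rw [← isCoatom_stabilizer_iff_preprimitive G ((1 : G) : G ⧸ B), stabilizer_quotient]
      exact hco
  have c : Ctx G (G ⧸ B) A :=
    { faith := fun g hg => by
        have : g ∈ B.normalCore := fun y => by simpa using (hst y⁻¹ g).1 (hg _)
        rwa [hcore, mem_bot] at this
      two := is_two_pretransitive_iff.1 h2
      zg := fun a => by
        obtain ⟨x, rfl⟩ := QuotientGroup.mk_surjective a
        refine IsZGroup.of_injective (G' := B) (f := (((MulAut.conj x⁻¹).toMonoidHom.comp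
          (stabilizer G (x : G ⧸ B)).subtype)).codRestrict B fun y => by
            simpa using (hst x y).1 y.2) fun y z h => ?_
        have := congrArg Subtype.val h
        exact Subtype.ext (by simpa using this)
      cyc := hA
      tr := fun a b => by
        obtain ⟨x, rfl⟩ := hb.2 a
        obtain ⟨y, rfl⟩ := hb.2 b
        exact ⟨y * (x : G)⁻¹, mul_mem y.2 (inv_mem x.2), by simp [mul_smul]⟩
      reg := fun g hg a h => by
        obtain ⟨x, rfl⟩ := hb.2 a
        simp only [coe_subtype, Quotient.smul_coe, smul_eq_mul, mul_one] at h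
        refine h1 g hg ?_
        have := QuotientGroup.eq.1 h.symm
        rwa [hcomm g hg x x.2, inv_mul_cancel_left] at this
      ns := hns }
  obtain ⟨p, g, h3, h4, h5, h6, h7, h8⟩ := c.final ((1 : G) : G ⧸ B)
  exact ⟨p, g, h3, h4, h5, h6, fun y hy => h7 y ((hst 1 y).2 (by simpa using hy)), h8⟩

/-- Minimal normal subgroups. -/
def MinN (N : Subgroup G) : Prop :=
  N.Normal ∧ N ≠ ⊥ ∧ ∀ K : Subgroup G, K.Normal → K ≤ N → K = ⊥ ∨ K = N

theorem fact_sub (hAB : ∀ g : G, ∃ a ∈ A, ∃ b ∈ B, g = a * b) {M : Subgroup G} (hM : B ≤ M) :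
    ∀ g : M, ∃ a ∈ A.subgroupOf M, ∃ b ∈ B.subgroupOf M, g = a * b := by
  intro g
  obtain ⟨a, ha, b, hb, h⟩ := hAB g
  have : a ∈ M := (mul_mem_cancel_right (hM hb)).1 (h ▸ g.2)
  exact ⟨⟨a, this⟩, ha, ⟨b, hM hb⟩, hb, Subtype.ext h⟩

theorem z_sub [IsZGroup B] (M : Subgroup G) : IsZGroup (B.subgroupOf M) :=
  IsZGroup.of_injective (G' := B) (f := (M.subtype.comp (B.subgroupOf M).subtype).codRestrict B
    fun y => y.2) fun _ _ h => Subtype.ext (Subtype.ext (congrArg (fun z : B => (z : G)) h))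

theorem cyc_sub [IsCyclic A] (M : Subgroup G) : IsCyclic (A.subgroupOf M) :=
  isCyclic_of_injective ((M.subtype.comp (A.subgroupOf M).subtype).codRestrict A
    fun y => y.2) fun _ _ h => Subtype.ext (Subtype.ext (congrArg (fun z : A => (z : G)) h))

theorem main [hA : IsCyclic A] [IsZGroup B] (hns : ¬ Group.IsSolvable G)
    (hR : ∀ N : Subgroup G, N.Normal → Group.IsSolvable N → N = ⊥)
    (hAB : ∀ g : G, ∃ a ∈ A, ∃ b ∈ B, g = a * b) :
    ∃ (F : Type) (_ : Field F) (_ : Fintype F) (p : ℕ), p.Prime ∧ 3 < p ∧ Fintype.card F = p ∧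
      Nonempty (G ≃* PGL(2, F)) := by
  have hcore : B.normalCore = ⊥ := hR _ inferInstance
    (Group.isSolvable_of_isSolvable_injective (inclusion_injective B.normalCore_le))
  have h1 : ∀ x ∈ A, x ∈ B → x = 1 := fun x hx hxB => by
    have := mem_core hAB le_rfl hx hxB
    rwa [hcore, mem_bot] at this
  have hover : ∀ M : Subgroup G, B ≤ M → M ≠ B → ∃ N, MinN N ∧ N ≤ M := by
    intro M hM hne
    obtain ⟨x, hx, hxB⟩ := SetLike.exists_of_lt (lt_of_le_of_ne hM hne.symm)
    obtain ⟨a, ha, b, hb, rfl⟩ := hAB x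
    have h2 := mem_core hAB hM ha ((mul_mem_cancel_right (hM hb)).1 hx)
    obtain ⟨N, h3, h4, h5, h6⟩ := Grp.exists_minNormal_le M.normalCore fun h => by
      rw [h, mem_bot] at h2
      exact hxB (by simpa [h2] using hb)
    exact ⟨N, ⟨h3, h4, h6⟩, h5.trans M.normalCore_le⟩
  have hNns : ∀ N : Subgroup G, MinN N → ¬ Group.IsSolvable N := fun N hN h => hN.2.1 (hR N hN.1 h)
  have heq : ∀ N N' : Subgroup G, MinN N → MinN N' → N' ≤ N ⊔ B → N' = N := by
    intro N N' hN hN' hle
    haveI := hN.1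
    haveI := hN'.1
    rcases hN'.2.2 (N' ⊓ N) inferInstance inf_le_left with h | h
    · exfalso
      haveI : Group.IsSolvable (B.map (QuotientGroup.mk' N)) :=
        Group.isSolvable_of_surjective ((QuotientGroup.mk' N).subgroupMap_surjective B)
      refine hNns N' hN' (Group.isSolvable_of_isSolvable_injective
        (f := ((QuotientGroup.mk' N).comp N'.subtype).codRestrict (B.map (QuotientGroup.mk' N))
          fun x => ?_) ((injective_iff_map_eq_one _).2 fun x hx => ?_))
      · have := map_mono (f := QuotientGroup.mk' N) hle (mem_map_of_mem _ x.2)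
        rwa [Subgroup.map_sup, (map_eq_bot_iff N).2 (by simp), bot_sup_eq] at this
      · have h2 : (x : G) ∈ N' ⊓ N :=
          ⟨x.2, (QuotientGroup.eq_one_iff _).1 (congrArg Subtype.val hx)⟩
        rw [h, mem_bot] at h2
        exact Subtype.ext h2
    · exact (hN.2.2 N' hN'.1 (inf_eq_left.1 h)).resolve_left hN'.2.1
  have hmax : ∀ N : Subgroup G, MinN N → ∀ M, B ≤ M → M ≤ N ⊔ B → M ≠ B → M = N ⊔ B := by
    intro N hN M h2 h3 h4
    obtain ⟨N', hN', h5⟩ := hover M h2 h4
    exact le_antisymm h3 (sup_le (heq N N' hN hN' (h5.trans h3) ▸ h5) h2)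
  have hMns : ∀ N : Subgroup G, MinN N → ¬ Group.IsSolvable ↥(N ⊔ B) := fun N hN h =>
    hNns N hN (Group.isSolvable_of_isSolvable_injective
      (inclusion_injective (le_sup_left (b := B))))
  have hs : ∀ N : Subgroup G, MinN N → ∃ s ∈ A, s ∈ N ⊔ B ∧ orderOf s = 2 := by
    intro N hN
    haveI := z_sub (B := B) (N ⊔ B)
    obtain ⟨s, hs⟩ := exists_prime_orderOf_dvd_card' 2 (even_A (hMns N hN)
      (fact_sub hAB le_sup_right) fun x hx hxB => Subtype.ext (h1 x hx hxB))
    exact ⟨s, s.2, (s : ↥(N ⊔ B)).2, by rw [orderOf_coe, orderOf_coe, hs]⟩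
  have huniq : ∀ N N' : Subgroup G, MinN N → MinN N' → N' = N := by
    intro N N' hN hN'
    obtain ⟨s, h2, h3, h4⟩ := hs N hN
    obtain ⟨s', h5, h6, h7⟩ := hs N' hN'
    rw [cyc_inv h4 h7 h2 h5] at h6
    have h8 := hmax N' hN' ((N' ⊔ B) ⊓ (N ⊔ B)) (le_inf le_sup_right le_sup_right) inf_le_left
      fun h => ne_one_of_inv h4 (h1 s h2 (h ▸ ⟨h6, h3⟩))
    exact heq N N' hN hN' (le_sup_left.trans (inf_eq_left.1 h8))
  obtain ⟨N, hN, -⟩ := hover ⊤ le_top fun h => hns (by
    have : Group.IsSolvable (⊤ : Subgroup G) := h ▸ inferInstance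
    exact Group.isSolvable_of_surjective (f := (topEquiv (G := G)).toMonoidHom)
      topEquiv.surjective)
  haveI := hN.1
  have hC : centralizer (N : Set G) = ⊥ := by
    by_contra h
    obtain ⟨N', h3, h4, h5, h6⟩ := Grp.exists_minNormal_le _ h
    rw [huniq N N' hN ⟨h3, h4, h6⟩] at h5
    exact hNns N hN (Group.isSolvable_of_comm fun x y => Subtype.ext (h5 y.2 x x.2))
  set M := N ⊔ B with hM
  have hNM : N ≤ M := le_sup_left
  haveI := z_sub (B := B) M
  haveI := cyc_sub (A := A) M
  have hco : IsCoatom (B.subgroupOf M) := by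
    refine ⟨fun h => hNns N hN (Group.isSolvable_of_isSolvable_injective
      (inclusion_injective (hNM.trans (subgroupOf_eq_top.1 h)))), fun K hK => ?_⟩
    have h2 : B ≤ K.map M.subtype := by
      have := map_mono (f := M.subtype) hK.le
      rwa [subgroupOf_map_subtype, inf_eq_left.2 le_sup_right] at this
    have h3 := hmax N hN _ h2 (map_subtype_le K) fun h => hK.ne (by
      rw [← h, subgroupOf, comap_map_eq_self_of_injective M.subtype_injective])
    apply map_injective M.subtype_injective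
    rw [h3, ← MonoidHom.range_eq_map, range_subtype]
  have hcore' : (B.subgroupOf M).normalCore = ⊥ := by
    have h2 : (B.subgroupOf M).normalCore.comap (inclusion hNM) ≤ solvableRadical N := by
      refine FGS.le_solvableRadical inferInstance (Group.isSolvable_of_isSolvable_injective
        (f := (N.subtype.comp (Subgroup.subtype _)).codRestrict B fun y => ?_) fun y z h =>
          Subtype.ext (Subtype.ext (congrArg (fun z : B => (z : G)) h)))
      exact (B.subgroupOf M).normalCore_le y.2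
    have h3 := hR ((solvableRadical N).map N.subtype) inferInstance (by
      haveI := FGS.isSolvable_solvableRadical N
      exact Group.isSolvable_of_surjective (N.subtype.subgroupMap_surjective _))
    rw [eq_bot_iff]
    intro d hd
    have h4 : (d : G) ∈ centralizer (N : Set G) := by
      intro n hn
      have h5 : n * d * n⁻¹ * (d : G)⁻¹ ∈ N := by
        have := mul_mem hn (hN.1.conj_mem _ (inv_mem hn) d)
        simpa only [mul_assoc] using this
      have h6 : (⟨_, h5⟩ : N) ∈ (B.subgroupOf M).normalCore.comap (inclusion hNM) :=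
        mul_mem ((normalCore_normal _).conj_mem d hd ⟨n, hNM hn⟩) (inv_mem hd)
      have h7 := mem_map_of_mem N.subtype (h2 h6)
      rw [h3, mem_bot] at h7
      exact mul_inv_eq_iff_eq_mul.1 (mul_inv_eq_one.1 h7)
    rw [hC, mem_bot] at h4
    exact Subtype.ext h4
  obtain ⟨p, g, hp, h3p, hg, hd, hn, hgN, F, _, _, hF, ⟨e⟩⟩ :=
    prim (hMns N hN) (fact_sub hAB le_sup_right) hco hcore'
  haveI := Fact.mk hp
  have hgN' : (g : G) ∈ N := hgN (N.subgroupOf M) inferInstance fun h => hNns N hN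
    (Group.isSolvable_of_surjective (f := (subgroupOfEquivOfLe hNM).toMonoidHom)
      (subgroupOfEquivOfLe hNM).surjective)
  have ho : orderOf (⟨g, hgN'⟩ : N) = p := by rw [← hg, ← orderOf_coe, ← orderOf_coe g]
  have hP : IsPGroup p (zpowers (⟨g, hgN'⟩ : N)) :=
    IsPGroup.of_card (n := 1) (by rw [Nat.card_zpowers, ho, pow_one])
  have hfr := Sylow.normalizer_sup_eq_top (hP.toSylow fun h => hd (by
    refine dvd_trans ?_ (card_dvd_of_le hNM)
    rw [← (zpowers (⟨g, hgN'⟩ : N)).card_mul_index, Nat.card_zpowers, ho, pow_two]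
    exact Nat.mul_dvd_mul_left p h))
  rw [IsPGroup.toSylow_coe, MonoidHom.map_zpowers] at hfr
  have hB : B ≤ normalizer (zpowers (g : G) : Set G) := by
    intro y hy
    refine mem_normalizer_fintype ?_
    rintro _ ⟨k, rfl⟩
    obtain ⟨j, hj⟩ := hn ⟨y, le_sup_right (a := N) hy⟩ hy
    have hj' : (g : G) ^ j = y * g * y⁻¹ := congrArg Subtype.val hj
    simp only
    rw [← conj_zpow, ← hj']
    exact zpow_mem (zpow_mem_zpowers _ j) k
  have hBN : normalizer (zpowers (g : G) : Set G) = B := by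
    by_contra h
    obtain ⟨N', hN', h2⟩ := hover _ hB h
    rw [huniq N N' hN hN'] at h2
    have h3 : normalizer (zpowers (g : G) : Set G) = ⊤ := by
      rw [← hfr]
      exact (sup_eq_left.2 h2).symm
    have h4 := hR _ (normalizer_eq_top_iff.1 h3) inferInstance
    rw [zpowers_eq_bot] at h4
    rw [← orderOf_coe, h4, orderOf_one] at hg
    exact hp.ne_one hg.symm
  have hMt : M = ⊤ := by
    rw [hM, sup_comm, ← hBN]
    exact hfr
  exact ⟨F, inferInstance, inferInstance, p, hp, h3p, hF,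
    ⟨(topEquiv.symm.trans (MulEquiv.subgroupCongr hMt.symm)).trans e⟩⟩

end Cfsg.Agent.ZProd
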